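import Cfsg.Agent.Lib.InvT.Filt

/-!
The basic computations in the filtration: squares and conjugates of a product with a low factor, and
commutators of products.
-/

set_option autoImplicit false
set_option linter.unusedSectionVars false
set_option linter.unusedVariables false
set_option linter.ambiguousOpen false
set_option linter.unusedSimpArgs false

namespace Cfsg.Agent.Lib.InvT

open scoped MatrixGroups Matrix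
open Cfsg Lie ChevalleyDatum
open Cfsg.Agent.Lib.Chev
open Tables Tables2 Tables3 Raise Basic AxBasic Torus Products Products2 Mono1 Mono2 Mono3
open Cfsg.Agent.Lib.Twisted.Fact Cfsg.Agent.Lib.InvE.Red

variable {D : ChevalleyDatum} {F : Type*} [Field F] [CharP F 2]

variable (ax : Ax D F) (h : Tab D) (hs : SL D) {f : ℕ → ℤ} (hf : Lev D f)

include h hs hf

/-- The square of a product with a low involutory factor. -/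
theorem core_sq {l w : ℤ} (hl : 1 ≤ l) (hw : l + 1 ≤ w) {A z₁ a z₂ : GL D.Idx F}
    (hA : A ∈ GE ax f l) (hAA : A * A = 1) (hz1 : z₁ ∈ GE ax f (l + 1)) (hc : z₁ * A = A * z₁)
    (ha : a ∈ GE ax f w) (hz2 : z₂ ∈ GE ax f (w + 1))
    (hy : (A * (z₁ * (a * z₂))) * (A * (z₁ * (a * z₂))) = 1) :
    ∃ n ∈ GE ax f (l + w + 1), (A * a * A⁻¹ * a⁻¹) * (z₁ * z₁) * n = 1 := by
  have hAi : A⁻¹ = A := inv_eq_of_mul_eq_one_left hAA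
  set B := a * z₂ with hB
  have hBm : B ∈ GE ax f w := Subgroup.mul_mem _ ha (GE_mono ax (by omega) hz2)
  set c₁ := A * B * A⁻¹ * B⁻¹ with hc₁
  have hc₁m : c₁ ∈ GE ax f (l + w) := comm_GE ax h hs hf hA hBm
  set n₁ := c₁⁻¹ * z₁ * c₁⁻¹⁻¹ * z₁⁻¹ with hn₁
  have hn₁m : n₁ ∈ GE ax f (l + w + 1) :=
    GE_mono ax (by omega) (comm_GE ax h hs hf (Subgroup.inv_mem _ hc₁m) hz1)
  set n₂ := z₁⁻¹ * B * z₁⁻¹⁻¹ * B⁻¹ with hn₂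
  have hn₂m : n₂ ∈ GE ax f (l + w + 1) :=
    GE_mono ax (by omega) (comm_GE ax h hs hf (Subgroup.inv_mem _ hz1) hBm)
  have hn₃m : B * B ∈ GE ax f (l + w + 1) := GE_mono ax (by omega) (sq_GE ax h hs hf hBm)
  set c₃ := A * z₂ * A⁻¹ * z₂⁻¹ with hc₃
  have hc₃m : c₃ ∈ GE ax f (l + w + 1) :=
    GE_mono ax (by omega) (comm_GE ax h hs hf hA hz2)
  set n₅ := a * c₃ * a⁻¹ with hn₅
  have hn₅m : n₅ ∈ GE ax f (l + w + 1) := GE_normal ax h hs hf (GE_le_pos ax w ha) hc₃m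
  have hzz : z₁ * z₁ ∈ rootClosure ax D.IsPosRoot := Subgroup.mul_mem _ (GE_le_pos ax _ hz1) (GE_le_pos ax _ hz1)
  have hn₄m : (z₁ * z₁)⁻¹ * n₁ * (z₁ * z₁)⁻¹⁻¹ ∈ GE ax f (l + w + 1) :=
    GE_normal ax h hs hf (Subgroup.inv_mem _ hzz) hn₁m
  have hn₆m : (z₁ * z₁)⁻¹ * n₅ * (z₁ * z₁)⁻¹⁻¹ ∈ GE ax f (l + w + 1) :=
    GE_normal ax h hs hf (Subgroup.inv_mem _ hzz) hn₅m
  refine ⟨((z₁ * z₁)⁻¹ * n₅ * (z₁ * z₁)⁻¹⁻¹) * ((z₁ * z₁)⁻¹ * n₁ * (z₁ * z₁)⁻¹⁻¹) * n₂ * (B * B),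
    Subgroup.mul_mem _ (Subgroup.mul_mem _ (Subgroup.mul_mem _ hn₆m hn₄m) hn₂m) hn₃m, ?_⟩
  rw [← hy]
  have e1 : (A * (z₁ * B)) * (A * (z₁ * B)) = z₁ * (A * B * A⁻¹) * z₁ * B := by
    have : A * z₁ = z₁ * A := hc.symm
    rw [hAi]
    calc (A * (z₁ * B)) * (A * (z₁ * B)) = (A * z₁) * B * A * z₁ * B := by group
      _ = z₁ * A * B * A * z₁ * B := by rw [this]
      _ = _ := by group
  rw [e1]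
  have e2 : c₁ = (A * a * A⁻¹ * a⁻¹) * n₅ := by
    rw [hc₁, hn₅, hc₃, hB]
    group
  have e3 : A * B * A⁻¹ = c₁ * B := by
    rw [hc₁]
    group
  rw [e3]
  have e4 : z₁ * (c₁ * B) * z₁ * B = c₁ * n₁ * (z₁ * z₁) * n₂ * (B * B) := by
    rw [hn₁, hn₂]
    group
  rw [e4, e2]
  generalize z₁ * z₁ = Z
  group

/-- The conjugate of a product with a low factor. -/
theorem clear_core {l w : ℤ} (hl : 1 ≤ l) (hw : l + 1 ≤ w) {g A z₁ a z₂ n₀ : GL D.Idx F}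
    (hg : g ∈ GE ax f (w - l)) (hA : A ∈ GE ax f l) (hz1 : z₁ ∈ GE ax f (l + 1))
    (ha : a ∈ GE ax f w) (haa : a * a = 1) (hz2 : z₂ ∈ GE ax f (w + 1)) (hn₀ : n₀ ∈ GE ax f (w + 1))
    (he : g * A * g⁻¹ * A⁻¹ = a * n₀) :
    ∃ n ∈ GE ax f (w + 1), g * (A * (z₁ * (a * z₂))) * g⁻¹ = A * (z₁ * n) := by
  set z := z₁ * (a * z₂) with hz
  have hzm : z ∈ GE ax f (l + 1) :=
    Subgroup.mul_mem _ hz1 (Subgroup.mul_mem _ (GE_mono ax hw ha) (GE_mono ax (by omega) hz2))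
  set c := g * z * g⁻¹ * z⁻¹ with hc
  have hcm : c ∈ GE ax f (w + 1) := by
    have := comm_GE ax h hs hf hg hzm
    exact GE_mono ax (by omega) this
  set n₂ := A⁻¹ * a * A⁻¹⁻¹ * a⁻¹ with hn₂
  have hn₂m : n₂ ∈ GE ax f (w + 1) :=
    GE_mono ax (by omega) (comm_GE ax h hs hf (Subgroup.inv_mem _ hA) ha)
  have hAp := GE_le_pos ax _ hA
  have hn₃m : A⁻¹ * n₀ * A⁻¹⁻¹ ∈ GE ax f (w + 1) := GE_normal ax h hs hf (Subgroup.inv_mem _ hAp) hn₀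
  have hn₅m : a * ((A⁻¹ * n₀ * A⁻¹⁻¹) * c) * a⁻¹ ∈ GE ax f (w + 1) :=
    GE_normal ax h hs hf (GE_le_pos ax _ ha) (Subgroup.mul_mem _ hn₃m hcm)
  set n₆ := z₁⁻¹ * a * z₁⁻¹⁻¹ * a⁻¹ with hn₆
  have hn₆m : n₆ ∈ GE ax f (w + 1) :=
    GE_mono ax (by omega) (comm_GE ax h hs hf (Subgroup.inv_mem _ hz1) ha)
  have hz1p := GE_le_pos ax _ hz1
  have hn₇m : z₁⁻¹ * (n₂ * (a * ((A⁻¹ * n₀ * A⁻¹⁻¹) * c) * a⁻¹)) * z₁⁻¹⁻¹ ∈ GE ax f (w + 1) :=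
    GE_normal ax h hs hf (Subgroup.inv_mem _ hz1p) (Subgroup.mul_mem _ hn₂m hn₅m)
  refine ⟨(z₁⁻¹ * (n₂ * (a * ((A⁻¹ * n₀ * A⁻¹⁻¹) * c) * a⁻¹)) * z₁⁻¹⁻¹) * n₆ * z₂,
    Subgroup.mul_mem _ (Subgroup.mul_mem _ hn₇m hn₆m) hz2, ?_⟩
  have e1 : g * (A * z) * g⁻¹ = (g * A * g⁻¹ * A⁻¹) * A * (c * z) := by
    rw [hc]
    group
  rw [e1, he]
  have hai : a⁻¹ = a := inv_eq_of_mul_eq_one_left haa
  have e2 : a * n₀ * A * (c * z) = A * n₂ * (a * ((A⁻¹ * n₀ * A⁻¹⁻¹) * c) * a⁻¹) * (a * z₁ * a) * z₂ := by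
    rw [hz, hn₂, hai]
    have : a * a = 1 := haa
    calc a * n₀ * A * (c * (z₁ * (a * z₂)))
        = A * (A⁻¹ * a * A⁻¹⁻¹ * a⁻¹) * (a * (A⁻¹ * n₀ * A⁻¹⁻¹ * c) * a⁻¹) * (a * (z₁ * a)) * z₂ := by group
      _ = _ := by rw [hai]; group
  rw [e2]
  have e3 : a * z₁ * a = z₁ * n₆ := by
    rw [hn₆]
    have : a = a⁻¹ := hai.symm
    calc a * z₁ * a = a * z₁ * a⁻¹ := by rw [hai]
      _ = _ := by group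
  rw [e3]
  group

omit h hs hf in
lemma comm_one_left {G : Type*} [Group G] (b : G) : (1 : G) * b * 1⁻¹ * b⁻¹ = 1 := by group

omit h hs hf in
lemma comm_one_right {G : Type*} [Group G] (a : G) : a * 1 * a⁻¹ * 1⁻¹ = 1 := by group

/-- Commutators of products, modulo the next level. -/
theorem comm_prod {l m : ℤ} (hl : 1 ≤ l) (hm : 1 ≤ m) {g₁ g₂ A₁ A₂ : GL D.Idx F}
    (hg₁ : g₁ ∈ GE ax f l) (hg₂ : g₂ ∈ GE ax f l) (hA₁ : A₁ ∈ GE ax f m) (hA₂ : A₂ ∈ GE ax f m) :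
    ∃ n ∈ GE ax f (l + m + 1), (g₁ * g₂) * (A₁ * A₂) * (g₁ * g₂)⁻¹ * (A₁ * A₂)⁻¹ =
      (g₁ * A₁ * g₁⁻¹ * A₁⁻¹) * (g₁ * A₂ * g₁⁻¹ * A₂⁻¹) * (g₂ * A₁ * g₂⁻¹ * A₁⁻¹) * (g₂ * A₂ * g₂⁻¹ * A₂⁻¹) * n := by
  -- the four commutators
  set c₁₁ := g₁ * A₁ * g₁⁻¹ * A₁⁻¹ with hc₁₁
  set c₁₂ := g₁ * A₂ * g₁⁻¹ * A₂⁻¹ with hc₁₂
  set c₂₁ := g₂ * A₁ * g₂⁻¹ * A₁⁻¹ with hc₂₁
  set c₂₂ := g₂ * A₂ * g₂⁻¹ * A₂⁻¹ with hc₂₂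
  have m₁₁ : c₁₁ ∈ GE ax f (l + m) := comm_GE ax h hs hf hg₁ hA₁
  have m₁₂ : c₁₂ ∈ GE ax f (l + m) := comm_GE ax h hs hf hg₁ hA₂
  have m₂₁ : c₂₁ ∈ GE ax f (l + m) := comm_GE ax h hs hf hg₂ hA₁
  have m₂₂ : c₂₂ ∈ GE ax f (l + m) := comm_GE ax h hs hf hg₂ hA₂
  -- the generic identity
  -- `(g₁ g₂) A (g₁ g₂)⁻¹ A⁻¹ = g₁ [g₂, A] g₁⁻¹ [g₁, A]`, `[g, A₁ A₂] = [g, A₁] A₁ [g, A₂] A₁⁻¹`.
  have key : ∀ {g : GL D.Idx F}, g ∈ GE ax f l → ∃ n ∈ GE ax f (l + m + 1),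
      g * (A₁ * A₂) * g⁻¹ * (A₁ * A₂)⁻¹ = (g * A₁ * g⁻¹ * A₁⁻¹) * (g * A₂ * g⁻¹ * A₂⁻¹) * n := by
    intro g hg
    set c₂ := g * A₂ * g⁻¹ * A₂⁻¹ with hc₂
    have hm₂ : c₂ ∈ GE ax f (l + m) := comm_GE ax h hs hf hg hA₂
    refine ⟨c₂⁻¹ * (A₁ * c₂ * A₁⁻¹ * c₂⁻¹) * c₂, ?_, ?_⟩
    · have h1 : A₁ * c₂ * A₁⁻¹ * c₂⁻¹ ∈ GE ax f (l + m + 1) :=
        GE_mono ax (by omega) (comm_GE ax h hs hf hA₁ hm₂)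
      have := GE_normal ax h hs hf (Subgroup.inv_mem _ (GE_le_pos ax _ hm₂)) h1
      simpa using this
    · rw [hc₂]
      group
  have key2 : ∃ n ∈ GE ax f (l + m + 1), (g₁ * g₂) * (A₁ * A₂) * (g₁ * g₂)⁻¹ * (A₁ * A₂)⁻¹ =
      n * (g₂ * (A₁ * A₂) * g₂⁻¹ * (A₁ * A₂)⁻¹) * (g₁ * (A₁ * A₂) * g₁⁻¹ * (A₁ * A₂)⁻¹) := by
    set c := g₂ * (A₁ * A₂) * g₂⁻¹ * (A₁ * A₂)⁻¹ with hcd
    have hm₃ : c ∈ GE ax f (l + m) := comm_GE ax h hs hf hg₂ (Subgroup.mul_mem _ hA₁ hA₂)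
    refine ⟨g₁ * c * g₁⁻¹ * c⁻¹, GE_mono ax (by omega) (comm_GE ax h hs hf hg₁ hm₃), ?_⟩
    rw [hcd]
    group
  obtain ⟨n₁, hn₁, e₁⟩ := key hg₁
  obtain ⟨n₂, hn₂, e₂⟩ := key hg₂
  obtain ⟨n₃, hn₃, e₃⟩ := key2
  rw [e₃, e₁, e₂]
  set P := c₂₁ * c₂₂ with hP
  set Q := c₁₁ * c₁₂ with hQ
  have hPm : P ∈ GE ax f (l + m) := Subgroup.mul_mem _ m₂₁ m₂₂
  have hQm : Q ∈ GE ax f (l + m) := Subgroup.mul_mem _ m₁₁ m₁₂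
  have h1 : P⁻¹ * Q⁻¹ * P⁻¹⁻¹ * Q⁻¹⁻¹ ∈ GE ax f (l + m + 1) :=
    GE_mono ax (by omega) (comm_GE ax h hs hf (Subgroup.inv_mem _ hPm) (Subgroup.inv_mem _ hQm))
  have h2' : P⁻¹ * n₃ * P⁻¹⁻¹ ∈ GE ax f (l + m + 1) :=
    GE_normal ax h hs hf (Subgroup.inv_mem _ (GE_le_pos ax _ hPm)) hn₃
  have h3 : Q⁻¹ * ((P⁻¹ * n₃ * P⁻¹⁻¹) * n₂) * Q⁻¹⁻¹ ∈ GE ax f (l + m + 1) :=
    GE_normal ax h hs hf (Subgroup.inv_mem _ (GE_le_pos ax _ hQm)) (Subgroup.mul_mem _ h2' hn₂)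
  refine ⟨(P⁻¹ * Q⁻¹ * P⁻¹⁻¹ * Q⁻¹⁻¹) * (Q⁻¹ * ((P⁻¹ * n₃ * P⁻¹⁻¹) * n₂) * Q⁻¹⁻¹) * n₁, Subgroup.mul_mem _ (Subgroup.mul_mem _ h1 h3) hn₁, ?_⟩
  show n₃ * (P * n₂) * (Q * n₁) = Q * c₂₁ * c₂₂ * _
  rw [mul_assoc Q c₂₁ c₂₂, ← hP]
  group

end Cfsg.Agent.Lib.InvT
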