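import Cfsg.Agent.Lib.InvT.Rel
import Cfsg.Agent.Lib.Twisted.E6O
import Cfsg.Agent.Lib.Twisted.E6c
import Cfsg.Agent.Lib.InvE.DataE6

/-!
²E₆: the facts of the general reduction for the symmetry of E₆.
-/

set_option autoImplicit false
set_option linter.unusedSectionVars false
set_option linter.unusedVariables false
set_option linter.ambiguousOpen false
set_option linter.unusedSimpArgs false
set_option maxRecDepth 100000

namespace Cfsg.Agent.Lib.InvT.E6I

open scoped MatrixGroups Matrix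
open Cfsg Lie ChevalleyDatum
open Cfsg.Agent.Lib.Chev
open Tables Tables2 Tables3 Raise Basic AxBasic Torus Products Products2 Mono1 Mono2 Mono3
open Cfsg.Agent.Lib.Twisted.Fact Cfsg.Agent.Lib.InvE.Red Cfsg.Agent.Lib.InvE.Fusion Cfsg.Agent.Lib.Twisted.Tw
open Cfsg.Agent.Lib.InvE.Bits Cfsg.Agent.Lib.InvE.Tree Cfsg.Agent.Lib.Twisted.Ortho
open Cfsg.Agent.Lib.Twisted.E6 Cfsg.Agent.Lib.Twisted.Struct

local notation "ρE" => Se.ρ

/-- The weights of the level. -/
def wtE (i : ℕ) : ℤ := [1, 10, 100, 1000, 100, 1].getD i 0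

/-- The level. -/
def fE (r : ℕ) : ℤ := lin chevE6 wtE r

theorem fE_pos : ∀ r, r < chevE6.nroots → chevE6.IsPosRoot r → 0 < fE r := by decide +kernel
theorem fE_neg : ∀ r, r < chevE6.nroots → fE (chevE6.neg r) = - fE r := by decide +kernel
theorem ρ_ltE : ∀ r, r < chevE6.nroots → ρE r < chevE6.nroots := by decide +kernel
theorem ρ_ρE : ∀ r, r < chevE6.nroots → ρE (ρE r) = r := by decide +kernel
theorem ρ_posE : ∀ r, r < chevE6.nroots → chevE6.IsPosRoot r → chevE6.IsPosRoot (ρE r) := by decide +kernel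
theorem ρ_negE : ∀ r, r < chevE6.nroots → ρE (chevE6.neg r) = chevE6.neg (ρE r) := by decide +kernel
theorem ρ_levE : ∀ r, r < chevE6.nroots → fE (ρE r) = fE r := by decide +kernel
theorem ρ_pairE : ∀ a, a < chevE6.nroots → ∀ b, b < chevE6.nroots → pair chevE6 (ρE a) (ρE b) = pair chevE6 a b := by decide +kernel
theorem sepE : ∀ r, r < chevE6.nroots → ∀ v, v < chevE6.nroots → (chevE6.IsPosRoot r ∧ chevE6.IsPosRoot v ∧ fE r = fE v) → (v = r ∨ v = ρE r) := by
  decide +kernel
theorem orthE : ∀ r, r < chevE6.nroots → ρE r ≠ r → pair chevE6 r (ρE r) = 0 := by decide +kernel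
theorem p11E : ∀ r, r < chevE6.nroots → ∀ v, v < chevE6.nroots → ρE r ≠ r → pair chevE6 r v = 1 → pair chevE6 (ρE r) v = 1 → ρE v = v := by
  decide +kernel
theorem pmmE : ∀ r, r < chevE6.nroots → ∀ v, v < chevE6.nroots → ρE r ≠ r → pair chevE6 r v = -1 → pair chevE6 (ρE r) v = -1 → ρE v = v := by
  decide +kernel
theorem γE : ∀ r, r < chevE6.nroots → Se.γ r = 1 ∨ Se.γ r = -1 := by decide +kernel

/-- The check of the symmetry on sums. -/
def addChk (a b : ℕ) : Bool :=
  match chevE6.commTerms a b with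
  | [(k, c, 1, 1)] =>
    if c % 2 = 1 then
      match chevE6.commTerms (ρE a) (ρE b) with
      | [(k', c', 1, 1)] => decide (k' = ρE k) && decide (c' % 2 = 1)
      | _ => false
    else true
  | _ => true

theorem addChkE : ∀ a, a < chevE6.nroots → ∀ b, b < chevE6.nroots → addChk a b = true := by decide +kernel


end Cfsg.Agent.Lib.InvT.E6I
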