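import Cfsg.Agent.Lib.InvT.E6D

/-!
²E₆(q), q even: exactly three classes of involutions.
-/

set_option autoImplicit false
set_option linter.unusedSectionVars false
set_option linter.unusedVariables false
set_option linter.ambiguousOpen false
set_option linter.unusedSimpArgs false
set_option maxHeartbeats 1000000

namespace Cfsg.Agent.Lib.InvT.E6D

open scoped MatrixGroups Matrix
open Cfsg Lie ChevalleyDatum
open Cfsg.Agent.Lib.Chev
open Tables Tables2 AxBasic Mono2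
open Cfsg.Agent.Lib.InvE.Red Cfsg.Agent.Lib.InvE.Fusion Cfsg.Agent.Lib.InvE.Tree Cfsg.Agent.Lib.InvE.Final
open Cfsg.Agent.Lib.InvE.Bits
open Cfsg.Agent.Lib.Twisted.E6 Cfsg.Agent.Lib.InvT.E6I Cfsg.Agent.Lib.Twisted.Ortho

local notation "ρE" => Se.ρ

variable {K : Type*} [Field K] [CharP K 2] {q : ℕ} (ax : Ax chevE6 K)

section Fix

variable {φ : K ≃+* K} (hφ : ∀ t, φ t = t ^ q) (hφ2 : ∀ t, φ (φ t) = t)

variable [Fintype K] (hq : IsPrimePow q) (hK : Fintype.card K = q ^ 2)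

include hφ hφ2 hq hK

/-- The three classes of involutions, inside the group. -/
theorem exists_conj_rep (h2 : Even q) {y : GL chevE6.Idx K} (hy : y ∈ twistedE6 K q) (hyy : y * y = 1) (hy1 : y ≠ 1) :
    ∃ g ∈ twistedE6 K q, g * y * g⁻¹ = PP ax [71] ∨ g * y * g⁻¹ = PP ax [71, 60] ∨ g * y * g⁻¹ = PP ax [71, 60, 44] := by
  classical
  have hq2 := hq.two_le
  have : Fact (Nat.Prime 2) := ⟨Nat.prime_two⟩
  -- Sylow
  obtain ⟨m, hm⟩ : ∃ m, q = 2 ^ m := by
    obtain ⟨p, k, hp, hk, e⟩ := hq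
    have hp2 : p = 2 := by
      have h3 : 2 ∣ p ^ k := e ▸ h2.two_dvd
      exact ((Nat.prime_dvd_prime_iff_eq Nat.prime_two hp.nat_prime).mp (Nat.prime_two.dvd_of_dvd_pow h3)).symm
    exact ⟨k, by rw [← e, hp2]⟩
  have hcardU : Nat.card ↥((chevE6.posUnipotent K ⊓ twistedE6 K q).subgroupOf (twistedE6 K q)) = q ^ 36 := by
    rw [← card_U_main hq hK]
    exact Nat.card_congr (Subgroup.subgroupOfEquivOfLe inf_le_right).toEquiv
  have hP : IsPGroup 2 ↥((chevE6.posUnipotent K ⊓ twistedE6 K q).subgroupOf (twistedE6 K q)) := by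
    apply IsPGroup.of_card (n := m * 36)
    rw [hcardU, hm, pow_mul]
  have hidx : ¬ 2 ∣ ((chevE6.posUnipotent K ⊓ twistedE6 K q).subgroupOf (twistedE6 K q)).index := by
    have h3 := Subgroup.card_mul_index ((chevE6.posUnipotent K ⊓ twistedE6 K q).subgroupOf (twistedE6 K q))
    have h4 := Cfsg.Agent.Lib.Twisted.E6O.card_E6 hq hK
    rw [hcardU] at h3
    rw [← h3] at h4
    have hpos : 0 < q ^ 36 := by positivity
    have h5 : Nat.gcd 3 (q + 1) * ((chevE6.posUnipotent K ⊓ twistedE6 K q).subgroupOf (twistedE6 K q)).index =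
        (q ^ 2 - 1) * (q ^ 5 + 1) * (q ^ 6 - 1) * (q ^ 8 - 1) * (q ^ 9 + 1) * (q ^ 12 - 1) := by
      apply Nat.eq_of_mul_eq_mul_left hpos
      calc q ^ 36 * (Nat.gcd 3 (q + 1) * ((chevE6.posUnipotent K ⊓ twistedE6 K q).subgroupOf (twistedE6 K q)).index)
          = Nat.gcd 3 (q + 1) * (q ^ 36 * ((chevE6.posUnipotent K ⊓ twistedE6 K q).subgroupOf (twistedE6 K q)).index) := by ring
        _ = _ := by rw [h4]; ring
    intro hdvd
    have hd : 2 ∣ (q ^ 2 - 1) * (q ^ 5 + 1) * (q ^ 6 - 1) * (q ^ 8 - 1) * (q ^ 9 + 1) * (q ^ 12 - 1) := by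
      rw [← h5]
      exact Dvd.dvd.mul_left hdvd _
    have o1 : Odd (q ^ 2 - 1) := Nat.Even.sub_odd (Nat.one_le_pow _ _ (by omega)) (h2.pow_of_ne_zero two_ne_zero) odd_one
    have o2 : Odd (q ^ 5 + 1) := (h2.pow_of_ne_zero (by norm_num)).add_one
    have o3 : Odd (q ^ 6 - 1) := Nat.Even.sub_odd (Nat.one_le_pow _ _ (by omega)) (h2.pow_of_ne_zero (by norm_num)) odd_one
    have o4 : Odd (q ^ 8 - 1) := Nat.Even.sub_odd (Nat.one_le_pow _ _ (by omega)) (h2.pow_of_ne_zero (by norm_num)) odd_one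
    have o5 : Odd (q ^ 9 + 1) := (h2.pow_of_ne_zero (by norm_num)).add_one
    have o6 : Odd (q ^ 12 - 1) := Nat.Even.sub_odd (Nat.one_le_pow _ _ (by omega)) (h2.pow_of_ne_zero (by norm_num)) odd_one
    exact (((((o1.mul o2).mul o3).mul o4).mul o5).mul o6).not_two_dvd_nat hd
  let P : Sylow 2 ↥(twistedE6 K q) := hP.toSylow hidx
  let y' : ↥(twistedE6 K q) := ⟨y, hy⟩
  have hyy' : y' ^ 2 = 1 := by
    rw [pow_two]
    exact Subtype.ext hyy
  have hp : IsPGroup 2 (Subgroup.zpowers y') := by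
    rintro ⟨u, n, rfl⟩
    refine ⟨1, Subtype.ext ?_⟩
    show (y' ^ n) ^ 2 ^ 1 = 1
    rw [pow_one, ← zpow_natCast, ← zpow_mul, mul_comm, zpow_mul, zpow_natCast, hyy', one_zpow]
  obtain ⟨Q, hQ⟩ := hp.exists_le_sylow
  obtain ⟨g, hg⟩ := MulAction.exists_smul_eq ↥(twistedE6 K q) Q P
  have hgQ : y' ∈ (Q : Subgroup ↥(twistedE6 K q)) := hQ (Subgroup.mem_zpowers y')
  have h1 : MulAut.conj g • y' ∈ (P : Subgroup ↥(twistedE6 K q)) := by
    rw [← hg, Sylow.coe_subgroup_smul]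
    exact Subgroup.smul_mem_pointwise_smul _ _ _ hgQ
  have hPc : (P : Subgroup ↥(twistedE6 K q)) = (chevE6.posUnipotent K ⊓ twistedE6 K q).subgroupOf (twistedE6 K q) :=
    IsPGroup.toSylow_coe hP hidx
  rw [hPc, Subgroup.mem_subgroupOf, MulAut.smul_def, MulAut.conj_apply] at h1
  -- the form
  have hyy2 : (g.1 * y * g.1⁻¹) * (g.1 * y * g.1⁻¹) = 1 := by
    have : (g.1 * y * g.1⁻¹) * (g.1 * y * g.1⁻¹) = g.1 * (y * y) * g.1⁻¹ := by group
    rw [this, hyy]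
    group
  obtain ⟨g₁, hg₁, V, hV, e1⟩ := to_flat φ hφ hφ2 ax hq2 hK h1 hyy2
  obtain ⟨d, hd⟩ := trace_surj φ hφ hφ2 hq2 hK (c := 1) (map_one φ)
  obtain ⟨σ, hσ, g₂, hg₂, e2⟩ := all_flat φ hφ hφ2 ax hd V hV
  have e1' : g₁ * (g.1 * y * g.1⁻¹) * g₁⁻¹ = PP ax (V.flatMap (orbL ρE)) := e1
  have eσ : g₂ * g₁ * g.1 * y * (g₂ * g₁ * g.1)⁻¹ = PP ax σ := by
    calc g₂ * g₁ * g.1 * y * (g₂ * g₁ * g.1)⁻¹ = g₂ * (g₁ * (g.1 * y * g.1⁻¹) * g₁⁻¹) * g₂⁻¹ := by group
      _ = _ := by rw [e1', e2]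
  have hmem : g₂ * g₁ * g.1 ∈ twistedE6 K q := Subgroup.mul_mem _ (Subgroup.mul_mem _ hg₂ hg₁) g.2
  simp only [RR, Reps, List.mem_cons, List.not_mem_nil, or_false] at hσ
  rcases hσ with rfl | rfl | rfl | rfl
  · exfalso
    apply hy1
    rw [PP_nil] at eσ
    have h5 : (g₂ * g₁ * g.1) * y = g₂ * g₁ * g.1 := by
      calc (g₂ * g₁ * g.1) * y = (g₂ * g₁ * g.1 * y * (g₂ * g₁ * g.1)⁻¹) * (g₂ * g₁ * g.1) := by group
        _ = _ := by rw [eσ, one_mul]
    exact mul_eq_left.mp h5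
  · exact ⟨_, hmem, Or.inl eσ⟩
  · exact ⟨_, hmem, Or.inr (Or.inl eσ)⟩
  · exact ⟨_, hmem, Or.inr (Or.inr eσ)⟩

end Fix

variable [Fintype K]

/-- The number of classes of involutions of ²E₆(q), q even. -/
theorem count (hK : Fintype.card K = q ^ 2) :
    (ConjClasses.mk '' {g : ↥(twistedE6 K q) | orderOf g = 2}).ncard = 3 := by
  classical
  -- `q` is a power of two
  obtain ⟨n, hn1, hn⟩ := FiniteField.card K 2
  have hq : IsPrimePow q := by
    have hd : q ∣ 2 ^ (n : ℕ) := by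
      rw [← hn, hK]
      exact dvd_pow_self q (by norm_num)
    obtain ⟨m, -, rfl⟩ := (Nat.dvd_prime_pow Nat.prime_two).mp hd
    have hm : m ≠ 0 := by
      rintro rfl
      rw [pow_zero, one_pow] at hK
      have := Fintype.one_lt_card (α := K)
      omega
    exact ⟨2, m, Nat.prime_two.prime, Nat.pos_of_ne_zero hm, rfl⟩
  have hev : Even q := by
    obtain ⟨p, k, hp, hk, e⟩ := hq
    have hp2 : p ∣ 2 ^ (n : ℕ) := by
      rw [← hn, hK, ← e]
      exact dvd_pow (dvd_pow_self p hk.ne') (by norm_num)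
    have : p = 2 := (Nat.prime_dvd_prime_iff_eq hp.nat_prime Nat.prime_two).mp (hp.nat_prime.dvd_of_dvd_pow hp2)
    rw [← e, this]
    exact (even_two).pow_of_ne_zero hk.ne'
  obtain ⟨φ, hφ, hφ2⟩ := Cfsg.Agent.Lib.Twisted.E6.exists_φ hq hK
  have ax : Ax chevE6 K := Cfsg.Agent.Lib.Lie.AxOf.ax_of_mem hmemE6
  have hm0 : PP ax [71] ∈ twistedE6 K q := PP_fix_mem φ hφ hφ2 ax (by decide +kernel)
  have hm1 : PP ax [71, 60] ∈ twistedE6 K q := PP_fix_mem φ hφ hφ2 ax (by decide +kernel)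
  have hm2 : PP ax [71, 60, 44] ∈ twistedE6 K q := PP_fix_mem φ hφ hφ2 ax (by decide +kernel)
  let r0 : ↥(twistedE6 K q) := ⟨_, hm0⟩
  let r1 : ↥(twistedE6 K q) := ⟨_, hm1⟩
  let r2 : ↥(twistedE6 K q) := ⟨_, hm2⟩
  have rk0' : (((PP ax [71] : GL chevE6.Idx K) : Matrix chevE6.Idx chevE6.Idx K) - 1).rank = 22 :=
    rank_of_chk ax (by decide +kernel) rk0
  have rk1' : (((PP ax [71, 60] : GL chevE6.Idx K) : Matrix chevE6.Idx chevE6.Idx K) - 1).rank = 32 :=
    rank_of_chk ax (by decide +kernel) rk1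
  have rk2' : (((PP ax [71, 60, 44] : GL chevE6.Idx K) : Matrix chevE6.Idx chevE6.Idx K) - 1).rank = 38 :=
    rank_of_chk ax (by decide +kernel) rk2
  have order_of : ∀ (σ : List ℕ) (hσ : PP ax σ ∈ twistedE6 K q), PP ax σ * PP ax σ = 1 → PP ax σ ≠ 1 →
      orderOf (⟨PP ax σ, hσ⟩ : ↥(twistedE6 K q)) = 2 := by
    intro σ hσ h1 h3
    apply orderOf_eq_prime (p := 2)
    · rw [pow_two]
      exact Subtype.ext h1
    · intro e
      exact h3 (congrArg Subtype.val e)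
  have ne_of : ∀ (σ : List ℕ) (m : ℕ), m ≠ 0 → (((PP ax σ : GL chevE6.Idx K) : Matrix chevE6.Idx chevE6.Idx K) - 1).rank = m → PP ax σ ≠ 1 := by
    intro σ m hm h1 e
    rw [e] at h1
    simp at h1
    omega
  have o0 : orderOf r0 = 2 := order_of _ _ (sq_of_chk ax (by decide +kernel) sq0) (ne_of _ 22 (by norm_num) rk0')
  have o1 : orderOf r1 = 2 := order_of _ _ (sq_of_chk ax (by decide +kernel) sq1) (ne_of _ 32 (by norm_num) rk1')
  have o2 : orderOf r2 = 2 := order_of _ _ (sq_of_chk ax (by decide +kernel) sq2) (ne_of _ 38 (by norm_num) rk2')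
  have hset : ConjClasses.mk '' {g : ↥(twistedE6 K q) | orderOf g = 2} = {ConjClasses.mk r0, ConjClasses.mk r1, ConjClasses.mk r2} := by
    ext C
    simp only [Set.mem_image, Set.mem_ofPred_eq, Set.mem_insert_iff, Set.mem_singleton_iff]
    constructor
    · rintro ⟨g, hg, rfl⟩
      have hgg : g.1 * g.1 = 1 := by
        have := pow_orderOf_eq_one g
        rw [hg, pow_two] at this
        exact congrArg Subtype.val this
      have hg1 : g.1 ≠ 1 := by
        intro e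
        have : g = 1 := Subtype.ext e
        rw [this, orderOf_one] at hg
        omega
      obtain ⟨k, hk, e | e | e⟩ := exists_conj_rep ax hφ hφ2 hq hK hev g.2 hgg hg1
      · left
        apply ConjClasses.mk_eq_mk_iff_isConj.mpr
        rw [isConj_iff]
        exact ⟨⟨k, hk⟩, Subtype.ext e⟩
      · right; left
        apply ConjClasses.mk_eq_mk_iff_isConj.mpr
        rw [isConj_iff]
        exact ⟨⟨k, hk⟩, Subtype.ext e⟩
      · right; right
        apply ConjClasses.mk_eq_mk_iff_isConj.mpr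
        rw [isConj_iff]
        exact ⟨⟨k, hk⟩, Subtype.ext e⟩
    · rintro (rfl | rfl | rfl)
      · exact ⟨r0, o0, rfl⟩
      · exact ⟨r1, o1, rfl⟩
      · exact ⟨r2, o2, rfl⟩
  have ne_cl : ∀ (a b : ↥(twistedE6 K q)) (m m' : ℕ), ((a.1 : Matrix chevE6.Idx chevE6.Idx K) - 1).rank = m →
      ((b.1 : Matrix chevE6.Idx chevE6.Idx K) - 1).rank = m' → m ≠ m' → ConjClasses.mk a ≠ ConjClasses.mk b := by
    intro a b m m' h1 h3 hne e
    obtain ⟨c, hc⟩ := isConj_iff.mp (ConjClasses.mk_eq_mk_iff_isConj.mp e)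
    have e1 : c.1 * a.1 * (c.1)⁻¹ = b.1 := congrArg Subtype.val hc
    have e2 := rank_conj K c.1 a.1
    rw [e1, h1, h3] at e2
    exact hne e2.symm
  rw [hset, Set.ncard_insert_of_notMem, Set.ncard_pair (ne_cl r1 r2 32 38 rk1' rk2' (by norm_num))]
  simp only [Set.mem_insert_iff, Set.mem_singleton_iff, not_or]
  exact ⟨ne_cl r0 r1 22 32 rk0' rk1' (by norm_num), ne_cl r0 r2 22 38 rk0' rk2' (by norm_num)⟩

end Cfsg.Agent.Lib.InvT.E6D
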