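import Cfsg.Agent.Lib.InvT.E6Chk

/-!
²E₆: the facts of the general reduction for the symmetry of E₆.
-/

set_option autoImplicit false
set_option linter.unusedSectionVars false
set_option linter.unusedVariables false
set_option linter.ambiguousOpen false
set_option linter.unusedSimpArgs false
set_option maxRecDepth 100000

namespace Cfsg.Agent.Lib.InvT.E6I

open scoped MatrixGroups Matrix
open Cfsg Lie ChevalleyDatum
open Cfsg.Agent.Lib.Chev
open Tables Tables2 Tables3 Raise Basic AxBasic Torus Products Products2 Mono1 Mono2 Mono3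
open Cfsg.Agent.Lib.Twisted.Fact Cfsg.Agent.Lib.InvE.Red Cfsg.Agent.Lib.InvE.Fusion Cfsg.Agent.Lib.Twisted.Tw
open Cfsg.Agent.Lib.InvE.Bits Cfsg.Agent.Lib.InvE.Tree Cfsg.Agent.Lib.Twisted.Ortho
open Cfsg.Agent.Lib.Twisted.E6 Cfsg.Agent.Lib.Twisted.Struct

local notation "ρE" => Se.ρ
local notation "tE" => Cfsg.Agent.Lib.Twisted.E6.hE

theorem addE {a b k : ℕ} (ha : a < chevE6.nroots) (hb : b < chevE6.nroots) (hA : AddP chevE6 a b k) :
    AddP chevE6 (ρE a) (ρE b) (ρE k) := by
  have h1 := addChkE a ha b hb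
  obtain ⟨c, hc, hc2⟩ := hA
  simp only [addChk, hc, hc2, if_true] at h1
  split at h1
  · rename_i k' c' e
    simp only [Bool.and_eq_true, decide_eq_true_eq] at h1
    exact ⟨c', by rw [e, h1.1], h1.2⟩
  · simp at h1

theorem slE : SL chevE6 := Cfsg.Agent.Lib.InvE.DataE6.sl

/-- The combinatorial facts. -/
theorem rdE : RD chevE6 ρE fE where
  lev := {
    add := by
      intro r s k hr hs' hA
      exact hA.lin_add tE hr hs' wtE
    pos := fun r hr => fE_pos r hr.1 hr }
  f_neg := fE_neg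
  ρ_lt := ρ_ltE
  ρ_ρ := ρ_ρE
  ρ_pos := fun r hr => ρ_posE r hr.1 hr
  ρ_pair := fun a b ha hb => ρ_pairE a ha b hb
  ρ_add := fun a b k ha hb hA => addE ha hb hA
  ρ_lev := ρ_levE
  sep := fun r v hr hv e => sepE r hr.1 v hv.1 ⟨hr, hv, e⟩
  orth := fun r hr hn => orthE r hr.1 hn
  p11 := fun r v hr hv hn h1 h3 => p11E r hr.1 v hv.1 hn h1 h3
  pmm := fun r v hr hv hn h1 h3 => pmmE r hr.1 v hv.1 hn h1 h3
  p1m := by
    intro r v s hr hv hs' h1 h3 hA
    have hn : ρE r ≠ r := by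
      intro e0
      rw [e0, h1] at h3
      omega
    have e1 := hA.pair_add tE hr.1 hs' (ρE r)
    have e2 := hA.pair_add tE hr.1 hs' r
    have e3 := orthE r hr.1 hn
    rw [slE.pair_sym r (ρE r) hr.1 (ρ_ltE r hr.1)] at e3
    have e4 := slE.pair_self r hr.1
    exact pmmE r hr.1 s hs' hn (by omega) (by omega)
  p1m' := by
    intro r v k hr hv h1 h3 hA
    have hn : ρE r ≠ r := by
      intro e0
      rw [e0, h1] at h3
      omega
    have hρr := ρ_ltE r hr.1
    have hk := hA.lt tE hρr hv.1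
    have e1 := hA.pair_add tE hρr hv.1 (ρE r)
    have e2 := hA.pair_add tE hρr hv.1 r
    have e3 := orthE r hr.1 hn
    have e4 := slE.pair_self (ρE r) hρr
    exact p11E r hr.1 k hk hn (by omega) (by omega)

lemma cp_of_pair0 {r s : ℕ} (hr : r < chevE6.nroots) (hs' : s < chevE6.nroots) (hp : pair chevE6 r s = 0) : CommPair chevE6 r s := by
  have h1 : s ≠ r := by
    rintro rfl
    rw [slE.pair_self s hs'] at hp
    omega
  have h3 : s ≠ chevE6.neg r := by
    rintro rfl
    rw [pair_neg tE r hr, slE.pair_self r hr] at hp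
    omega
  exact ⟨hr, hs', h1, h3, slE.terms_ne r s hr hs' h1 h3 (by rw [hp]; norm_num)⟩

section Inst

variable {K : Type*} [Field K] [CharP K 2] {q : ℕ} (φ : K ≃+* K) (hφ : ∀ t, φ t = t ^ q) (hφ2 : ∀ t, φ (φ t) = t) (ax : Ax chevE6 K)

include hφ2 in
/-- The twist as needed. -/
theorem twdE : TwD (twE φ ax) φ ρE fE where
  rd := rdE
  ρ_eq := fun r => rfl
  s_x := by
    intro r hr t
    have := (twE φ ax).s_x ⟨r, hr⟩ t
    simp only at this
    rw [this]
    show xG ax (Se.ρ r) (((Se.γ r : ℤ) : K) * φ t) = _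
    congr 1
    rcases γE r hr with e | e <;> rw [e] <;> simp [CharTwo.neg_eq]
  φφ := hφ2

include hφ hφ2

/-- The elements of the orbit of a root are in the group. -/
theorem Eo_mem_G1 {r : ℕ} (hr : chevE6.IsPosRoot r) {t : K} (hfix : ρE r = r → φ t = t) :
    Eo ax ρE φ r t ∈ twistedE6 K q := by
  refine (TE φ hφ hφ2 ax).U_fix hE2 ?_ ((twdE φ hφ2 ax).s_Eo slE hr hfix)
  rw [posUnipotent_eq ax]
  exact Eo_mem ax hr (ρ_posE r hr.1 hr) t

/-- The elements of the orbit of a negative root are in the group. -/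
theorem Eo_neg_mem {r : ℕ} (hr : chevE6.IsPosRoot r) {t : K} (hfix : ρE r = r → φ t = t) :
    xG ax (chevE6.neg r) t * (if ρE r = r then 1 else xG ax (chevE6.neg (ρE r)) (φ t)) ∈ twistedE6 K q := by
  have hn' : chevE6.IsNegRoot (chevE6.neg r) := (isNegRoot_neg tE hr.1).mpr hr
  have hx : xG ax (chevE6.neg r) t ∈ chevE6.negUnipotent K := xG_mem_V ax hn' t
  have hρr := ρ_posE r hr.1 hr
  have hH := twdE φ hφ2 ax
  have hnlt := Tab.neg_lt tE r hr.1
  by_cases hn : ρE r = r
  · simp only [hn, if_true, mul_one]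
    refine (TE φ hφ hφ2 ax).V_fix hE2 hx ?_
    rw [hH.s_x _ hnlt, ρ_negE r hr.1, hn, hfix hn]
  · simp only [hn, if_false]
    have hn2 : chevE6.IsNegRoot (chevE6.neg (ρE r)) := (isNegRoot_neg tE hρr.1).mpr hρr
    have hnlt2 := Tab.neg_lt tE _ hρr.1
    refine (TE φ hφ hφ2 ax).V_fix hE2 (Subgroup.mul_mem _ hx (xG_mem_V ax hn2 _)) ?_
    rw [(twE φ ax).s_mul _ (xG_mem_group ax hnlt t) _ (xG_mem_group ax hnlt2 _), hH.s_x _ hnlt, hH.s_x _ hnlt2, ρ_negE r hr.1,
      ρ_negE _ hρr.1, ρ_ρE r hr.1, hφ2]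
    have p0 : pair chevE6 (chevE6.neg r) (chevE6.neg (ρE r)) = 0 := by
      rw [pair_neg tE _ hρr.1, slE.pair_sym _ (ρE r) hnlt hρr.1, pair_neg tE _ hr.1, slE.pair_sym (ρE r) r hρr.1 hr.1,
        orthE r hr.1 hn]
      rfl
    exact (comm_orth ax tE slE hnlt hnlt2 p0 t (φ t))

/-- The elements of the torus for an orbit are in the group. -/
theorem hE_mem {r : ℕ} (hr : chevE6.IsPosRoot r) {c : K} (hc : c ≠ 0) (hfix : ρE r = r → φ c = c) :
    hE ax ρE φ r c ∈ twistedE6 K q := by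
  have hnl : (-1 : K) = 1 := CharTwo.neg_eq 1
  by_cases hn : ρE r = r
  · simp only [hE, hn, if_true, mul_one]
    have key : ∀ a : K, φ a = a → nG ax r a ∈ twistedE6 K q := by
      intro a ha
      simp only [nG]
      have h1 := Eo_mem_G1 φ hφ hφ2 ax hr (t := a) (fun _ => ha)
      rw [Eo_fix ax hn] at h1
      have h3 := Eo_neg_mem φ hφ hφ2 ax hr (t := -a⁻¹) (fun _ => by rw [map_neg, map_inv₀, ha])
      simp only [hn, if_true, mul_one] at h3
      exact Subgroup.mul_mem _ (Subgroup.mul_mem _ h1 h3) h1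
    simp only [hG]
    exact Subgroup.mul_mem _ (key c (hfix hn)) (key (-1) (by rw [map_neg, map_one]))
  · simp only [hE, hn, if_false]
    have hρr := ρ_posE r hr.1 hr
    have p0 := orthE r hr.1 hn
    have hnr := Tab.neg_lt tE r hr.1
    have hnρ := Tab.neg_lt tE _ hρr.1
    have p1 : pair chevE6 (chevE6.neg r) (ρE r) = 0 := by
      rw [slE.pair_sym _ _ hnr hρr.1, pair_neg tE _ hr.1, slE.pair_sym _ _ hρr.1 hr.1, p0]
      rfl
    have p2 : pair chevE6 r (chevE6.neg (ρE r)) = 0 := by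
      rw [pair_neg tE _ hρr.1, p0]
      rfl
    have p3 : pair chevE6 (chevE6.neg r) (chevE6.neg (ρE r)) = 0 := by
      rw [pair_neg tE _ hρr.1, p1]
      rfl
    have H1 := cp_of_pair0 hr.1 hρr.1 p0
    have H2 := cp_of_pair0 hnr hρr.1 p1
    have H3 := cp_of_pair0 hr.1 hnρ p2
    have H4 := cp_of_pair0 hnr hnρ p3
    rw [Cfsg.Agent.Lib.Twisted.TorusFix.hG_pair H1 H2 H3 H4]
    have key : ∀ a : K, a ≠ 0 → nG ax r a * nG ax (ρE r) (φ a) ∈ twistedE6 K q := by
      intro a ha
      simp only [nG]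
      rw [three_mul (H2.comm ax _ _) (H1.comm ax _ _) (H3.comm ax _ _)]
      have h1 := Eo_mem_G1 φ hφ hφ2 ax hr (t := a) (fun e0 => absurd e0 hn)
      rw [Eo_nf ax hn] at h1
      have h3 := Eo_neg_mem φ hφ hφ2 ax hr (t := -a⁻¹) (fun e0 => absurd e0 hn)
      simp only [hn, if_false, map_neg, map_inv₀] at h3
      exact Subgroup.mul_mem _ (Subgroup.mul_mem _ h1 h3) h1
    have h1 := key c hc
    have h3 := key (-1) (by rw [hnl]; exact one_ne_zero)
    rw [map_neg, map_one] at h3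
    exact Subgroup.mul_mem _ h1 h3

end Inst

section Trace

variable {K : Type*} [Field K] [Fintype K] [CharP K 2] {q : ℕ} (φ : K ≃+* K) (hφ : ∀ t, φ t = t ^ q) (hφ2 : ∀ t, φ (φ t) = t)

include hφ hφ2 in
/-- The trace is surjective. -/
theorem trace_surj (hq2 : 2 ≤ q) (hK : Fintype.card K = q ^ 2) {c : K} (hc : φ c = c) : ∃ e, e + φ e = c := by
  refine Cfsg.Agent.Lib.KS71.ChevInv.exists_trace φ ?_ hφ2 hc
  intro e1
  have hF := card_fix (K := K) hq2 (by norm_num : 2 ≠ 0) hK
  have hall : ∀ t : K, t ^ q = t := by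
    intro t
    rw [← hφ, e1]
    rfl
  have : Nat.card {t : K // t ^ q = t} = Nat.card K := Nat.card_congr ⟨fun t => t.1, fun t => ⟨t, hall t⟩, fun _ => rfl, fun _ => rfl⟩
  rw [hF, Nat.card_eq_fintype_card, hK] at this
  nlinarith

end Trace

/-! ### Orthogonal lists from orbits -/

section flat

variable {K : Type*} [Field K] {φ : K ≃+* K}

theorem orth_flat {L : List (ℕ × K)} (hL : GoodL chevE6 ρE φ chevE6.IsPosRoot L) :
    OrthAll chevE6 ((L.map Prod.fst).flatMap (orbL ρE)) := by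
  induction L with
  | nil => exact ⟨by simp, List.Pairwise.nil⟩
  | cons p L ih =>
    have ih' := ih ⟨fun q hq => hL.mem q (by simp [hq]), (List.pairwise_cons.mp hL.orth).2⟩
    obtain ⟨ho1, -⟩ := List.pairwise_cons.mp hL.orth
    have hpp : chevE6.IsPosRoot p.1 := (hL.mem p (by simp)).1
    have hρp := ρ_posE _ hpp.1 hpp
    have hmemorb : ∀ u, u ∈ orbL ρE p.1 → u = p.1 ∨ u = ρE p.1 := by
      intro u hu
      unfold orbL at hu
      split_ifs at hu
      · simp at hu
        exact Or.inl hu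
      · simp at hu
        exact hu
    have hltQ : ∀ v ∈ (L.map Prod.fst).flatMap (orbL ρE), v < chevE6.nroots := ih'.lt
    have hmemL : ∀ v ∈ (L.map Prod.fst).flatMap (orbL ρE), ∃ q ∈ L, v = q.1 ∨ v = ρE q.1 := by
      intro v hv
      obtain ⟨x, hx, hvx⟩ := List.mem_flatMap.mp hv
      obtain ⟨q, hq, rfl⟩ := List.mem_map.mp hx
      refine ⟨q, hq, ?_⟩
      unfold orbL at hvx
      split_ifs at hvx
      · simp at hvx
        exact Or.inl hvx
      · simp at hvx
        exact hvx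
    constructor
    · intro u hu
      simp only [List.map_cons, List.flatMap_cons, List.mem_append] at hu
      rcases hu with hu | hu
      · rcases hmemorb u hu with rfl | rfl
        · exact hpp.1
        · exact hρp.1
      · exact hltQ u hu
    · simp only [List.map_cons, List.flatMap_cons, OrthL]
      refine List.pairwise_append.mpr ⟨?_, ih'.orth, ?_⟩
      · unfold orbL
        split_ifs with hn
        · exact List.pairwise_singleton _ _
        · exact List.pairwise_pair.mpr (orthE _ hpp.1 hn)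
      · intro a ha b hb
        obtain ⟨q, hq, hbq⟩ := hmemL b hb
        have hqp : chevE6.IsPosRoot q.1 := (hL.mem q (by simp [hq])).1
        obtain ⟨p1, p2⟩ := ho1 q hq
        rcases hmemorb a ha with rfl | rfl
        · rcases hbq with rfl | rfl
          · exact p1
          · rw [← rdE.swap hpp.1 hqp.1]
            exact p2
        · rcases hbq with rfl | rfl
          · exact p2
          · rw [rdE.ρ_pair _ _ hpp.1 hqp.1]
            exact p1

end flat

section Main

variable {K : Type*} [Field K] [Fintype K] [CharP K 2] {q : ℕ} (φ : K ≃+* K) (hφ : ∀ t, φ t = t ^ q) (hφ2 : ∀ t, φ (φ t) = t) (ax : Ax chevE6 K)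

theorem fE_lt : ∀ r, r < chevE6.nroots → fE r < 100000 := by decide +kernel

include hφ hφ2 in
/-- The form of an involution of the unipotent subgroup of `G¹`. -/
theorem to_flat (hq2 : 2 ≤ q) (hK : Fintype.card K = q ^ 2) {y : GL chevE6.Idx K} (hy : y ∈ chevE6.posUnipotent K ⊓ twistedE6 K q)
    (hyy : y * y = 1) : ∃ g ∈ twistedE6 K q, ∃ V : List ℕ, OrthAll chevE6 (V.flatMap (orbL ρE)) ∧ g * y * g⁻¹ = PP ax (V.flatMap (orbL ρE)) := by
  have hTD := TE φ hφ hφ2 ax
  have hU : y ∈ rootClosure ax chevE6.IsPosRoot := by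
    have := hy.1
    rwa [posUnipotent_eq ax] at this
  have hys : (twE φ ax).s y = y := ((G1_le φ hφ hφ2 ax) hy.2).2
  obtain ⟨g, hg, hgs, L, hL, e⟩ := form_main (twdE φ hφ2 ax) hE2 slE (W := 100000) (fun c hc => trace_surj φ hφ hφ2 hq2 hK hc)
    (fun v hv => fE_lt v hv.1) hU hys hyy
  have hgG : g ∈ twistedE6 K q := by
    refine hTD.U_fix hE2 ?_ hgs
    rwa [posUnipotent_eq ax]
  obtain ⟨H, hH, e2, -⟩ := torus_EL (G1 := twistedE6 K q) (ax := ax) rdE tE slE hφ2
    (fun r hr c hc hf => hE_mem φ hφ hφ2 ax hr hc hf) L hL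
  refine ⟨H * g, Subgroup.mul_mem _ hH hgG, L.map Prod.fst, orth_flat hL, ?_⟩
  rw [← e2, ← e]
  group

end Main

end Cfsg.Agent.Lib.InvT.E6I
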