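import Cfsg.Agent.Lib.InvT.E6I

/-!
²E₆: moving products for orthogonal orbits, by words in the Weyl group of the fixed points and by the relations.
-/

set_option autoImplicit false
set_option linter.unusedSectionVars false
set_option linter.unusedVariables false
set_option linter.ambiguousOpen false
set_option linter.unusedSimpArgs false
set_option maxRecDepth 100000

namespace Cfsg.Agent.Lib.InvT.E6I

open scoped MatrixGroups Matrix
open Cfsg Lie ChevalleyDatum
open Cfsg.Agent.Lib.Chev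
open Tables Tables2 Tables3 Raise Basic AxBasic Torus Products Products2 Mono1 Mono2 Mono3
open Cfsg.Agent.Lib.Twisted.Fact Cfsg.Agent.Lib.InvE.Red Cfsg.Agent.Lib.InvE.Fusion Cfsg.Agent.Lib.Twisted.Tw
open Cfsg.Agent.Lib.InvE.Bits Cfsg.Agent.Lib.InvE.Tree Cfsg.Agent.Lib.Twisted.Ortho Cfsg.Agent.Lib.InvE.Final
open Cfsg.Agent.Lib.Twisted.E6 Cfsg.Agent.Lib.Twisted.Struct

local notation "ρE" => Se.ρ
local notation "tE" => Cfsg.Agent.Lib.Twisted.E6.hE

/-- The generators of the Weyl group of the fixed points. -/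
def wlE (j : ℕ) : List ℕ := [[1], [3], [0, 5], [2, 4]].getD j []

theorem wl_eq : ∀ j : Fin 4, Ce.wl j = wlE j := by decide

theorem wl_lt : ∀ j, j < 4 → ∀ i ∈ wlE j, i < chevE6.rank := by decide

theorem com_ok : ∀ j, j < 4 → ∀ u, u < chevE6.nroots → act chevE6 (wlE j) (ρE u) = ρE (act chevE6 (wlE j) u) := by decide +kernel

/-- The packed table of the generators. -/
def TabG (T : ℕ) : Prop := ∀ j, j < 4 → ∀ s, s < chevE6.nroots → rfT T chevE6.nroots j s = act chevE6 (wlE j) s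

/-- Boolean form. -/
def tabGChk (T : ℕ) : Bool :=
  allBelow 4 fun j => allBelow chevE6.nroots fun s => rfT T chevE6.nroots j s == act chevE6 (wlE j) s

lemma tabG_of_chk {T : ℕ} (hc : tabGChk T = true) : TabG T := by
  intro j hj s hs
  have h1 := allBelow_spec hc j hj
  have h3 := allBelow_spec h1 s hs
  simpa using h3

lemma act_flat_lt {ws : List ℕ} (hws : ∀ j ∈ ws, j < 4) {s : ℕ} (hs : s < chevE6.nroots) :
    act chevE6 (ws.flatMap wlE) s < chevE6.nroots := by
  refine act_lt tE ?_ hs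
  intro i hi
  obtain ⟨j, hj, hi'⟩ := List.mem_flatMap.mp hi
  exact wl_lt j (hws j hj) i hi'

lemma actT_flat {T : ℕ} (hT : TabG T) {ws : List ℕ} (hws : ∀ j ∈ ws, j < 4) {s : ℕ} (hs : s < chevE6.nroots) :
    actT T chevE6.nroots ws s = act chevE6 (ws.flatMap wlE) s := by
  induction ws with
  | nil => rfl
  | cons j ws ih =>
    have hws' : ∀ i ∈ ws, i < 4 := fun i hi => hws i (by simp [hi])
    show rfT T chevE6.nroots j (actT T chevE6.nroots ws s) = _
    rw [ih hws', hT j (hws j (by simp)) _ (act_flat_lt hws' hs), List.flatMap_cons, act_append]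

/-- The check of a node. -/
def nodeChkW (T : ℕ) (A Θ : List ℕ) (W : List (List ℕ)) : Bool :=
  allBelow chevE6.nroots fun v =>
    !(A.all fun a => pairN chevE6 a v chevE6.rank == 0) ||
      (((W.getD v []).all fun i => decide (i < 4)) &&
        (A.all fun a => actT T chevE6.nroots (W.getD v []) a == a) &&
        (Θ.contains (actT T chevE6.nroots (W.getD v []) v)))

section Inst

variable {K : Type*} [Field K] [CharP K 2] {q : ℕ} (φ : K ≃+* K) (hφ : ∀ t, φ t = t ^ q) (hφ2 : ∀ t, φ (φ t) = t) (ax : Ax chevE6 K)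

include hφ hφ2

/-- The generators are in the group. -/
lemma gw_gen {j : ℕ} (hj : j < 4) : GW ax (twistedE6 K q) ρE (wlE j) := by
  refine ⟨wl_lt j hj, ?_, com_ok j hj⟩
  have := n_mem φ hφ hφ2 ax ⟨j, hj⟩
  rw [nE, wl_eq] at this
  exact this

lemma gw_word {ws : List ℕ} (hws : ∀ j ∈ ws, j < 4) : GW ax (twistedE6 K q) ρE (ws.flatMap wlE) := by
  induction ws with
  | nil => exact GW_nil
  | cons j ws ih =>
    rw [List.flatMap_cons]
    exact GW_append tE (gw_gen φ hφ hφ2 ax (hws j (by simp))) (ih fun i hi => hws i (by simp [hi])) ρ_ltE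

theorem hW_of_chkW {T : ℕ} (hT : TabG T) {A Θ : List ℕ} {W : List (List ℕ)} (hA : ∀ a ∈ A, a < chevE6.nroots)
    (hc : nodeChkW T A Θ W = true) :
    ∀ v, v < chevE6.nroots → (∀ a ∈ A, pair chevE6 a v = 0) →
      GW ax (twistedE6 K q) ρE ((W.getD v []).flatMap wlE) ∧ (∀ a ∈ A, act chevE6 ((W.getD v []).flatMap wlE) a = a) ∧
        act chevE6 ((W.getD v []).flatMap wlE) v ∈ Θ := by
  intro v hv hp
  have h1 := allBelow_spec hc v hv
  simp only [Bool.or_eq_true, Bool.not_eq_true', List.all_eq_false, beq_iff_eq, Bool.and_eq_true, List.all_eq_true,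
    decide_eq_true_eq, List.contains_iff_mem, not_true_eq_false, and_false] at h1
  rcases h1 with ⟨a, ha, hne⟩ | ⟨⟨h3, h4⟩, h5⟩
  · exact absurd (by rw [← pair_eq_pairN]; exact hp a ha) hne
  · refine ⟨gw_word φ hφ hφ2 ax h3, fun a ha => ?_, ?_⟩
    · rw [← actT_flat hT h3 (hA a ha)]
      exact h4 a ha
    · rw [← actT_flat hT h3 hv]
      exact h5

/-- Moving by a word. -/
lemma cl_word {R : List (List ℕ)} {A A' : List ℕ} (ws : List ℕ) (hws : ∀ j ∈ ws, j < 4) (hA : ∀ u ∈ A, u < chevE6.nroots)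
    (e : A.map (act chevE6 (ws.flatMap wlE)) = A') (hy : Clt ax (twistedE6 K q) R (PP ax A')) :
    Clt ax (twistedE6 K q) R (PP ax A) :=
  Clt.of_word tE (gw_word φ hφ hφ2 ax hws) hA e hy

omit hφ hφ2 in
/-- The order in a list does not matter. -/
lemma cl_perm {R : List (List ℕ)} {A A' : List ℕ} (hp : A.Perm A') (hO : orthChk chevE6 A = true)
    (hy : Clt ax (twistedE6 K q) R (PP ax A')) : Clt ax (twistedE6 K q) R (PP ax A) := by
  rw [PP_perm ax tE slE hp (orthAll_of_chk hO)]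
  exact hy

omit hφ hφ2 in
/-- A representative. -/
lemma cl_rep {R : List (List ℕ)} {σ : List ℕ} (hσ : σ ∈ R) : Clt ax (twistedE6 K q) R (PP ax σ) :=
  ⟨σ, hσ, 1, Subgroup.one_mem _, by simp⟩

/-- The root elements for fixed roots. -/
lemma x_fix_mem {u : ℕ} (hu : u < chevE6.nroots) (hf : ρE u = u) {t : K} (ht : φ t = t) : xG ax u t ∈ twistedE6 K q := by
  have hfix : (twE φ ax).s (xG ax u t) = xG ax u t := by
    rw [(twdE φ hφ2 ax).s_x u hu, hf, ht]
  rcases isPos_or_isNeg tE hu with hp | hn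
  · exact (TE φ hφ hφ2 ax).U_fix hE2 (xG_mem_U ax hp t) hfix
  · exact (TE φ hφ hφ2 ax).V_fix hE2 (xG_mem_V ax hn t) hfix

/-- Products for fixed roots. -/
lemma PP_fix_mem {S : List ℕ} (hS : ∀ u ∈ S, u < chevE6.nroots ∧ ρE u = u) : PP ax S ∈ twistedE6 K q := by
  induction S with
  | nil => exact Subgroup.one_mem _
  | cons a S ih =>
    rw [PP_cons]
    exact Subgroup.mul_mem _ (x_fix_mem φ hφ hφ2 ax (hS a (by simp)).1 (hS a (by simp)).2 (map_one φ))
      (ih fun u hu => hS u (by simp [hu]))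

/-- A relation by a product of root elements for fixed roots. -/
lemma cl_rel {R : List (List ℕ)} {S T U : List ℕ} (hS : ∀ u ∈ S, u < chevE6.nroots ∧ ρE u = u) (hT : ∀ u ∈ T, u < chevE6.nroots)
    (hU : ∀ u ∈ U, u < chevE6.nroots) (hc : relChk chevE6 S T U = true) (hy : Clt ax (twistedE6 K q) R (PP ax U)) :
    Clt ax (twistedE6 K q) R (PP ax T) :=
  Clt.of_conj (PP_fix_mem φ hφ hφ2 ax hS) (rel_of_chk ax (fun u hu => (hS u hu).1) hT hU hc) hy

/-- The relation between an orbit and two fixed roots. -/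
lemma cl_r2 {R : List (List ℕ)} {a c b v w k : ℕ} {Z : List ℕ} {d : K} (hd : d + φ d = 1) (ha : chevE6.IsPosRoot a) (hc : ρE a = c) (hn : ρE a ≠ a)
    (hchk : r2B chevE6 a c b v w k = true) (hZ : ∀ z ∈ Z, z < chevE6.nroots ∧ pair chevE6 a z = 0 ∧ pair chevE6 c z = 0)
    (hy : Clt ax (twistedE6 K q) R (PP ax ([b, k] ++ Z))) : Clt ax (twistedE6 K q) R (PP ax ([v, w] ++ Z)) := by
  have H := R2D_of_chk hchk
  subst hc
  have h1 := Eo_mem_G1 φ hφ hφ2 ax ha (t := 1) (fun e0 => absurd e0 hn)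
  rw [Eo_nf ax hn, map_one] at h1
  have h3 := Eo_neg_mem φ hφ hφ2 ax ha (t := d) (fun e0 => absurd e0 hn)
  simp only [hn, if_false] at h3
  exact Clt.of_conj (Subgroup.mul_mem _ h1 h3) (r2_rel ax tE slE H hd Z hZ) hy

end Inst

end Cfsg.Agent.Lib.InvT.E6I
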