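import Cfsg.Agent.Lib.InvE.Red

/-!
The filtration of the unipotent subgroup of a simply laced Chevalley group by a positive additive function on the roots,
in characteristic two.
-/

set_option autoImplicit false
set_option linter.unusedSectionVars false
set_option linter.unusedVariables false
set_option linter.ambiguousOpen false
set_option linter.unusedSimpArgs false

namespace Cfsg.Agent.Lib.InvT

open scoped MatrixGroups Matrix
open Cfsg Lie ChevalleyDatum
open Cfsg.Agent.Lib.Chev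
open Tables Tables2 Tables3 Raise Basic AxBasic Torus Products Products2 Mono1 Mono2 Mono3
open Cfsg.Agent.Lib.Twisted.Fact Cfsg.Agent.Lib.InvE.Red

variable {D : ChevalleyDatum} {F : Type*} [Field F]

/-- An additive function on the roots, positive on the positive roots. -/
structure Lev (D : ChevalleyDatum) (f : ℕ → ℤ) : Prop where
  add : ∀ r s k, r < D.nroots → s < D.nroots → AddP D r s k → f k = f r + f s
  pos : ∀ r, D.IsPosRoot r → 0 < f r

variable (ax : Ax D F) (h : Tab D) (hs : SL D) {f : ℕ → ℤ} (hf : Lev D f)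

/-- The roots of level at least `α`. -/
def GEP (D : ChevalleyDatum) (f : ℕ → ℤ) (α : ℤ) : ℕ → Prop := fun v => D.IsPosRoot v ∧ α ≤ f v

/-- The subgroup generated by the root elements of level at least `α`. -/
noncomputable abbrev GE (ax : Ax D F) (f : ℕ → ℤ) (α : ℤ) : Subgroup (GL D.Idx F) := rootClosure ax (GEP D f α)

lemma GE_mono {α β : ℤ} (hαβ : α ≤ β) : GE ax f β ≤ GE ax f α :=
  rootClosure_mono ax fun _ hv => ⟨hv.1, by have := hv.2; omega⟩

lemma GE_le_U (α : ℤ) : GE ax f α ≤ D.posUnipotent F := by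
  rw [posUnipotent_eq ax]
  exact rootClosure_mono ax fun _ hv => hv.1

include h hs hf in
lemma closed_GEP (α : ℤ) : ClosedP D (GEP D f α) where
  pos := fun _ hv => hv.1
  closed := by
    rintro r s ⟨hr, hr1⟩ ⟨hs', hs1⟩ hlt c hc
    have hA := mem_terms hs hr.1 hs'.1 (by omega) (pos_ne_neg h hr hs') hc
    have := hf.add _ _ _ hr.1 hs'.1 hA
    have h3 := hf.pos s hs'
    exact ⟨hA.isPos h hr hs', by omega⟩

lemma comm_self_g (r : ℕ) (a b : F) : xG ax r a * xG ax r b * (xG ax r a)⁻¹ * (xG ax r b)⁻¹ = 1 := by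
  rw [xG_comm_self ax r a b]
  group

include h hs hf in
/-- The commutator of two root elements. -/
lemma gen_comm [CharP F 2] {u v : ℕ} (hu : D.IsPosRoot u) (hv : D.IsPosRoot v) (p q : F) :
    xG ax u p * xG ax v q * (xG ax u p)⁻¹ * (xG ax v q)⁻¹ ∈ GE ax f (f u + f v) := by
  by_cases huv : u = v
  · subst huv
    rw [comm_self_g]
    exact Subgroup.one_mem _
  · have hn := pos_ne_neg h hv hu
    rcases terms_cases hs hv.1 hu.1 huv hn with e3 | ⟨k, hA⟩
    · have e := comm_nil ax e3 hv.1 hu.1 huv hn q p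
      rw [e]
      have : xG ax v q * xG ax u p * (xG ax u p)⁻¹ * (xG ax v q)⁻¹ = 1 := by group
      rw [this]
      exact Subgroup.one_mem _
    · have e := comm_sum ax hA hv.1 hu.1 huv hn q p
      have e1 := comm_left ax h hs hA hv hu huv q (q * p)
      have e2 := comm_right ax h hs hA hv hu huv p (q * p)
      have hk : D.IsPosRoot k := hA.isPos h hv hu
      have hfk := hf.add _ _ _ hv.1 hu.1 hA
      have : xG ax u p * xG ax v q * (xG ax u p)⁻¹ * (xG ax v q)⁻¹ = xG ax k (q * p) := by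
        rw [e]
        calc xG ax v q * xG ax u p * xG ax k (q * p) * (xG ax u p)⁻¹ * (xG ax v q)⁻¹
            = xG ax v q * (xG ax u p * xG ax k (q * p) * (xG ax u p)⁻¹) * (xG ax v q)⁻¹ := by group
          _ = xG ax v q * xG ax k (q * p) * (xG ax v q)⁻¹ := by
              rw [show xG ax u p * xG ax k (q * p) = xG ax k (q * p) * xG ax u p from e2.symm]; group
          _ = xG ax k (q * p) := by
              rw [show xG ax v q * xG ax k (q * p) = xG ax k (q * p) * xG ax v q from e1.symm]; group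
      rw [this]
      exact xG_mem_rootClosure ax ⟨hk, by rw [hfk]; omega⟩ _

include h hs hf in
/-- The subgroups of the filtration are normal in the unipotent subgroup. -/
lemma GE_normal [CharP F 2] {α : ℤ} {u q : GL D.Idx F} (hu : u ∈ rootClosure ax D.IsPosRoot) (hq : q ∈ GE ax f α) :
    u * q * u⁻¹ ∈ GE ax f α := by
  refine rootClosure_induction ax (Q := fun u => ∀ q ∈ GE ax f α, u * q * u⁻¹ ∈ GE ax f α) ?_ ?_ ?_ hu q hq
  · intro q hq
    simpa using hq
  · intro v a hv q hq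
    apply conj_mem_of_gen ax ?_ hq
    rintro w b ⟨hw, hw1⟩
    have h1 := gen_comm ax h hs hf hv hw a b
    have h3 := hf.pos v hv
    have h4 := GE_mono ax (f := f) (α := α) (β := f v + f w) (by omega) h1
    have e : xG ax v a * xG ax w b * (xG ax v a)⁻¹ = (xG ax v a * xG ax w b * (xG ax v a)⁻¹ * (xG ax w b)⁻¹) * xG ax w b := by group
    rw [e]
    exact Subgroup.mul_mem _ h4 (xG_mem_rootClosure ax ⟨hw, hw1⟩ b)
  · intro a b ha hb q hq
    have : a * b * q * (a * b)⁻¹ = a * (b * q * b⁻¹) * a⁻¹ := by group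
    rw [this]
    exact ha _ (hb q hq)

lemma GE_le_pos (α : ℤ) : GE ax f α ≤ rootClosure ax D.IsPosRoot :=
  rootClosure_mono ax fun _ hv => hv.1

include h hs hf in
/-- The commutator estimate. -/
theorem comm_GE [CharP F 2] {α β : ℤ} {a b : GL D.Idx F} (ha : a ∈ GE ax f α) (hb : b ∈ GE ax f β) :
    a * b * a⁻¹ * b⁻¹ ∈ GE ax f (α + β) := by
  -- first for a generator `a`
  have step1 : ∀ (u : ℕ) (p : F), GEP D f α u → ∀ b ∈ GE ax f β, xG ax u p * b * (xG ax u p)⁻¹ * b⁻¹ ∈ GE ax f (α + β) := by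
    intro u p hu b hb
    refine rootClosure_induction ax (Q := fun b => b ∈ GE ax f β ∧ xG ax u p * b * (xG ax u p)⁻¹ * b⁻¹ ∈ GE ax f (α + β)) ?_ ?_ ?_ hb |>.2
    · exact ⟨Subgroup.one_mem _, by simp [Subgroup.one_mem]⟩
    · intro w q hw
      refine ⟨xG_mem_rootClosure ax hw q, ?_⟩
      have := gen_comm ax h hs hf hu.1 hw.1 p q
      exact GE_mono ax (f := f) (by have := hu.2; have := hw.2; omega) this
    · rintro b₁ b₂ ⟨hb₁, h1⟩ ⟨hb₂, h2⟩
      refine ⟨Subgroup.mul_mem _ hb₁ hb₂, ?_⟩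
      have e : xG ax u p * (b₁ * b₂) * (xG ax u p)⁻¹ * (b₁ * b₂)⁻¹ =
          (xG ax u p * b₁ * (xG ax u p)⁻¹ * b₁⁻¹) * (b₁ * (xG ax u p * b₂ * (xG ax u p)⁻¹ * b₂⁻¹) * b₁⁻¹) := by group
      rw [e]
      exact Subgroup.mul_mem _ h1 (GE_normal ax h hs hf (GE_le_pos ax β hb₁) h2)
  refine rootClosure_induction ax (Q := fun a => a ∈ GE ax f α ∧ a * b * a⁻¹ * b⁻¹ ∈ GE ax f (α + β)) ?_ ?_ ?_ ha |>.2
  · exact ⟨Subgroup.one_mem _, by simp [Subgroup.one_mem]⟩
  · intro u p hu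
    exact ⟨xG_mem_rootClosure ax hu p, step1 u p hu b hb⟩
  · rintro a₁ a₂ ⟨ha₁, h1⟩ ⟨ha₂, h2⟩
    refine ⟨Subgroup.mul_mem _ ha₁ ha₂, ?_⟩
    have e : a₁ * a₂ * b * (a₁ * a₂)⁻¹ * b⁻¹ = (a₁ * (a₂ * b * a₂⁻¹ * b⁻¹) * a₁⁻¹) * (a₁ * b * a₁⁻¹ * b⁻¹) := by group
    rw [e]
    exact Subgroup.mul_mem _ (GE_normal ax h hs hf (GE_le_pos ax α ha₁) h2) h1

include h hs hf in
/-- Squares in the filtration. -/
theorem sq_GE [CharP F 2] {α : ℤ} {a : GL D.Idx F} (ha : a ∈ GE ax f α) : a * a ∈ GE ax f (2 * α) := by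
  refine rootClosure_induction ax (Q := fun a => a ∈ GE ax f α ∧ a * a ∈ GE ax f (2 * α)) ?_ ?_ ?_ ha |>.2
  · exact ⟨Subgroup.one_mem _, by simp [Subgroup.one_mem]⟩
  · intro u p hu
    refine ⟨xG_mem_rootClosure ax hu p, ?_⟩
    rw [xG_add, CharTwo.add_self_eq_zero, xG_zero]
    exact Subgroup.one_mem _
  · rintro a₁ a₂ ⟨ha₁, h1⟩ ⟨ha₂, h2⟩
    refine ⟨Subgroup.mul_mem _ ha₁ ha₂, ?_⟩
    have e : a₁ * a₂ * (a₁ * a₂) = (a₁ * a₁) * (a₁⁻¹ * a₂ * a₁⁻¹⁻¹ * a₂⁻¹) * (a₂ * a₂) := by group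
    rw [e]
    have h3 := comm_GE ax h hs hf (Subgroup.inv_mem _ ha₁) ha₂
    rw [two_mul]
    exact Subgroup.mul_mem _ (Subgroup.mul_mem _ (by rwa [two_mul] at h1) h3) (by rwa [two_mul] at h2)

end Cfsg.Agent.Lib.InvT
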