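import Cfsg.Agent.Lib.InvT.Level2

/-!
The normal form of a fixed involution of the unipotent subgroup: a product of orbit elements for orthogonal orbits.
-/

set_option autoImplicit false
set_option linter.unusedSectionVars false
set_option linter.unusedVariables false
set_option linter.ambiguousOpen false
set_option linter.unusedSimpArgs false

namespace Cfsg.Agent.Lib.InvT

open scoped MatrixGroups Matrix
open Cfsg Lie ChevalleyDatum
open Cfsg.Agent.Lib.Chev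
open Tables Tables2 Tables3 Raise Basic AxBasic Torus Products Products2 Mono1 Mono2 Mono3
open Cfsg.Agent.Lib.Twisted.Fact Cfsg.Agent.Lib.InvE.Red Cfsg.Agent.Lib.InvE.Fusion Cfsg.Agent.Lib.Twisted.Tw

variable {D : ChevalleyDatum} {K : Type*} [Field K] [CharP K 2]

section step

variable {ax : Ax D K} {h : Tab D} {tw : Tw h ax} {φ : K ≃+* K} {ρ : ℕ → ℕ} {f : ℕ → ℤ} (H : TwD tw φ ρ f)
  (h2 : Tab2 D) (hs : SL D)

local notation "X" => rootClosure ax
local notation "A" => Eo ax ρ φ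

include H h2 hs

/-- One level. -/
theorem level_step {S : ℕ → Prop} (hS : Ctx D S) (hSρ : ∀ v, S v → S (ρ v)) {r : ℕ} (hr : S r) {t : K} (ht : t ≠ 0)
    (hfix : ρ r = r → φ t = t) (htr : ∀ c, φ c = c → ∃ e, e + φ e = c) {w : ℤ} (hw : f r + 1 ≤ w) {z : GL D.Idx K}
    (hz : z ∈ X (TTo D ρ f S r w)) (hzs : tw.s z = z) (hyy : (A r t * z) * (A r t * z) = 1) :
    ∃ g ∈ X S, tw.s g = g ∧ ∃ z' ∈ X (TTo D ρ f S r (w + 1)), tw.s z' = z' ∧ g * (A r t * z) * g⁻¹ = A r t * z' := by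
  have R := H.rd
  have hrp := hS.pos r hr
  have hρr := R.ρ_pos r hrp
  have hl := R.lev.pos r hrp
  have hcl := closed_TTo R h hs hS r w
  have hρT : ∀ v, TTo D ρ f S r w v → TTo D ρ f S r w (ρ v) := fun v hv => TTo_ρ R hS hSρ hrp.1 hv
  obtain ⟨z₁, hz₁, b, hb, e, hs₁, hsb⟩ := split_level H h2 hs hcl hρT w (w - (f r + 1)).toNat (f r + 1) (by
    have := Int.self_le_toNat (w - (f r + 1))
    exact this) z (rootClosure_mono ax (fun v hv => ⟨hv, hv.2.1⟩) hz) hzs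
  have hcl2 := closed_ge R h hs hcl w
  obtain ⟨a, ha, z₂, hz₂, e2⟩ := factorC ax h hcl2 (fun v => f v = w) hb
  have hcla : ClosedP D (fun v => (TTo D ρ f S r w v ∧ w ≤ f v) ∧ f v = w) := closed_level R h hs hcl2.pos w
  have hclb : ClosedP D (fun v => (TTo D ρ f S r w v ∧ w ≤ f v) ∧ ¬ f v = w) := closed_above R h hs hcl w
  have hρl : ∀ v, TTo D ρ f S r w v → f (ρ v) = f v := fun v hv => R.ρ_lev v (hcl.pos v hv).1
  obtain ⟨hsa, hsz₂⟩ := tw.fix_split h2 hcla hclb (fun v hv hv' => hv'.2 hv.2)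
    (H.ρ_fin (P := fun v => (TTo D ρ f S r w v ∧ w ≤ f v) ∧ f v = w) (fun v hv => ⟨⟨hρT v hv.1.1, by rw [hρl v hv.1.1]; exact hv.1.2⟩, by rw [hρl v hv.1.1]; exact hv.2⟩))
    (H.ρ_fin (P := fun v => (TTo D ρ f S r w v ∧ w ≤ f v) ∧ ¬ f v = w) (fun v hv => ⟨⟨hρT v hv.1.1, by rw [hρl v hv.1.1]; exact hv.1.2⟩, by rw [hρl v hv.1.1]; exact hv.2⟩))
    ha hz₂ (by rw [← e2]; exact hsb)
  subst e2
  subst e
  have hzT : ∀ {m : GL D.Idx K}, m ∈ X (fun v => TTo D ρ f S r (w + 1) v) → m ∈ X (TTo D ρ f S r (w + 1)) := fun hm => hm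
  have hz₁' : z₁ ∈ X (TTo D ρ f S r (w + 1)) := rootClosure_mono ax (by
    rintro v ⟨⟨h1, h3, h4⟩, h5⟩
    exact ⟨h1, h3, fun _ => h4 h5⟩) hz₁
  have hz₂' : z₂ ∈ X (TTo D ρ f S r (w + 1)) := rootClosure_mono ax (by
    rintro v ⟨⟨⟨h1, h3, h4⟩, h5⟩, h6⟩
    exact ⟨h1, h3, fun h0 => by omega⟩) hz₂
  have triv : a ∈ X (TTo D ρ f S r (w + 1)) →
      ∃ g ∈ X S, tw.s g = g ∧ ∃ z' ∈ X (TTo D ρ f S r (w + 1)), tw.s z' = z' ∧
        g * (A r t * (z₁ * (a * z₂))) * g⁻¹ = A r t * z' := by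
    intro hm
    refine ⟨1, Subgroup.one_mem _, tw.s_one, z₁ * (a * z₂), Subgroup.mul_mem _ hz₁' (Subgroup.mul_mem _ hm hz₂'), ?_, by simp⟩
    exact hzs
  rcases mid_form H h2 hs (P := fun v => TTo D ρ f S r w v ∧ w ≤ f v) hcl2.pos
    (fun v hv => ⟨hρT v hv.1, by rw [hρl v hv.1]; exact hv.2⟩) ha hsa with rfl | ⟨v, c, ⟨hv, -⟩, hvw, hc, hcf, rfl⟩
  · exact triv (Subgroup.one_mem _)
  · have hvp := hS.pos v hv.1
    have hz₂G : z₂ ∈ GE ax f (w + 1) := rootClosure_mono ax (by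
      rintro u ⟨⟨⟨h1, h3, h4⟩, h5⟩, h6⟩
      exact ⟨hS.pos u h1, by omega⟩) hz₂
    have hTS : ∀ {m : GL D.Idx K}, m ∈ X (fun u => TTo D ρ f S r w u) → m ∈ X S :=
      fun hm => rootClosure_mono ax (fun u hu => hu.1) hm
    have hB : z₁ * (A v c * z₂) ∈ X S := hTS hz
    have hBs : tw.s (z₁ * (A v c * z₂)) = z₁ * (A v c * z₂) := hzs
    have hyy' : (A r t * (z₁ * (A v c * z₂))) * (A r t * (z₁ * (A v c * z₂))) = 1 := hyy
    have hvr : v ≠ r := by
      rintro rfl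
      have := hv.2.1
      omega
    have hvr' : v ≠ ρ r := by
      rintro rfl
      have := hv.2.1
      rw [R.ρ_lev r hrp.1] at this
      omega
    have hz₁1 : z₁ ∈ X (fun u => TTo D ρ f S r w u ∧ f u < w) := hz₁
    have keyv := fun hp => aux_step H h2 hs hS hSρ hr ht hfix htr hw hz₁1 hz₂G hB hBs hv.1 hvw hc hcf hyy' hp
    have rangeP := hs.range r v hrp.1 hvp.1 hvr (pos_ne_neg h hrp hvp)
    have rangeQ := hs.range (ρ r) v hρr.1 hvp.1 hvr' (pos_ne_neg h hρr hvp)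
    -- the swapped form
    have swapped : ρ v ≠ v → (pair D (ρ r) v = 1 ∨ (pair D (ρ r) v = -1 ∧ pair D r v ≠ 1)) →
        ∃ g ∈ X S, tw.s g = g ∧ ∃ z' ∈ X (TTo D ρ f S r (w + 1)), tw.s z' = z' ∧
          g * (A r t * (z₁ * (A v c * z₂))) * g⁻¹ = A r t * z' := by
      intro hn hp
      have es := Eo_swap ax R h hs H.φφ hvp hn c
      rw [← es] at hB hBs hyy' ⊢
      have hρv := R.ρ_pos v hvp
      refine aux_step H h2 hs hS hSρ hr ht hfix htr hw hz₁1 hz₂G hB hBs (hSρ v hv.1) (by rw [R.ρ_lev v hvp.1]; exact hvw)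
        (by rw [Ne, map_eq_zero]; exact hc) (fun e0 => ?_) hyy' ?_
      · rw [R.ρ_ρ v hvp.1] at e0
        exact absurd e0.symm hn
      · rw [← R.swap hrp.1 hvp.1, R.ρ_pair r v hrp.1 hvp.1]
        exact hp
    have hpp : ρ v = v → pair D (ρ r) v = pair D r v := by
      intro e0
      have := R.swap hrp.1 hvp.1
      rw [e0] at this
      exact this
    rcases rangeP with hp | hp | hp
    · -- `p = -1`
      by_cases hq : pair D (ρ r) v = 1
      · exact swapped (fun e0 => by rw [hpp e0, hp] at hq; omega) (Or.inl hq)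
      · exact keyv (Or.inr ⟨hp, hq⟩)
    · -- `p = 0`
      rcases rangeQ with hq | hq | hq
      · exact swapped (fun e0 => by rw [hpp e0, hp] at hq; omega) (Or.inr ⟨hq, by rw [hp]; norm_num⟩)
      · apply triv
        refine Eo_mem ax ⟨hv.1, hv.2.1, fun _ => ⟨hp, hq⟩⟩ ?_ c
        exact TTo_ρ R hS hSρ hrp.1 ⟨hv.1, hv.2.1, fun _ => ⟨hp, hq⟩⟩
      · exact swapped (fun e0 => by rw [hpp e0, hp] at hq; omega) (Or.inl hq)
    · exact keyv (Or.inl hp)

/-- Several levels. -/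
theorem levels {S : ℕ → Prop} (hS : Ctx D S) (hSρ : ∀ v, S v → S (ρ v)) {r : ℕ} (hr : S r) {t : K} (ht : t ≠ 0)
    (hfix : ρ r = r → φ t = t) (htr : ∀ c, φ c = c → ∃ e, e + φ e = c) (n : ℕ) {z : GL D.Idx K}
    (hz : z ∈ X (TTo D ρ f S r (f r + 1))) (hzs : tw.s z = z) (hyy : (A r t * z) * (A r t * z) = 1) :
    ∃ g ∈ X S, tw.s g = g ∧ ∃ z' ∈ X (TTo D ρ f S r (f r + 1 + n)), tw.s z' = z' ∧ g * (A r t * z) * g⁻¹ = A r t * z' := by
  induction n with
  | zero =>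
    exact ⟨1, Subgroup.one_mem _, tw.s_one, z, by simpa using hz, hzs, by simp⟩
  | succ n ih =>
    obtain ⟨g, hg, hgs, z', hz', hz's, e⟩ := ih
    have hyy' : (A r t * z') * (A r t * z') = 1 := by
      rw [← e]
      calc g * (A r t * z) * g⁻¹ * (g * (A r t * z) * g⁻¹) = g * ((A r t * z) * (A r t * z)) * g⁻¹ := by group
        _ = 1 := by rw [hyy]; group
    obtain ⟨g', hg', hg's, z'', hz'', hz''s, e'⟩ := level_step H h2 hs hS hSρ hr ht hfix htr (w := f r + 1 + n) (by omega) hz' hz's hyy'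
    have hgG : g ∈ D.group K := rootClosure_le_group h ax (fun v hv => (hS.pos v hv).1) hg
    have hg'G : g' ∈ D.group K := rootClosure_le_group h ax (fun v hv => (hS.pos v hv).1) hg'
    refine ⟨g' * g, Subgroup.mul_mem _ hg' hg, by rw [tw.s_mul _ hg'G _ hgG, hg's, hgs], z'', ?_, hz''s, ?_⟩
    · have : f r + 1 + ((n + 1 : ℕ) : ℤ) = f r + 1 + n + 1 := by push_cast; ring
      rw [this]
      exact hz''
    · rw [← e', ← e]
      group

end step

/-- A product of orbit elements. -/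
noncomputable def EL (ax : Ax D K) (ρ : ℕ → ℕ) (φ : K ≃+* K) (L : List (ℕ × K)) : GL D.Idx K :=
  (L.map fun p => Eo ax ρ φ p.1 p.2).prod

/-- A list of orthogonal orbits. -/
structure GoodL (D : ChevalleyDatum) (ρ : ℕ → ℕ) (φ : K ≃+* K) (S : ℕ → Prop) (L : List (ℕ × K)) : Prop where
  mem : ∀ p ∈ L, S p.1 ∧ p.2 ≠ 0 ∧ (ρ p.1 = p.1 → φ p.2 = p.2)
  orth : L.Pairwise fun p p' => pair D p.1 p'.1 = 0 ∧ pair D (ρ p.1) p'.1 = 0

section form

variable {ax : Ax D K} {h : Tab D} {tw : Tw h ax} {φ : K ≃+* K} {ρ : ℕ → ℕ} {f : ℕ → ℤ} (H : TwD tw φ ρ f)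
  (h2 : Tab2 D) (hs : SL D)

local notation "X" => rootClosure ax
local notation "A" => Eo ax ρ φ

include H h2 hs

/-- The normal form of a fixed involution. -/
theorem form_aux (htr : ∀ c, φ c = c → ∃ e, e + φ e = c) {W : ℤ} (hW : ∀ v, D.IsPosRoot v → f v < W) (n : ℕ) :
    ∀ (S : ℕ → Prop), Ctx D S → (∀ v, S v → S (ρ v)) → ∀ α : ℤ, W - α ≤ n → ∀ y ∈ X (fun v => S v ∧ α ≤ f v), tw.s y = y → y * y = 1 →
      ∃ g ∈ X S, tw.s g = g ∧ ∃ L, GoodL D ρ φ S L ∧ g * y * g⁻¹ = EL ax ρ φ L := by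
  have R := H.rd
  induction n with
  | zero =>
    intro S hS hSρ α hα y hy hys hyy
    have : y = 1 := by
      refine rootClosure_induction ax (Q := fun g => g = 1) rfl ?_ ?_ hy
      · rintro u t ⟨hu, hu1⟩
        have := hW u (hS.pos u hu)
        simp only [Nat.cast_zero] at hα
        omega
      · rintro x y rfl rfl
        simp
    subst this
    exact ⟨1, Subgroup.one_mem _, tw.s_one, [], ⟨by simp, List.Pairwise.nil⟩, by simp [EL]⟩
  | succ n ih =>
    intro S hS hSρ α hα y hy hys hyy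
    have hclS := closed_of_ctx h hs hS
    have hcl := closed_ge R h hs hclS α
    obtain ⟨a, ha, b, hb, e⟩ := factorC ax h hcl (fun v => f v = α) hy
    have hcla : ClosedP D (fun v => (S v ∧ α ≤ f v) ∧ f v = α) := closed_level R h hs hcl.pos α
    have hclb : ClosedP D (fun v => (S v ∧ α ≤ f v) ∧ ¬ f v = α) := closed_above R h hs hclS α
    have hρl : ∀ v, S v → f (ρ v) = f v := fun v hv => R.ρ_lev v (hS.pos v hv).1
    obtain ⟨hsa, hsb⟩ := tw.fix_split h2 hcla hclb (fun v hv hv' => hv'.2 hv.2)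
      (H.ρ_fin (P := fun v => (S v ∧ α ≤ f v) ∧ f v = α) (fun v hv => ⟨⟨hSρ v hv.1.1, by rw [hρl v hv.1.1]; exact hv.1.2⟩, by rw [hρl v hv.1.1]; exact hv.2⟩))
      (H.ρ_fin (P := fun v => (S v ∧ α ≤ f v) ∧ ¬ f v = α) (fun v hv => ⟨⟨hSρ v hv.1.1, by rw [hρl v hv.1.1]; exact hv.1.2⟩, by rw [hρl v hv.1.1]; exact hv.2⟩))
      ha hb (by rw [← e]; exact hys)
    subst e
    have hb' : b ∈ X (fun v => S v ∧ α + 1 ≤ f v) := rootClosure_mono ax (fun v hv => ⟨hv.1.1, by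
      have := hv.1.2
      have := hv.2
      omega⟩) hb
    rcases mid_form H h2 hs (P := fun v => S v ∧ α ≤ f v) hcl.pos
      (fun v hv => ⟨hSρ v hv.1, by rw [hρl v hv.1]; exact hv.2⟩) ha hsa with rfl | ⟨r, t, ⟨hr, -⟩, hrα, ht, hfix, rfl⟩
    · rw [one_mul] at hyy hys ⊢
      exact ih S hS hSρ (α + 1) (by push_cast at hα; omega) b hb' hys hyy
    · have hrp := hS.pos r hr
      have hρr := R.ρ_pos r hrp
      have hbT : b ∈ X (TTo D ρ f S r (f r + 1)) := rootClosure_mono ax (by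
        rintro v ⟨hv, hv1⟩
        exact ⟨hv, by omega, fun h0 => by omega⟩) hb'
      obtain ⟨g₁, hg₁, hg₁s, z', hz', hz's, e1⟩ := levels H h2 hs hS hSρ hr ht hfix htr (W - (f r + 1)).toNat hbT hsb hyy
      have hWle : W ≤ f r + 1 + ((W - (f r + 1)).toNat : ℤ) := by
        have := Int.self_le_toNat (W - (f r + 1))
        omega
      -- the roots orthogonal to the orbit
      set S₁ : ℕ → Prop := fun v => (S v ∧ pair D r v = 0) ∧ pair D (ρ r) v = 0 with hS₁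
      have hctx : Ctx D S₁ := (hS.perp h r).perp h (ρ r)
      have hρ₁ : ∀ v, S₁ v → S₁ (ρ v) := by
        rintro v ⟨⟨hv, h1⟩, h3⟩
        have hvp := hS.pos v hv
        refine ⟨⟨hSρ v hv, ?_⟩, ?_⟩
        · rw [← R.swap hrp.1 hvp.1]
          exact h3
        · rw [R.ρ_pair r v hrp.1 hvp.1]
          exact h1
      have hz'1 : z' ∈ X (fun v => S₁ v ∧ α + 1 ≤ f v) := rootClosure_mono ax (by
        rintro v ⟨hv, hv1, hv2⟩
        have hvp := hS.pos v hv
        have := hW v hvp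
        obtain ⟨p1, p2⟩ := hv2 (by omega)
        exact ⟨⟨⟨hv, p1⟩, p2⟩, by omega⟩) hz'
      -- commuting with the orbit element
      have hcomm : ∀ {m : GL D.Idx K}, m ∈ X S₁ → m * A r t = A r t * m := by
        intro m hm
        have c1 := comm_closure ax h hs hrp.1 (P := S₁) (fun u hu => ⟨(hS.pos u hu.1.1).1, hu.1.2⟩) hm t
        have c2 := comm_closure ax h hs hρr.1 (P := S₁) (fun u hu => ⟨(hS.pos u hu.1.1).1, hu.2⟩) hm (φ t)
        by_cases hn : ρ r = r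
        · rw [Eo_fix ax hn, c1]
        · rw [Eo_nf ax hn]
          calc m * (xG ax r t * xG ax (ρ r) (φ t)) = (m * xG ax r t) * xG ax (ρ r) (φ t) := by group
            _ = xG ax r t * (m * xG ax (ρ r) (φ t)) := by rw [c1]; group
            _ = _ := by rw [c2]; group
      have hz'2 : z' ∈ X S₁ := rootClosure_mono ax (fun v hv => hv.1) hz'1
      have hzz : z' * z' = 1 := by
        have e3 : (A r t * z') * (A r t * z') = 1 := by
          rw [← e1]
          calc g₁ * (A r t * b) * g₁⁻¹ * (g₁ * (A r t * b) * g₁⁻¹) = g₁ * ((A r t * b) * (A r t * b)) * g₁⁻¹ := by group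
            _ = 1 := by rw [hyy]; group
        have e4 : (A r t * z') * (A r t * z') = (A r t * A r t) * (z' * z') := by
          calc (A r t * z') * (A r t * z') = A r t * (z' * A r t) * z' := by group
            _ = A r t * (A r t * z') * z' := by rw [hcomm hz'2]
            _ = _ := by group
        rw [e4, Eo_sq ax R h hs hrp t, one_mul] at e3
        exact e3
      obtain ⟨g₂, hg₂, hg₂s, L, hL, e2⟩ := ih S₁ hctx hρ₁ (α + 1) (by push_cast at hα; omega) z' hz'1 hz's hzz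
      have hg₂S : g₂ ∈ X S := rootClosure_mono ax (fun v hv => hv.1.1) hg₂
      have hgG : ∀ {m : GL D.Idx K}, m ∈ X S → m ∈ D.group K := fun hm =>
        rootClosure_le_group h ax (fun v hv => (hS.pos v hv).1) hm
      refine ⟨g₂ * g₁, Subgroup.mul_mem _ hg₂S hg₁, by rw [tw.s_mul _ (hgG hg₂S) _ (hgG hg₁), hg₂s, hg₁s], (r, t) :: L, ⟨?_, ?_⟩, ?_⟩
      · intro p hp
        rcases List.mem_cons.mp hp with rfl | hp'
        · exact ⟨hr, ht, hfix⟩
        · obtain ⟨h1, h3, h4⟩ := hL.mem p hp'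
          exact ⟨h1.1.1, h3, h4⟩
      · refine List.pairwise_cons.mpr ⟨?_, hL.orth⟩
        intro p hp
        obtain ⟨h1, -, -⟩ := hL.mem p hp
        exact ⟨h1.1.2, h1.2⟩
      · have e5 : EL ax ρ φ ((r, t) :: L) = A r t * EL ax ρ φ L := by
          simp [EL]
        rw [e5, ← e2]
        have e6 : g₂ * (A r t * z') * g₂⁻¹ = A r t * (g₂ * z' * g₂⁻¹) := by
          calc g₂ * (A r t * z') * g₂⁻¹ = (g₂ * A r t) * z' * g₂⁻¹ := by group
            _ = (A r t * g₂) * z' * g₂⁻¹ := by rw [hcomm hg₂]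
            _ = _ := by group
        rw [← e6, ← e1]
        group

/-- The normal form of a fixed involution of the unipotent subgroup. -/
theorem form_main (htr : ∀ c, φ c = c → ∃ e, e + φ e = c) {W : ℤ} (hW : ∀ v, D.IsPosRoot v → f v < W) {y : GL D.Idx K}
    (hy : y ∈ X D.IsPosRoot) (hys : tw.s y = y) (hyy : y * y = 1) :
    ∃ g ∈ X D.IsPosRoot, tw.s g = g ∧ ∃ L, GoodL D ρ φ D.IsPosRoot L ∧ g * y * g⁻¹ = EL ax ρ φ L := by
  have R := H.rd
  refine form_aux H h2 hs htr hW (W - 1).toNat D.IsPosRoot (ctx_pos h) (fun v hv => R.ρ_pos v hv) 1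
    (Int.self_le_toNat _) y (rootClosure_mono ax (fun v hv => ⟨hv, ?_⟩) hy) hys hyy
  have := R.lev.pos v hv
  omega

end form

end Cfsg.Agent.Lib.InvT
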