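import Cfsg.Agent.Lib.InvT.Form
import Cfsg.Agent.Lib.InvE.Tree

/-!
From orthogonal orbits to a list of representatives: scaling by the torus, the action of the subgroup of the Weyl group
commuting with the symmetry, and the relation between a nonfixed orbit and two orthogonal fixed roots.
-/

set_option autoImplicit false
set_option linter.unusedSectionVars false
set_option linter.unusedVariables false
set_option linter.ambiguousOpen false
set_option linter.unusedSimpArgs false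

namespace Cfsg.Agent.Lib.InvT

open scoped MatrixGroups Matrix
open Cfsg Lie ChevalleyDatum
open Cfsg.Agent.Lib.Chev
open Tables Tables2 Tables3 Raise Basic AxBasic Torus Products Products2 Mono1 Mono2 Mono3
open Cfsg.Agent.Lib.Twisted.Fact Cfsg.Agent.Lib.InvE.Red Cfsg.Agent.Lib.InvE.Fusion Cfsg.Agent.Lib.Twisted.Tw
open Cfsg.Agent.Lib.InvE.Bits Cfsg.Agent.Lib.InvE.Tree

variable {D : ChevalleyDatum} {K : Type*} [Field K] [CharP K 2]

/-- The roots of an orbit. -/
def orbL (ρ : ℕ → ℕ) (r : ℕ) : List ℕ := if ρ r = r then [r] else [r, ρ r]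

lemma Eo_one (ax : Ax D K) (ρ : ℕ → ℕ) (φ : K ≃+* K) (r : ℕ) : Eo ax ρ φ r 1 = PP ax (orbL ρ r) := by
  by_cases hn : ρ r = r
  · rw [Eo_fix ax hn]
    simp [orbL, hn, PP_cons]
  · rw [Eo_nf ax hn, map_one]
    simp [orbL, hn, PP_cons]

/-! ### The torus -/

section torus

variable (ax : Ax D K) (ρ : ℕ → ℕ) (φ : K ≃+* K)

/-- The element of the torus for an orbit. -/
noncomputable def hE (r : ℕ) (c : K) : GL D.Idx K := hG ax r c * (if ρ r = r then 1 else hG ax (ρ r) (φ c))

variable {ax ρ φ} {f : ℕ → ℤ} (R : RD D ρ f) (h : Tab D) (hs : SL D)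

include R h hs

lemma hE_perp {r s : ℕ} (hr : r < D.nroots) (hs' : s < D.nroots) (h1 : pair D r s = 0) (h3 : pair D (ρ r) s = 0) (c : Kˣ) (e : K) :
    hE ax ρ φ r c * xG ax s e * (hE ax ρ φ r c)⁻¹ = xG ax s e := by
  have key : ∀ {a : ℕ} (ha : a < D.nroots) (u : Kˣ), pair D a s = 0 → hG ax a u * xG ax s e * (hG ax a u)⁻¹ = xG ax s e := by
    intro a ha u hp
    have := hG_conj ax ha hs' u e h
    rw [hp] at this
    simpa using this
  unfold hE
  split_ifs with hn
  · rw [mul_one]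
    exact key hr c h1
  · have := key (R.ρ_lt r hr) (Units.map (φ : K →* K) c) h3
    simp only [Units.coe_map, MonoidHom.coe_coe] at this
    calc hG ax r c * hG ax (ρ r) (φ c) * xG ax s e * (hG ax r c * hG ax (ρ r) (φ c))⁻¹
        = hG ax r c * (hG ax (ρ r) (φ c) * xG ax s e * (hG ax (ρ r) (φ c))⁻¹) * (hG ax r c)⁻¹ := by group
      _ = _ := by rw [this]; exact key hr c h1

/-- The action on the orbit element. -/
lemma hE_self {r : ℕ} (hr : D.IsPosRoot r) (c : Kˣ) {t : K} (hct : (c : K) ^ 2 * t = 1) :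
    hE ax ρ φ r c * Eo ax ρ φ r t * (hE ax ρ φ r c)⁻¹ = Eo ax ρ φ r 1 := by
  have key : ∀ {a : ℕ} (ha : a < D.nroots) (u : Kˣ) (e : K), hG ax a u * xG ax a e * (hG ax a u)⁻¹ = xG ax a ((u : K) ^ 2 * e) := by
    intro a ha u e
    have := hG_conj ax ha ha u e h
    rw [hs.pair_self a ha] at this
    simpa [zpow_ofNat] using this
  by_cases hn : ρ r = r
  · simp only [hE, hn, if_true, mul_one]
    rw [Eo_fix ax hn, Eo_fix ax hn, key hr.1, hct]
  · have hρr := R.ρ_pos r hr
    have p1 := R.orth r hr hn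
    have p2 : pair D (ρ r) r = 0 := by rw [hs.pair_sym (ρ r) r hρr.1 hr.1]; exact p1
    have e1 : hE ax ρ φ r c * xG ax r t * (hE ax ρ φ r c)⁻¹ = xG ax r 1 := by
      simp only [hE, hn, if_false]
      have k2 : hG ax (ρ r) (φ c) * xG ax r t * (hG ax (ρ r) (φ c))⁻¹ = xG ax r t := by
        have := hG_conj ax hρr.1 hr.1 (Units.map (φ : K →* K) c) t h
        rw [p2] at this
        simpa using this
      calc hG ax r c * hG ax (ρ r) (φ c) * xG ax r t * (hG ax r c * hG ax (ρ r) (φ c))⁻¹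
          = hG ax r c * (hG ax (ρ r) (φ c) * xG ax r t * (hG ax (ρ r) (φ c))⁻¹) * (hG ax r c)⁻¹ := by group
        _ = _ := by rw [k2, key hr.1, hct]
    have e2 : hE ax ρ φ r c * xG ax (ρ r) (φ t) * (hE ax ρ φ r c)⁻¹ = xG ax (ρ r) 1 := by
      simp only [hE, hn, if_false]
      have k1 : hG ax (ρ r) (φ c) * xG ax (ρ r) (φ t) * (hG ax (ρ r) (φ c))⁻¹ = xG ax (ρ r) 1 := by
        have := key hρr.1 (Units.map (φ : K →* K) c) (φ t)
        simp only [Units.coe_map, MonoidHom.coe_coe] at this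
        rw [this, ← map_pow, ← map_mul, hct, map_one]
      have k2 : hG ax r c * xG ax (ρ r) 1 * (hG ax r c)⁻¹ = xG ax (ρ r) 1 := by
        have := hG_conj ax hr.1 hρr.1 c 1 h
        rw [p1] at this
        simpa using this
      calc hG ax r c * hG ax (ρ r) (φ c) * xG ax (ρ r) (φ t) * (hG ax r c * hG ax (ρ r) (φ c))⁻¹
          = hG ax r c * (hG ax (ρ r) (φ c) * xG ax (ρ r) (φ t) * (hG ax (ρ r) (φ c))⁻¹) * (hG ax r c)⁻¹ := by group
        _ = _ := by rw [k1, k2]
    rw [Eo_nf ax hn, Eo_nf ax hn, map_one]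
    calc hE ax ρ φ r c * (xG ax r t * xG ax (ρ r) (φ t)) * (hE ax ρ φ r c)⁻¹
        = (hE ax ρ φ r c * xG ax r t * (hE ax ρ φ r c)⁻¹) * (hE ax ρ φ r c * xG ax (ρ r) (φ t) * (hE ax ρ φ r c)⁻¹) := by group
      _ = _ := by rw [e1, e2]

/-- The action on an orthogonal orbit element. -/
lemma hE_Eo {r p : ℕ} (hr : D.IsPosRoot r) (hp : D.IsPosRoot p) (h1 : pair D r p = 0) (h3 : pair D (ρ r) p = 0) (c : Kˣ) (t : K) :
    hE ax ρ φ r c * Eo ax ρ φ p t * (hE ax ρ φ r c)⁻¹ = Eo ax ρ φ p t := by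
  have hρr := R.ρ_pos r hr
  have hρp := R.ρ_pos p hp
  by_cases hn : ρ p = p
  · rw [Eo_fix ax hn]
    exact hE_perp R h hs hr.1 hp.1 h1 h3 c t
  · rw [Eo_nf ax hn]
    have e1 := hE_perp (φ := φ) (ax := ax) R h hs hr.1 hp.1 h1 h3 c t
    have e2 := hE_perp (φ := φ) (ax := ax) R h hs (s := ρ p) hr.1 hρp.1 (by rw [← R.swap hr.1 hp.1]; exact h3)
      (by rw [R.ρ_pair r p hr.1 hp.1]; exact h1) c (φ t)
    calc hE ax ρ φ r c * (xG ax p t * xG ax (ρ p) (φ t)) * (hE ax ρ φ r c)⁻¹
        = (hE ax ρ φ r c * xG ax p t * (hE ax ρ φ r c)⁻¹) * (hE ax ρ φ r c * xG ax (ρ p) (φ t) * (hE ax ρ φ r c)⁻¹) := by group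
      _ = _ := by rw [e1, e2]

end torus

section scale

variable {ax : Ax D K} {ρ : ℕ → ℕ} {φ : K ≃+* K} {f : ℕ → ℤ} (R : RD D ρ f) (h : Tab D) (hs : SL D)
  {G1 : Subgroup (GL D.Idx K)}

lemma exists_sqrt' [Finite K] (a : K) : ∃ b : K, b ^ 2 = a := by
  have hinj : Function.Injective (fun b : K => b ^ 2) := by
    intro b c e
    simp only at e
    have : (b - c) ^ 2 = 0 := by
      rw [sub_pow_char, e, sub_self]
    have h3 := pow_eq_zero_iff (two_ne_zero) |>.mp this
    exact sub_eq_zero.mp h3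
  exact Finite.surjective_of_injective hinj a

include R h hs

/-- Scaling a list of orthogonal orbit elements. -/
theorem torus_EL [Finite K] (hφφ : ∀ t, φ (φ t) = t) (hmem : ∀ r, D.IsPosRoot r → ∀ c : K, c ≠ 0 → (ρ r = r → φ c = c) → hE ax ρ φ r c ∈ G1)
    (L : List (ℕ × K)) (hL : GoodL D ρ φ D.IsPosRoot L) :
    ∃ H ∈ G1, H * EL ax ρ φ L * H⁻¹ = PP ax ((L.map Prod.fst).flatMap (orbL ρ)) ∧
      ∀ v, v < D.nroots → (∀ p ∈ L, pair D p.1 v = 0 ∧ pair D (ρ p.1) v = 0) → ∀ e, H * xG ax v e * H⁻¹ = xG ax v e := by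
  induction L with
  | nil => exact ⟨1, Subgroup.one_mem _, by simp [EL], by simp⟩
  | cons p L ih =>
    obtain ⟨r, t⟩ := p
    obtain ⟨hm1, hm2⟩ := (hL.mem (r, t) (by simp)), hL.orth
    obtain ⟨hrp, ht, hfix⟩ := hm1
    simp only at hrp ht hfix
    obtain ⟨ho1, ho2⟩ := List.pairwise_cons.mp hm2
    obtain ⟨H', hH', e1, e2⟩ := ih ⟨fun p hp => hL.mem p (by simp [hp]), ho2⟩
    obtain ⟨c, hc⟩ := exists_sqrt' (t⁻¹)
    have hc0 : c ≠ 0 := by
      rintro rfl
      rw [zero_pow two_ne_zero] at hc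
      exact inv_ne_zero ht hc.symm
    have hct : c ^ 2 * t = 1 := by rw [hc]; field_simp
    have hcf : ρ r = r → φ c = c := by
      intro e0
      have e3 : (φ c - c) ^ 2 = 0 := by
        rw [sub_pow_char, ← map_pow, hc, map_inv₀, hfix e0, sub_self]
      exact sub_eq_zero.mp (pow_eq_zero_iff (two_ne_zero) |>.mp e3)
    set c' : Kˣ := Units.mk0 c hc0 with hc'
    have hρr := R.ρ_pos r hrp
    refine ⟨H' * hE ax ρ φ r c, Subgroup.mul_mem _ hH' (hmem r hrp c hc0 hcf), ?_, ?_⟩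
    · -- the element of the torus fixes the rest
      have hfixrest : ∀ (L' : List (ℕ × K)), (∀ p ∈ L', D.IsPosRoot p.1) → (∀ p ∈ L', pair D r p.1 = 0 ∧ pair D (ρ r) p.1 = 0) →
          hE ax ρ φ r c * EL ax ρ φ L' * (hE ax ρ φ r c)⁻¹ = EL ax ρ φ L' := by
        intro L'
        induction L' with
        | nil => intro _ _; simp [EL]
        | cons q L' ih' =>
          intro h1 h3
          have e4 := hE_Eo (φ := φ) (ax := ax) R h hs hrp (h1 q (by simp)) (h3 q (by simp)).1 (h3 q (by simp)).2 c' q.2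
          have e5 := ih' (fun p hp => h1 p (by simp [hp])) (fun p hp => h3 p (by simp [hp]))
          have e6 : EL ax ρ φ (q :: L') = Eo ax ρ φ q.1 q.2 * EL ax ρ φ L' := by simp [EL]
          rw [e6]
          calc hE ax ρ φ r c * (Eo ax ρ φ q.1 q.2 * EL ax ρ φ L') * (hE ax ρ φ r c)⁻¹
              = (hE ax ρ φ r c * Eo ax ρ φ q.1 q.2 * (hE ax ρ φ r c)⁻¹) * (hE ax ρ φ r c * EL ax ρ φ L' * (hE ax ρ φ r c)⁻¹) := by group
            _ = _ := by
              rw [e5]
              rw [show hE ax ρ φ r c = hE ax ρ φ r (c' : K) from rfl] at *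
              rw [e4]
      have e3 := hE_self (φ := φ) (ax := ax) R h hs hrp c' hct
      have e4 := hfixrest L (fun p hp => (hL.mem p (by simp [hp])).1) (fun p hp => ho1 p hp)
      have e6 : EL ax ρ φ ((r, t) :: L) = Eo ax ρ φ r t * EL ax ρ φ L := by simp [EL]
      have e7 : ((((r, t) :: L).map Prod.fst).flatMap (orbL ρ)) = orbL ρ r ++ ((L.map Prod.fst).flatMap (orbL ρ)) := by
        simp
      rw [e6, e7, PP_append, ← Eo_one ax ρ φ r, ← e1]
      -- `H'` fixes the first orbit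
      have hperp1 : ∀ p ∈ L, pair D p.1 r = 0 ∧ pair D (ρ p.1) r = 0 := by
        intro p hp
        have hpp : D.IsPosRoot p.1 := (hL.mem p (by simp [hp])).1
        have e8 := ho1 p hp
        refine ⟨by rw [hs.pair_sym p.1 r hpp.1 hrp.1]; exact e8.1, ?_⟩
        rw [R.swap hpp.1 hrp.1, hs.pair_sym p.1 (ρ r) hpp.1 hρr.1]
        exact e8.2
      have hperp2 : ∀ p ∈ L, pair D p.1 (ρ r) = 0 ∧ pair D (ρ p.1) (ρ r) = 0 := by
        intro p hp
        have hpp : D.IsPosRoot p.1 := (hL.mem p (by simp [hp])).1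
        have e8 := ho1 p hp
        refine ⟨by rw [hs.pair_sym p.1 (ρ r) hpp.1 hρr.1]; exact e8.2, ?_⟩
        rw [R.ρ_pair p.1 r hpp.1 hrp.1, hs.pair_sym p.1 r hpp.1 hrp.1]
        exact e8.1
      have e8 : H' * Eo ax ρ φ r 1 * H'⁻¹ = Eo ax ρ φ r 1 := by
        by_cases hn : ρ r = r
        · rw [Eo_fix ax hn]
          exact e2 r hrp.1 hperp1 1
        · rw [Eo_nf ax hn]
          have e9 := e2 r hrp.1 hperp1 1
          have e10 := e2 (ρ r) hρr.1 hperp2 (φ 1)
          calc H' * (xG ax r 1 * xG ax (ρ r) (φ 1)) * H'⁻¹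
              = (H' * xG ax r 1 * H'⁻¹) * (H' * xG ax (ρ r) (φ 1) * H'⁻¹) := by group
            _ = _ := by rw [e9, e10]
      calc H' * hE ax ρ φ r c * (Eo ax ρ φ r t * EL ax ρ φ L) * (H' * hE ax ρ φ r c)⁻¹
          = H' * ((hE ax ρ φ r c * Eo ax ρ φ r t * (hE ax ρ φ r c)⁻¹) * (hE ax ρ φ r c * EL ax ρ φ L * (hE ax ρ φ r c)⁻¹)) * H'⁻¹ := by group
        _ = H' * (Eo ax ρ φ r 1 * EL ax ρ φ L) * H'⁻¹ := by
            rw [e4]
            rw [show hE ax ρ φ r c = hE ax ρ φ r (c' : K) from rfl] at *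
            rw [e3]
        _ = (H' * Eo ax ρ φ r 1 * H'⁻¹) * (H' * EL ax ρ φ L * H'⁻¹) := by group
        _ = _ := by rw [e8]
    · intro v hv hp e
      have h1 := hp (r, t) (by simp)
      simp only at h1
      have e3 := hE_perp (φ := φ) (ax := ax) R h hs hrp.1 hv h1.1 h1.2 c' e
      have e4 := e2 v hv (fun p hp' => hp p (by simp [hp'])) e
      calc H' * hE ax ρ φ r c * xG ax v e * (H' * hE ax ρ φ r c)⁻¹
          = H' * (hE ax ρ φ r c * xG ax v e * (hE ax ρ φ r c)⁻¹) * H'⁻¹ := by group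
        _ = H' * xG ax v e * H'⁻¹ := by
            rw [show hE ax ρ φ r c = hE ax ρ φ r (c' : K) from rfl] at *
            rw [e3]
        _ = _ := e4

end scale

/-! ### The recursion on orbits -/

section fusion

variable (ax : Ax D K) (G1 : Subgroup (GL D.Idx K)) (ρ : ℕ → ℕ) (φ : K ≃+* K)

/-- Conjugate in `G1` to a product for one of the lists. -/
def Clt (R : List (List ℕ)) (y : GL D.Idx K) : Prop := ∃ σ ∈ R, ∃ g ∈ G1, g * y * g⁻¹ = PP ax σ

/-- The products for orthogonal orbits extending `A` are conjugate to a product for one of the lists. -/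
def NNt (R : List (List ℕ)) (A : List ℕ) : Prop :=
  ∀ V : List ℕ, OrthAll D (A ++ V.flatMap (orbL ρ)) → Clt ax G1 R (PP ax (A ++ V.flatMap (orbL ρ)))

/-- A word of simple reflections with representative in `G1` commuting with the symmetry. -/
structure GW (l : List ℕ) : Prop where
  lt : ∀ i ∈ l, i < D.rank
  mem : nw D ax l ∈ G1
  com : ∀ u, u < D.nroots → act D l (ρ u) = ρ (act D l u)

variable {ax G1 ρ}

lemma GW_nil : GW ax G1 ρ [] := ⟨by simp, by simp, by simp⟩

lemma act_append (l l' : List ℕ) (s : ℕ) : act D (l ++ l') s = act D l (act D l' s) := by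
  simp [act, List.foldr_append]

lemma GW_append (h : Tab D) {l l' : List ℕ} (hl : GW ax G1 ρ l) (hl' : GW ax G1 ρ l') (ρlt : ∀ u, u < D.nroots → ρ u < D.nroots) :
    GW ax G1 ρ (l ++ l') := by
  refine ⟨fun i hi => ?_, ?_, fun u hu => ?_⟩
  · rcases List.mem_append.mp hi with hi | hi
    · exact hl.lt i hi
    · exact hl'.lt i hi
  · rw [nw_append]
    exact Subgroup.mul_mem _ hl.mem hl'.mem
  · rw [act_append, act_append, hl'.com u hu, hl.com _ (act_lt h hl'.lt hu)]

lemma act_inj (h : Tab D) {l : List ℕ} (hl : ∀ i ∈ l, i < D.rank) {a b : ℕ} (ha : a < D.nroots) (hb : b < D.nroots)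
    (e : act D l a = act D l b) : a = b := by
  induction l with
  | nil => exact e
  | cons i l ih =>
    have hl' : ∀ j ∈ l, j < D.rank := fun j hj => hl j (by simp [hj])
    have hi := hl i (by simp)
    apply ih hl'
    have e2 := congrArg (D.reflectRoot i) e
    rw [act_cons, act_cons, reflect_reflect h hi (act_lt h hl' ha), reflect_reflect h hi (act_lt h hl' hb)] at e2
    exact e2

variable {f : ℕ → ℤ} (RD' : RD D ρ f) (h : Tab D) (h2 : Tab2 D) (hs : SL D) (hc : CorootEq D)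

include RD' h in
lemma orbL_act {l : List ℕ} (hl : GW ax G1 ρ l) {u : ℕ} (hu : u < D.nroots) :
    (orbL ρ u).map (act D l) = orbL ρ (act D l u) := by
  by_cases hn : ρ u = u
  · have e : ρ (act D l u) = act D l u := by
      rw [← hl.com u hu, hn]
    simp [orbL, hn, e]
  · have e : ρ (act D l u) ≠ act D l u := by
      intro e0
      rw [← hl.com u hu] at e0
      exact hn (act_inj h hl.lt (RD'.ρ_lt u hu) hu e0)
    simp [orbL, hn, e, hl.com u hu]

include RD' h in
lemma flat_act {l : List ℕ} (hl : GW ax G1 ρ l) (V : List ℕ) (hV : ∀ u ∈ V, u < D.nroots) :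
    (V.flatMap (orbL ρ)).map (act D l) = (V.map (act D l)).flatMap (orbL ρ) := by
  induction V with
  | nil => rfl
  | cons v V ih =>
    simp only [List.flatMap_cons, List.map_append, List.map_cons]
    rw [orbL_act RD' h hl (hV v (by simp)), ih (fun u hu => hV u (by simp [hu]))]

include RD' h h2 hs hc in
/-- The recursion step. -/
theorem node_stept {R : List (List ℕ)} {A Θ : List ℕ} (W : ℕ → List ℕ)
    (hW : ∀ v, v < D.nroots → (∀ a ∈ A, pair D a v = 0) →
      GW ax G1 ρ (W v) ∧ (∀ a ∈ A, act D (W v) a = a) ∧ act D (W v) v ∈ Θ)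
    (hb : Clt ax G1 R (PP ax A)) (hch : ∀ θ ∈ Θ, NNt ax G1 ρ R (A ++ orbL ρ θ)) : NNt ax G1 ρ R A := by
  intro V hO
  cases V with
  | nil => simpa using hb
  | cons v V' =>
    have hvmem : v ∈ orbL ρ v := by
      unfold orbL
      split_ifs <;> simp
    have hvO : v ∈ A ++ (v :: V').flatMap (orbL ρ) := by
      simp only [List.flatMap_cons, List.mem_append]
      exact Or.inr (Or.inl hvmem)
    have hv : v < D.nroots := hO.lt v hvO
    have hperp : ∀ a ∈ A, pair D a v = 0 := by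
      intro a ha
      exact (List.pairwise_append.mp hO.orth).2.2 a ha v (by
        simp only [List.flatMap_cons, List.mem_append]
        exact Or.inl hvmem)
    obtain ⟨hl, hfix, hθ⟩ := hW v hv hperp
    set l := W v with hl'
    have hmapA : A.map (act D l) = A := by
      conv_rhs => rw [← List.map_id A]
      exact List.map_congr_left hfix
    have hV' : ∀ u ∈ V', u < D.nroots := by
      intro u hu
      apply hO.lt u
      simp only [List.flatMap_cons, List.mem_append, List.mem_flatMap]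
      refine Or.inr (Or.inr ⟨u, hu, ?_⟩)
      unfold orbL
      split_ifs <;> simp
    have hmap : (A ++ (v :: V').flatMap (orbL ρ)).map (act D l) =
        (A ++ orbL ρ (act D l v)) ++ (V'.map (act D l)).flatMap (orbL ρ) := by
      simp only [List.flatMap_cons, List.map_append]
      rw [hmapA, orbL_act RD' h hl hv, flat_act RD' h hl V' hV', List.append_assoc]
    have hO' : OrthAll D ((A ++ (v :: V').flatMap (orbL ρ)).map (act D l)) := by
      constructor
      · intro u hu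
        obtain ⟨u', hu', rfl⟩ := List.mem_map.mp hu
        exact act_lt h hl.lt (hO.lt u' hu')
      · rw [OrthL, List.pairwise_map]
        exact hO.orth.imp_of_mem (fun ha hb hp => by
          rw [pair_act h h2 hs hc hl.lt (hO.lt _ ha) (hO.lt _ hb)]
          exact hp)
    rw [hmap] at hO'
    obtain ⟨σ, hσ, g, hg, e⟩ := hch _ hθ _ hO'
    refine ⟨σ, hσ, g * nw D ax l, Subgroup.mul_mem _ hg hl.mem, ?_⟩
    rw [← e, ← hmap, ← nw_conj_PP ax h hl.lt _ hO.lt]
    group

/-- Passing to a conjugate. -/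
lemma Clt.of_conj {R : List (List ℕ)} {y y' g : GL D.Idx K} (hg : g ∈ G1) (e : g * y * g⁻¹ = y') (hy : Clt ax G1 R y') :
    Clt ax G1 R y := by
  obtain ⟨σ, hσ, k, hk, e2⟩ := hy
  refine ⟨σ, hσ, k * g, Subgroup.mul_mem _ hk hg, ?_⟩
  rw [← e2, ← e]
  group

include h in
/-- Moving by a word. -/
lemma Clt.of_word {R : List (List ℕ)} {A A' : List ℕ} {l : List ℕ} (hl : GW ax G1 ρ l) (hA : ∀ u ∈ A, u < D.nroots)
    (e : A.map (act D l) = A') (hy : Clt ax G1 R (PP ax A')) : Clt ax G1 R (PP ax A) :=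
  Clt.of_conj hl.mem (by rw [nw_conj_PP ax h hl.lt A hA, e]) hy

end fusion

end Cfsg.Agent.Lib.InvT
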