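import Cfsg.Agent.Lib.InvT.Step

/-!
The level by level reduction of an involution in the fixed points of the unipotent subgroup.
-/

set_option autoImplicit false
set_option linter.unusedSectionVars false
set_option linter.unusedVariables false
set_option linter.ambiguousOpen false
set_option linter.unusedSimpArgs false

namespace Cfsg.Agent.Lib.InvT

open scoped MatrixGroups Matrix
open Cfsg Lie ChevalleyDatum
open Cfsg.Agent.Lib.Chev
open Tables Tables2 Tables3 Raise Basic AxBasic Torus Products Products2 Mono1 Mono2 Mono3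
open Cfsg.Agent.Lib.Twisted.Fact Cfsg.Agent.Lib.InvE.Red Cfsg.Agent.Lib.InvE.Fusion Cfsg.Agent.Lib.Twisted.Tw

variable {D : ChevalleyDatum} {K : Type*} [Field K] [CharP K 2]

local notation "⟦" a ", " b "⟧" => a * b * a⁻¹ * b⁻¹

/-- The roots above `r` orthogonal to its orbit below `w`. -/
def TTo (D : ChevalleyDatum) (ρ : ℕ → ℕ) (f : ℕ → ℤ) (S : ℕ → Prop) (r : ℕ) (w : ℤ) : ℕ → Prop :=
  fun v => S v ∧ f r < f v ∧ (f v < w → pair D r v = 0 ∧ pair D (ρ r) v = 0)

section closed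

variable {ρ : ℕ → ℕ} {f : ℕ → ℤ} (R : RD D ρ f) (h : Tab D) (hs : SL D)

include h hs in
lemma closedP_of {P : ℕ → Prop} (hp : ∀ v, P v → D.IsPosRoot v)
    (hadd : ∀ a b k, P a → P b → AddP D a b k → P k) : ClosedP D P where
  pos := hp
  closed := by
    intro a b ha hb hlt c hc
    have hap := hp a ha
    have hbp := hp b hb
    exact hadd a b _ ha hb (mem_terms hs hap.1 hbp.1 (by omega) (pos_ne_neg h hap hbp) hc)

include R h hs

lemma closed_TTo {S : ℕ → Prop} (hS : Ctx D S) (r : ℕ) (w : ℤ) : ClosedP D (TTo D ρ f S r w) := by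
  apply closedP_of h hs (fun v hv => hS.pos v hv.1)
  rintro a b k ⟨ha, har, ha0⟩ ⟨hb, hbr, hb0⟩ hA
  have hap := hS.pos a ha
  have hbp := hS.pos b hb
  have e := R.lev.add _ _ _ hap.1 hbp.1 hA
  have h1 := R.lev.pos a hap
  have h3 := R.lev.pos b hbp
  refine ⟨hS.add a b k ha hb hA, by omega, fun hk => ?_⟩
  obtain ⟨p1, p2⟩ := ha0 (by omega)
  obtain ⟨p3, p4⟩ := hb0 (by omega)
  rw [hA.pair_add h hap.1 hbp.1 r, hA.pair_add h hap.1 hbp.1 (ρ r), p1, p2, p3, p4]
  exact ⟨rfl, rfl⟩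

/-- A set of roots above a level. -/
lemma closed_ge {P : ℕ → Prop} (hP : ClosedP D P) (α : ℤ) : ClosedP D (fun v => P v ∧ α ≤ f v) := by
  refine ⟨fun v hv => hP.pos v hv.1, ?_⟩
  rintro a b ⟨ha, ha1⟩ ⟨hb, hb1⟩ hlt c hc
  have hap := hP.pos a ha
  have hbp := hP.pos b hb
  have hA := mem_terms hs hap.1 hbp.1 (by omega) (pos_ne_neg h hap hbp) hc
  have e := R.lev.add _ _ _ hap.1 hbp.1 hA
  have h1 := R.lev.pos a hap
  have h3 := R.lev.pos b hbp
  exact ⟨hP.closed a b ha hb hlt c hc, by omega⟩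

/-- The roots of one level. -/
lemma closed_level {P : ℕ → Prop} (hP : ∀ v, P v → D.IsPosRoot v) (α : ℤ) : ClosedP D (fun v => P v ∧ f v = α) := by
  refine ⟨fun v hv => hP v hv.1, ?_⟩
  rintro a b ⟨ha, ha1⟩ ⟨hb, hb1⟩ hlt c hc
  have hap := hP a ha
  have hbp := hP b hb
  exfalso
  have hA := mem_terms hs hap.1 hbp.1 (by omega) (pos_ne_neg h hap hbp) hc
  have hm := hA.pair_eq_neg_one hs hap.1 hbp.1 (by omega) (pos_ne_neg h hap hbp)
  rcases R.sep a b hap hbp (by omega) with e | e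
  · omega
  · have hn : ρ a ≠ a := by
      rw [← e]
      omega
    have := R.orth a hap hn
    rw [← e] at this
    omega

/-- The roots of higher levels. -/
lemma closed_above {P : ℕ → Prop} (hP : ClosedP D P) (α : ℤ) :
    ClosedP D (fun v => (P v ∧ α ≤ f v) ∧ ¬ f v = α) := by
  refine ⟨fun v hv => hP.pos v hv.1.1, ?_⟩
  rintro a b ⟨⟨ha, ha1⟩, ha2⟩ ⟨⟨hb, hb1⟩, hb2⟩ hlt c hc
  have hap := hP.pos a ha
  have hbp := hP.pos b hb
  have hA := mem_terms hs hap.1 hbp.1 (by omega) (pos_ne_neg h hap hbp) hc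
  have e := R.lev.add _ _ _ hap.1 hbp.1 hA
  have h1 := R.lev.pos a hap
  have h3 := R.lev.pos b hbp
  exact ⟨⟨hP.closed a b ha hb hlt c hc, by omega⟩, by omega⟩

omit h hs in
lemma TTo_ρ {S : ℕ → Prop} (hS : Ctx D S) (hSρ : ∀ v, S v → S (ρ v)) {r : ℕ} (hr : r < D.nroots) {w : ℤ} {v : ℕ}
    (hv : TTo D ρ f S r w v) : TTo D ρ f S r w (ρ v) := by
  obtain ⟨hv1, hv2, hv3⟩ := hv
  have hvp := hS.pos v hv1
  have hl := R.ρ_lev v hvp.1
  refine ⟨hSρ v hv1, by omega, fun hk => ?_⟩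
  obtain ⟨p1, p2⟩ := hv3 (by omega)
  refine ⟨?_, ?_⟩
  · rw [← R.swap hr hvp.1]
    exact p2
  · rw [R.ρ_pair r v hr hvp.1]
    exact p1

end closed

section fix

variable {ax : Ax D K} {h : Tab D} {tw : Tw h ax} {φ : K ≃+* K} {ρ : ℕ → ℕ} {f : ℕ → ℤ} (H : TwD tw φ ρ f)
  (h2 : Tab2 D) (hs : SL D)

local notation "X" => rootClosure ax

include H

omit [CharP K 2] in
lemma TwD.ρ_fin {P : ℕ → Prop} (hP : ∀ v, P v → P (ρ v)) : ∀ r : Fin D.nroots, P r → P (tw.ρ r) := by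
  intro r hr
  rw [H.ρ_eq r]
  exact hP _ hr

lemma TwD.s_Eo (hs : SL D) {r : ℕ} (hr : D.IsPosRoot r) {t : K} (hfix : ρ r = r → φ t = t) :
    tw.s (Eo ax ρ φ r t) = Eo ax ρ φ r t := by
  by_cases hn : ρ r = r
  · rw [Eo_fix ax hn, H.s_x r hr.1, hn, hfix hn]
  · have R := H.rd
    rw [Eo_nf ax hn, tw.s_mul _ (xG_mem_group ax hr.1 t) _ (xG_mem_group ax (R.ρ_lt r hr.1) _), H.s_x r hr.1,
      H.s_x _ (R.ρ_lt r hr.1), R.ρ_ρ r hr.1, H.φφ]
    exact Eo_comm ax R h hs hr hn t (φ t)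

include h2 hs

/-- Splitting a fixed element at a level. -/
theorem split_level {P : ℕ → Prop} (hP : ClosedP D P) (hρ : ∀ v, P v → P (ρ v)) (w : ℤ) (n : ℕ) :
    ∀ (α : ℤ), w - α ≤ n → ∀ z ∈ X (fun v => P v ∧ α ≤ f v), tw.s z = z →
      ∃ z₁ ∈ X (fun v => P v ∧ f v < w), ∃ z₂ ∈ X (fun v => P v ∧ w ≤ f v), z = z₁ * z₂ ∧ tw.s z₁ = z₁ ∧ tw.s z₂ = z₂ := by
  have R := H.rd
  induction n with
  | zero =>
    intro α hα z hz hfix
    exact ⟨1, Subgroup.one_mem _, z, rootClosure_mono ax (fun v hv => ⟨hv.1, by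
      have := hv.2
      simp only [Nat.cast_zero] at hα
      omega⟩) hz, by simp, tw.s_one, hfix⟩
  | succ n ih =>
    intro α hα z hz hfix
    by_cases hαw : w ≤ α
    · exact ⟨1, Subgroup.one_mem _, z, rootClosure_mono ax (fun v hv => ⟨hv.1, by
        have := hv.2
        omega⟩) hz, by simp, tw.s_one, hfix⟩
    · have hcl := closed_ge R h hs hP α
      obtain ⟨a, ha, b, hb, e⟩ := factorC ax h hcl (fun v => f v = α) hz
      have hcla : ClosedP D (fun v => (P v ∧ α ≤ f v) ∧ f v = α) := closed_level R h hs hcl.pos α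
      have hclb : ClosedP D (fun v => (P v ∧ α ≤ f v) ∧ ¬ f v = α) := closed_above R h hs hP α
      have hρl : ∀ v, P v → f (ρ v) = f v := fun v hv => R.ρ_lev v (hP.pos v hv).1
      obtain ⟨h3, h4⟩ := tw.fix_split h2 hcla hclb (fun v hv hv' => hv'.2 hv.2)
        (H.ρ_fin (P := fun v => (P v ∧ α ≤ f v) ∧ f v = α) (fun v hv => ⟨⟨hρ v hv.1.1, by rw [hρl v hv.1.1]; exact hv.1.2⟩, by rw [hρl v hv.1.1]; exact hv.2⟩))
        (H.ρ_fin (P := fun v => (P v ∧ α ≤ f v) ∧ ¬ f v = α) (fun v hv => ⟨⟨hρ v hv.1.1, by rw [hρl v hv.1.1]; exact hv.1.2⟩, by rw [hρl v hv.1.1]; exact hv.2⟩))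
        ha hb (by rw [← e]; exact hfix)
      have hb' : b ∈ X (fun v => P v ∧ α + 1 ≤ f v) := rootClosure_mono ax (fun v hv => ⟨hv.1.1, by
        have := hv.1.2
        have := hv.2
        omega⟩) hb
      obtain ⟨z₁, hz₁, z₂, hz₂, e2, h5, h6⟩ := ih (α + 1) (by push_cast at hα; omega) b hb' h4
      refine ⟨a * z₁, Subgroup.mul_mem _ (rootClosure_mono ax (fun v hv => ⟨hv.1.1, by
        have := hv.2
        omega⟩) ha) hz₁, z₂, hz₂, by rw [e, e2, mul_assoc], ?_, h6⟩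
      have hPn : ∀ v, P v → v < D.nroots := fun v hv => (hP.pos v hv).1
      rw [tw.s_mul _ (rootClosure_le_group h ax (fun v hv => hPn v hv.1.1) ha) _
        (rootClosure_le_group h ax (fun v hv => hPn v hv.1) hz₁), h3, h5]

/-- An element of a level. -/
theorem mid_form {P : ℕ → Prop} (hP : ∀ v, P v → D.IsPosRoot v) (hρ : ∀ v, P v → P (ρ v)) {w : ℤ} {a : GL D.Idx K}
    (ha : a ∈ X (fun v => P v ∧ f v = w)) (hfix : tw.s a = a) :
    a = 1 ∨ ∃ v c, P v ∧ f v = w ∧ c ≠ 0 ∧ (ρ v = v → φ c = c) ∧ a = Eo ax ρ φ v c := by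
  have R := H.rd
  by_cases hex : ∃ v, P v ∧ f v = w
  · obtain ⟨v, hv, hvw⟩ := hex
    have hvp := hP v hv
    have hall : ∀ u, P u ∧ f u = w → u = v ∨ u = ρ v := fun u hu =>
      R.sep v u hvp (hP u hu.1) (by rw [hvw, hu.2])
    by_cases hn : ρ v = v
    · obtain ⟨c, rfl⟩ := mem_single ax (w := v) (P := fun u => P u ∧ f u = w) (fun u hu => by
        rcases hall u hu with e | e
        · exact e
        · rw [e, hn]) ha
      by_cases hc : c = 0
      · left
        rw [hc, xG_zero]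
      · right
        refine ⟨v, c, hv, hvw, hc, fun _ => ?_, (Eo_fix ax hn c).symm⟩
        rw [H.s_x v hvp.1, hn] at hfix
        have hne : φ c ≠ 0 := by
          rw [Ne, map_eq_zero]
          exact hc
        exact (xG_eq_iff ax h h2 hvp.1 hvp.1 hne hfix).2
    · have hρv := R.ρ_pos v hvp
      have key : ∃ c c', a = xG ax v c * xG ax (ρ v) c' := by
        refine rootClosure_induction ax (Q := fun g => ∃ c c', g = xG ax v c * xG ax (ρ v) c') ⟨0, 0, by simp⟩ ?_ ?_ ha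
        · intro u t hu
          rcases hall u hu with rfl | rfl
          · exact ⟨t, 0, by simp⟩
          · exact ⟨0, t, by simp⟩
        · rintro x y ⟨c₁, c₂, rfl⟩ ⟨c₃, c₄, rfl⟩
          refine ⟨c₁ + c₃, c₂ + c₄, ?_⟩
          have := Eo_comm ax R h hs hvp hn c₃ c₂
          calc xG ax v c₁ * xG ax (ρ v) c₂ * (xG ax v c₃ * xG ax (ρ v) c₄)
              = xG ax v c₁ * (xG ax (ρ v) c₂ * xG ax v c₃) * xG ax (ρ v) c₄ := by group
            _ = xG ax v c₁ * (xG ax v c₃ * xG ax (ρ v) c₂) * xG ax (ρ v) c₄ := by rw [this]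
            _ = (xG ax v c₁ * xG ax v c₃) * (xG ax (ρ v) c₂ * xG ax (ρ v) c₄) := by group
            _ = _ := by rw [xG_add, xG_add]
      obtain ⟨c, c', rfl⟩ := key
      rw [tw.s_mul _ (xG_mem_group ax hvp.1 c) _ (xG_mem_group ax hρv.1 c'), H.s_x v hvp.1, H.s_x _ hρv.1, R.ρ_ρ v hvp.1] at hfix
      -- comparing
      have e1 : xG ax v (φ c' + c) * xG ax (ρ v) (φ c + c') = 1 := by
        have h5 : xG ax v (φ c' + c) = xG ax v c * xG ax v (φ c') := by rw [xG_add, add_comm]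
        have h6 : xG ax (ρ v) (φ c + c') = xG ax (ρ v) c' * xG ax (ρ v) (φ c) := by rw [xG_add, add_comm]
        rw [h5, h6]
        have h7 : xG ax v (φ c') * xG ax (ρ v) (φ c) = xG ax v c * xG ax (ρ v) c' := by
          rw [← hfix]
          exact (Eo_comm ax R h hs hvp hn (φ c') (φ c)).symm
        have h8 : xG ax v (φ c') * xG ax (ρ v) c' = xG ax (ρ v) c' * xG ax v (φ c') :=
          (Eo_comm ax R h hs hvp hn (φ c') c').symm
        calc xG ax v c * xG ax v (φ c') * (xG ax (ρ v) c' * xG ax (ρ v) (φ c))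
            = xG ax v c * (xG ax v (φ c') * xG ax (ρ v) c') * xG ax (ρ v) (φ c) := by group
          _ = xG ax v c * xG ax (ρ v) c' * (xG ax v (φ c') * xG ax (ρ v) (φ c)) := by rw [h8]; group
          _ = xG ax v c * xG ax (ρ v) c' * (xG ax v c * xG ax (ρ v) c') := by rw [h7]
          _ = xG ax v c * (xG ax (ρ v) c' * xG ax v c) * xG ax (ρ v) c' := by group
          _ = xG ax v c * (xG ax v c * xG ax (ρ v) c') * xG ax (ρ v) c' := by rw [Eo_comm ax R h hs hvp hn c c']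
          _ = (xG ax v c * xG ax v c) * (xG ax (ρ v) c' * xG ax (ρ v) c') := by group
          _ = 1 := by rw [xG_sq, xG_sq, one_mul]
      obtain ⟨h5, h6⟩ := two_indep ax h h2 hvp hρv (Ne.symm hn) e1
      have hc' : c' = φ c := by
        have := CharTwo.add_eq_zero.mp h6
        exact this.symm
      subst hc'
      by_cases hc : c = 0
      · left
        rw [hc, map_zero, xG_zero, xG_zero, one_mul]
      · right
        exact ⟨v, c, hv, hvw, hc, fun e0 => absurd e0 hn, (Eo_nf ax hn c).symm⟩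
  · left
    refine rootClosure_induction ax (Q := fun g => g = 1) rfl ?_ ?_ ha
    · intro u t hu
      exact absurd ⟨u, hu⟩ hex
    · rintro x y rfl rfl
      simp

end fix

end Cfsg.Agent.Lib.InvT
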