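import Cfsg.Agent.Lib.InvT.Level

/-!
The level by level reduction: the templates and one step.
-/

set_option autoImplicit false
set_option linter.unusedSectionVars false
set_option linter.unusedVariables false
set_option linter.ambiguousOpen false
set_option linter.unusedSimpArgs false

namespace Cfsg.Agent.Lib.InvT

open scoped MatrixGroups Matrix
open Cfsg Lie ChevalleyDatum
open Cfsg.Agent.Lib.Chev
open Tables Tables2 Tables3 Raise Basic AxBasic Torus Products Products2 Mono1 Mono2 Mono3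
open Cfsg.Agent.Lib.Twisted.Fact Cfsg.Agent.Lib.InvE.Red Cfsg.Agent.Lib.InvE.Fusion Cfsg.Agent.Lib.Twisted.Tw

variable {D : ChevalleyDatum} {K : Type*} [Field K] [CharP K 2]

local notation "⟦" a ", " b "⟧" => a * b * a⁻¹ * b⁻¹

section step

variable {ax : Ax D K} {h : Tab D} {tw : Tw h ax} {φ : K ≃+* K} {ρ : ℕ → ℕ} {f : ℕ → ℤ} (H : TwD tw φ ρ f)
  (h2 : Tab2 D) (hs : SL D)

local notation "X" => rootClosure ax
local notation "A" => Eo ax ρ φ

include H h2 hs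

/-- The template for vanishing. -/
theorem van {S : ℕ → Prop} (hS : Ctx D S) {r : ℕ} (hr : S r) {t : K} {w : ℤ} (hw : f r + 1 ≤ w)
    {z₁ a z₂ : GL D.Idx K} (hz₁ : z₁ ∈ X (fun u => TTo D ρ f S r w u ∧ f u < w))
    (ha : a ∈ GE ax f w) (hz₂ : z₂ ∈ GE ax f (w + 1))
    (hyy : (A r t * (z₁ * (a * z₂))) * (A r t * (z₁ * (a * z₂))) = 1)
    {k : ℕ} {e : K} {n₀ : GL D.Idx K} (hk : D.IsPosRoot k) (hkl : f k = f r + w) (hkp : pair D r k ≠ 0)
    (hn₀ : n₀ ∈ GE ax f (f r + w + 1))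
    (he : ⟦A r t, a⟧ = A k e * n₀) : e = 0 := by
  have R := H.rd
  have hrp := hS.pos r hr
  have hρr := R.ρ_pos r hrp
  have hl := R.lev.pos r hrp
  -- `z₁` commutes with the orbit element
  have hperp : ∀ u, (TTo D ρ f S r w u ∧ f u < w) → (u < D.nroots ∧ pair D r u = 0) ∧ (u < D.nroots ∧ pair D (ρ r) u = 0) := by
    rintro u ⟨⟨h1, h3, h4⟩, h5⟩
    have hu := (hS.pos u h1).1
    obtain ⟨p1, p2⟩ := h4 h5
    exact ⟨⟨hu, p1⟩, ⟨hu, p2⟩⟩
  have c1 := comm_closure ax h hs hrp.1 (fun u hu => (hperp u hu).1) hz₁ t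
  have c2 := comm_closure ax h hs hρr.1 (fun u hu => (hperp u hu).2) hz₁ (φ t)
  have hcomm : z₁ * A r t = A r t * z₁ := by
    by_cases hn : ρ r = r
    · rw [Eo_fix ax hn, c1]
    · rw [Eo_nf ax hn]
      calc z₁ * (xG ax r t * xG ax (ρ r) (φ t)) = (z₁ * xG ax r t) * xG ax (ρ r) (φ t) := by group
        _ = xG ax r t * (z₁ * xG ax (ρ r) (φ t)) := by rw [c1]; group
        _ = _ := by rw [c2]; group
  have hz₁G : z₁ ∈ GE ax f (f r + 1) := rootClosure_mono ax (fun u hu => ⟨hS.pos u hu.1.1, by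
    have := hu.1.2.1
    omega⟩) hz₁
  obtain ⟨n, hn, e1⟩ := core_sq ax h hs R.lev (by omega) hw (Eo_GE ax R h hrp t) (Eo_sq ax R h hs hrp t) hz₁G hcomm ha hz₂ hyy
  rw [he] at e1
  -- the closed sets
  have hQ : ClosedP D (fun v => D.IsPosRoot v ∧ ((pair D r v = 0 ∧ pair D (ρ r) v = 0) ∨ f r + w + 1 ≤ f v)) := by
    apply closedP_of h hs (fun v hv => hv.1)
    rintro x y k' ⟨hx, hx1⟩ ⟨hy, hy1⟩ hA'
    refine ⟨hA'.isPos h hx hy, ?_⟩
    have e3 := R.lev.add _ _ _ hx.1 hy.1 hA'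
    have h1 := R.lev.pos x hx
    have h3 := R.lev.pos y hy
    rcases hx1 with ⟨p1, p2⟩ | hx1
    · rcases hy1 with ⟨p3, p4⟩ | hy1
      · left
        rw [hA'.pair_add h hx.1 hy.1 r, hA'.pair_add h hx.1 hy.1 (ρ r), p1, p2, p3, p4]
        exact ⟨rfl, rfl⟩
      · right
        omega
    · right
      omega
  have hK : ClosedP D (fun v => (v = k ∨ v = ρ k) ∧ f v = f k) := by
    apply closed_level R h hs
    rintro v (rfl | rfl)
    · exact hk
    · exact R.ρ_pos k hk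
  have hdisj : ∀ v, ((v = k ∨ v = ρ k) ∧ f v = f k) →
      ¬ (D.IsPosRoot v ∧ ((pair D r v = 0 ∧ pair D (ρ r) v = 0) ∨ f r + w + 1 ≤ f v)) := by
    rintro v ⟨hv, hvl⟩ ⟨-, hv2⟩
    rcases hv2 with ⟨p1, p2⟩ | hv2
    · rcases hv with rfl | rfl
      · exact hkp p1
      · rw [R.ρ_pair r k hrp.1 hk.1] at p2
        exact hkp p2
    · omega
  have hC : A k e ∈ X (fun v => (v = k ∨ v = ρ k) ∧ f v = f k) :=
    Eo_mem ax ⟨Or.inl rfl, rfl⟩ ⟨Or.inr rfl, R.ρ_lev k hk.1⟩ e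
  have hz₁Q : z₁ ∈ X (fun v => D.IsPosRoot v ∧ ((pair D r v = 0 ∧ pair D (ρ r) v = 0) ∨ f r + w + 1 ≤ f v)) :=
    rootClosure_mono ax (fun u hu => ⟨hS.pos u hu.1.1, Or.inl ⟨(hperp u hu).1.2, (hperp u hu).2.2⟩⟩) hz₁
  have hGE : ∀ {m : GL D.Idx K}, m ∈ GE ax f (f r + w + 1) →
      m ∈ X (fun v => D.IsPosRoot v ∧ ((pair D r v = 0 ∧ pair D (ρ r) v = 0) ∨ f r + w + 1 ≤ f v)) :=
    fun hm => rootClosure_mono ax (fun u hu => ⟨hu.1, Or.inr hu.2⟩) hm
  have hCi : (A k e)⁻¹ = n₀ * (z₁ * z₁) * n := by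
    apply inv_eq_of_mul_eq_one_right
    rw [← e1]
    group
  have hC2 : (A k e)⁻¹ ∈ X (fun v => D.IsPosRoot v ∧ ((pair D r v = 0 ∧ pair D (ρ r) v = 0) ∨ f r + w + 1 ≤ f v)) := by
    rw [hCi]
    exact Subgroup.mul_mem _ (Subgroup.mul_mem _ (hGE hn₀) (Subgroup.mul_mem _ hz₁Q hz₁Q)) (hGE hn)
  have e5 := inter_eq_one ax h h2 hK hQ hdisj (Subgroup.inv_mem _ hC) hC2
  exact Eo_eq_one ax R h h2 hk (inv_eq_one.mp e5)

/-- The template for clearing. -/
theorem clr {S : ℕ → Prop} (hS : Ctx D S) (hSρ : ∀ v, S v → S (ρ v)) {r : ℕ} (hr : S r) {t : K} (hfix : ρ r = r → φ t = t)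
    {w : ℤ} (hw : f r + 1 ≤ w)
    {z₁ a z₂ g n₀ : GL D.Idx K} (hz₁ : z₁ ∈ X (fun u => TTo D ρ f S r w u ∧ f u < w))
    (ha : a ∈ GE ax f w) (haa : a * a = 1) (hz₂ : z₂ ∈ GE ax f (w + 1))
    (hB : z₁ * (a * z₂) ∈ X S) (hBs : tw.s (z₁ * (a * z₂)) = z₁ * (a * z₂))
    (hg : g ∈ X S) (hgs : tw.s g = g) (hgl : g ∈ GE ax f (w - f r)) (hn₀ : n₀ ∈ GE ax f (w + 1))
    (he : ⟦g, A r t⟧ = a * n₀) :
    ∃ z' ∈ X (TTo D ρ f S r (w + 1)), tw.s z' = z' ∧ g * (A r t * (z₁ * (a * z₂))) * g⁻¹ = A r t * z' := by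
  have R := H.rd
  have hrp := hS.pos r hr
  have hl := R.lev.pos r hrp
  have hz₁G : z₁ ∈ GE ax f (f r + 1) := rootClosure_mono ax (fun u hu => ⟨hS.pos u hu.1.1, by
    have := hu.1.2.1
    omega⟩) hz₁
  obtain ⟨n, hn, e1⟩ := clear_core ax h hs R.lev (by omega) hw hgl (Eo_GE ax R h hrp t) hz₁G ha haa hz₂ hn₀ he
  have hAS : A r t ∈ X S := Eo_mem ax hr (hSρ r hr) t
  have hSg : ∀ {m : GL D.Idx K}, m ∈ X S → m ∈ D.group K := fun hm =>
    rootClosure_le_group h ax (fun v hv => (hS.pos v hv).1) hm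
  have hz'S : z₁ * n ∈ X S := by
    have e2 : z₁ * n = (A r t)⁻¹ * (g * (A r t * (z₁ * (a * z₂))) * g⁻¹) := by
      rw [e1]
      group
    rw [e2]
    exact Subgroup.mul_mem _ (Subgroup.inv_mem _ hAS) (Subgroup.mul_mem _ (Subgroup.mul_mem _ hg (Subgroup.mul_mem _ hAS hB)) (Subgroup.inv_mem _ hg))
  have hQ : ClosedP D (fun v => D.IsPosRoot v ∧ ((f r < f v ∧ pair D r v = 0 ∧ pair D (ρ r) v = 0) ∨ w + 1 ≤ f v)) := by
    apply closedP_of h hs (fun v hv => hv.1)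
    rintro x y k' ⟨hx, hx1⟩ ⟨hy, hy1⟩ hA'
    refine ⟨hA'.isPos h hx hy, ?_⟩
    have e3 := R.lev.add _ _ _ hx.1 hy.1 hA'
    have h1 := R.lev.pos x hx
    have h3 := R.lev.pos y hy
    rcases hx1 with ⟨p0, p1, p2⟩ | hx1
    · rcases hy1 with ⟨p5, p3, p4⟩ | hy1
      · left
        rw [hA'.pair_add h hx.1 hy.1 r, hA'.pair_add h hx.1 hy.1 (ρ r), p1, p2, p3, p4]
        exact ⟨by omega, rfl, rfl⟩
      · right
        omega
    · right
      omega
  have hz'Q : z₁ * n ∈ X (fun v => D.IsPosRoot v ∧ ((f r < f v ∧ pair D r v = 0 ∧ pair D (ρ r) v = 0) ∨ w + 1 ≤ f v)) := by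
    refine Subgroup.mul_mem _ (rootClosure_mono ax ?_ hz₁) (rootClosure_mono ax (fun u hu => ⟨hu.1, Or.inr hu.2⟩) hn)
    rintro u ⟨⟨h1, h3, h4⟩, h5⟩
    exact ⟨hS.pos u h1, Or.inl ⟨h3, h4 h5⟩⟩
  have hz' := inter_closure ax h h2 (closed_of_ctx h hs hS) hQ hz'S hz'Q
  refine ⟨z₁ * n, rootClosure_mono ax ?_ hz', ?_, e1⟩
  · rintro v ⟨hv, hv1, hv2⟩
    rcases hv2 with ⟨p0, p1, p2⟩ | hv2
    · exact ⟨hv, p0, fun _ => ⟨p1, p2⟩⟩
    · exact ⟨hv, by omega, fun h0 => by omega⟩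
  · have hAF : A r t ∈ tw.Fx := ⟨hSg hAS, H.s_Eo hs hrp hfix⟩
    have hgF : g ∈ tw.Fx := ⟨hSg hg, hgs⟩
    have hBF : z₁ * (a * z₂) ∈ tw.Fx := ⟨hSg hB, hBs⟩
    have h1 : A r t * (z₁ * n) ∈ tw.Fx := by
      rw [← e1]
      exact tw.Fx.mul_mem (tw.Fx.mul_mem hgF (tw.Fx.mul_mem hAF hBF)) (tw.Fx.inv_mem hgF)
    have h3 : z₁ * n ∈ tw.Fx := by
      have e2 : z₁ * n = (A r t)⁻¹ * (A r t * (z₁ * n)) := by group
      rw [e2]
      exact tw.Fx.mul_mem (tw.Fx.inv_mem hAF) h1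
    exact h3.2

/-- One step, when the orbit has pairing `1`, or `-1` and not `1`, with the first root of the orbit. -/
theorem aux_step {S : ℕ → Prop} (hS : Ctx D S) (hSρ : ∀ v, S v → S (ρ v)) {r : ℕ} (hr : S r) {t : K} (ht : t ≠ 0)
    (hfix : ρ r = r → φ t = t) (htr : ∀ c, φ c = c → ∃ e, e + φ e = c)
    {w : ℤ} (hw : f r + 1 ≤ w) {z₁ z₂ : GL D.Idx K} {v : ℕ} {c : K}
    (hz₁ : z₁ ∈ X (fun u => TTo D ρ f S r w u ∧ f u < w)) (hz₂ : z₂ ∈ GE ax f (w + 1))
    (hB : z₁ * (A v c * z₂) ∈ X S) (hBs : tw.s (z₁ * (A v c * z₂)) = z₁ * (A v c * z₂))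
    (hv : S v) (hvw : f v = w) (hc : c ≠ 0) (hcf : ρ v = v → φ c = c)
    (hyy : (A r t * (z₁ * (A v c * z₂))) * (A r t * (z₁ * (A v c * z₂))) = 1)
    (hp : pair D r v = 1 ∨ (pair D r v = -1 ∧ pair D (ρ r) v ≠ 1)) :
    ∃ g ∈ X S, tw.s g = g ∧ ∃ z' ∈ X (TTo D ρ f S r (w + 1)), tw.s z' = z' ∧
      g * (A r t * (z₁ * (A v c * z₂))) * g⁻¹ = A r t * z' := by
  have R := H.rd
  have hrp := hS.pos r hr
  have hvp := hS.pos v hv
  have hρr := R.ρ_pos r hrp
  have hρv := R.ρ_pos v hvp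
  have hl := R.lev.pos r hrp
  have hlv : f (ρ r) = f r := R.ρ_lev r hrp.1
  have hvr : v ≠ r := by
    rintro rfl
    omega
  have hvr' : v ≠ ρ r := by
    rintro rfl
    omega
  have haGE : A v c ∈ GE ax f w := by
    have := Eo_GE ax (φ := φ) R h hvp c
    rwa [hvw] at this
  have haa := Eo_sq ax (φ := φ) R h hs hvp c
  rcases hp with hp | ⟨hp, hp'⟩
  · -- clearing
    obtain ⟨s, hs_lt, hsr, hsn, hA'⟩ := hs.sub r v hrp.1 hvp.1 hvr hp
    have hsp : D.IsPosRoot s := R.sub_pos h hrp.1 hA' hs_lt (by omega)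
    have hsS : S s := hS.sub r v s hr hv hsp hA'
    have hfs : f s = w - f r := by
      have := R.lev.add _ _ _ hrp.1 hs_lt hA'
      omega
    have hρs := R.ρ_pos s hsp
    have hAρ := R.ρ_add r s v hrp.1 hs_lt hA'
    have hm1 := hA'.pair_eq_neg_one hs hrp.1 hs_lt hsr hsn
    have hq : ∃ d, (ρ s = s → φ d = d) ∧ ∃ n ∈ GE ax f (f s + f r + 1), ⟦A s d, A r t⟧ = A v c * n := by
      by_cases hrf : ρ r = r
      · by_cases hvf : ρ v = v
        · have hsf : ρ s = s := by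
            rw [hrf, hvf] at hAρ
            exact AddP.uniq_right h hAρ hA' hrp.1 hρs.1 hs_lt
          refine ⟨c / t, fun _ => ?_, ?_⟩
          · rw [map_div₀, hcf hvf, hfix hrf]
          · obtain ⟨n, hn, e⟩ := clear_ff ax R h hs (φ := φ) (t := t) (d := c / t) hrp hsp hsr hA' hrf hsf hvf
            refine ⟨n, hn, ?_⟩
            rw [e, mul_div_cancel₀ _ ht]
        · have hsf : ρ s ≠ s := by
            intro e0
            rw [hrf, e0] at hAρ
            exact hvf (AddP.uniq_sum hAρ hA')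
          refine ⟨c / t, fun e0 => absurd e0 hsf, ?_⟩
          obtain ⟨n, hn, e⟩ := clear_fn ax R h hs (φ := φ) (t := t) (d := c / t) hrp hsp hsr hA' hrf hsf hvf (hfix hrf)
          refine ⟨n, hn, ?_⟩
          rw [e, mul_div_cancel₀ _ ht]
      · rcases hs.range (ρ r) v hρr.1 hvp.1 hvr' (pos_ne_neg h hρr hvp) with hq | hq | hq
        · -- pairings `1, -1`
          have hsf : ρ s = s := R.p1m r v s hrp hvp hs_lt hp hq hA'
          have hvf : ρ v ≠ v := by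
            intro e0
            have := R.swap hrp.1 hvp.1
            rw [e0, hp, hq] at this
            omega
          obtain ⟨k, hkA⟩ := hs.terms_eq (ρ r) v hρr.1 hvp.1 hvr' (pos_ne_neg h hρr hvp) hq
          have hkf : ρ k = k := R.p1m' r v k hrp hvp hp hq hkA
          have hkp : D.IsPosRoot k := hkA.isPos h hρr hvp
          have hAk := R.ρ_add (ρ r) v k hρr.1 hvp.1 hkA
          rw [R.ρ_ρ r hrp.1, hkf] at hAk
          have hvr2 : ρ v ≠ r := by
            intro e0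
            apply hvr'
            have := R.ρ_ρ v hvp.1
            rw [e0] at this
            exact this.symm
          have hkl : f k = f r + w := by
            have := R.lev.add _ _ _ hρr.1 hvp.1 hkA
            omega
          have hkpair : pair D r k ≠ 0 := by
            rw [hAk.pair_left h hs hrp.1 hρv.1 hvr2 (pos_ne_neg h hrp hρv)]
            norm_num
          obtain ⟨n, hn, e⟩ := eq_m ax R h hs (φ := φ) hrp hvp hrf hvf hp hkA hkf hvr' t c
          rw [hvw] at hn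
          have he0 := van H h2 hs hS hr hw hz₁ haGE (GE_mono ax (le_refl _) hz₂)  hyy hkp hkl hkpair hn e
          have hdfix : φ (c / t) = c / t := by
            have e2 : t * φ c = φ t * c := by
              have := CharTwo.add_eq_zero.mp he0
              exact this
            have hφt : φ t ≠ 0 := by
              rw [Ne, map_eq_zero]
              exact ht
            rw [map_div₀]
            field_simp
            rw [mul_comm (φ c), e2, mul_comm]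
          refine ⟨c / t, fun _ => hdfix, ?_⟩
          obtain ⟨n', hn', e'⟩ := clear_m ax R h hs (φ := φ) (t := t) (d := c / t) hrp hsp hsr hA' hrf hsf hvf hdfix
          refine ⟨n', hn', ?_⟩
          rw [e', mul_div_cancel₀ _ ht]
        · -- pairings `1, 0`
          have hvf : ρ v ≠ v := by
            intro e0
            have := R.swap hrp.1 hvp.1
            rw [e0, hp, hq] at this
            omega
          have hsf : ρ s ≠ s := by
            intro e0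
            have e1 := hA'.pair_add h hrp.1 hs_lt (ρ r)
            have e2 := R.swap hrp.1 hs_lt
            rw [e0, hm1] at e2
            have e4 := R.orth r hrp hrf
            rw [hs.pair_sym r (ρ r) hrp.1 hρr.1] at e4
            omega
          refine ⟨c / t, fun e0 => absurd e0 hsf, ?_⟩
          obtain ⟨n, hn, e⟩ := clear_n0 ax R h hs (φ := φ) (t := t) (d := c / t) hrp hsp hsr hA' hrf hsf hvf hq
          refine ⟨n, hn, ?_⟩
          rw [e, mul_div_cancel₀ _ ht]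
        · -- pairings `1, 1`
          have hvf : ρ v = v := R.p11 r v hrp hvp hrf hp hq
          have hsf : ρ s ≠ s := by
            intro e0
            rw [hvf, e0] at hAρ
            exact hrf (AddP.uniq_left h hAρ hA' hρr.1 hrp.1 hs_lt)
          obtain ⟨e', he'⟩ := htr c (hcf hvf)
          refine ⟨e' / t, fun e0 => absurd e0 hsf, ?_⟩
          obtain ⟨n, hn, e⟩ := clear_tr ax R h hs (φ := φ) (t := t) (d := e' / t) hrp hsp hsr hA' hrf hsf hvf hq
          refine ⟨n, hn, ?_⟩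
          rw [e, mul_div_cancel₀ _ ht, he']
    obtain ⟨d, hd, n, hn, e⟩ := hq
    have hfg : f s + f r + 1 = w + 1 := by omega
    rw [hfg] at hn
    have hgS : A s d ∈ X S := Eo_mem ax hsS (hSρ s hsS) d
    have hgl : A s d ∈ GE ax f (w - f r) := by
      have := Eo_GE ax (φ := φ) R h hsp d
      rwa [hfs] at this
    obtain ⟨z', hz', h3, h4⟩ := clr H h2 hs hS hSρ hr hfix hw hz₁ haGE haa hz₂ hB hBs hgS (H.s_Eo hs hsp hd) hgl hn e
    exact ⟨A s d, hgS, H.s_Eo hs hsp hd, z', hz', h3, h4⟩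
  · -- vanishing
    exfalso
    obtain ⟨k, hkA⟩ := hs.terms_eq r v hrp.1 hvp.1 hvr (pos_ne_neg h hrp hvp) hp
    have hkp : D.IsPosRoot k := hkA.isPos h hrp hvp
    have hkl : f k = f r + w := by
      have := R.lev.add _ _ _ hrp.1 hvp.1 hkA
      omega
    have hkpair : pair D r k ≠ 0 := by
      rw [hkA.pair_left h hs hrp.1 hvp.1 hvr (pos_ne_neg h hrp hvp)]
      norm_num
    obtain ⟨n, hn, e⟩ := vanish_comm ax R h hs (φ := φ) hrp hvp hvr hkA hp' hfix hcf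
    rw [hvw] at hn
    have he0 := van H h2 hs hS hr hw hz₁ haGE (GE_mono ax (le_refl _) hz₂) hyy hkp hkl hkpair hn e
    exact (mul_ne_zero ht hc) he0

end step

end Cfsg.Agent.Lib.InvT
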