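import Cfsg.Agent.Lib.InvT.Core
import Cfsg.Agent.Lib.InvE.Fusion
import Cfsg.Agent.Lib.Twisted.Tw

/-!
Orbits of a graph symmetry of order two on the roots of a simply laced Chevalley group in characteristic two:
the combinatorial facts used, the orbit elements and their basic properties.
-/

set_option autoImplicit false
set_option linter.unusedSectionVars false
set_option linter.unusedVariables false
set_option linter.ambiguousOpen false
set_option linter.unusedSimpArgs false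

namespace Cfsg.Agent.Lib.InvT

open scoped MatrixGroups Matrix
open Cfsg Lie ChevalleyDatum
open Cfsg.Agent.Lib.Chev
open Tables Tables2 Tables3 Raise Basic AxBasic Torus Products Products2 Mono1 Mono2 Mono3
open Cfsg.Agent.Lib.Twisted.Fact Cfsg.Agent.Lib.InvE.Red Cfsg.Agent.Lib.InvE.Fusion Cfsg.Agent.Lib.Twisted.Tw

variable {D : ChevalleyDatum} {K : Type*} [Field K]

/-- The combinatorial facts about the symmetry and the level. -/
structure RD (D : ChevalleyDatum) (ρ : ℕ → ℕ) (f : ℕ → ℤ) : Prop where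
  lev : Lev D f
  f_neg : ∀ r, r < D.nroots → f (D.neg r) = - f r
  ρ_lt : ∀ r, r < D.nroots → ρ r < D.nroots
  ρ_ρ : ∀ r, r < D.nroots → ρ (ρ r) = r
  ρ_pos : ∀ r, D.IsPosRoot r → D.IsPosRoot (ρ r)
  ρ_pair : ∀ a b, a < D.nroots → b < D.nroots → pair D (ρ a) (ρ b) = pair D a b
  ρ_add : ∀ a b k, a < D.nroots → b < D.nroots → AddP D a b k → AddP D (ρ a) (ρ b) (ρ k)
  ρ_lev : ∀ r, r < D.nroots → f (ρ r) = f r
  sep : ∀ r v, D.IsPosRoot r → D.IsPosRoot v → f r = f v → v = r ∨ v = ρ r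
  orth : ∀ r, D.IsPosRoot r → ρ r ≠ r → pair D r (ρ r) = 0
  p11 : ∀ r v, D.IsPosRoot r → D.IsPosRoot v → ρ r ≠ r → pair D r v = 1 → pair D (ρ r) v = 1 → ρ v = v
  pmm : ∀ r v, D.IsPosRoot r → D.IsPosRoot v → ρ r ≠ r → pair D r v = -1 → pair D (ρ r) v = -1 → ρ v = v
  p1m : ∀ r v s, D.IsPosRoot r → D.IsPosRoot v → s < D.nroots → pair D r v = 1 → pair D (ρ r) v = -1 →
    AddP D r s v → ρ s = s
  p1m' : ∀ r v k, D.IsPosRoot r → D.IsPosRoot v → pair D r v = 1 → pair D (ρ r) v = -1 →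
    AddP D (ρ r) v k → ρ k = k

section arith

variable {ρ : ℕ → ℕ} {f : ℕ → ℤ} (R : RD D ρ f) (h : Tab D) (hs : SL D)

include R

lemma RD.swap {a b : ℕ} (ha : a < D.nroots) (hb : b < D.nroots) : pair D (ρ a) b = pair D a (ρ b) := by
  have := R.ρ_pair (ρ a) b (R.ρ_lt a ha) hb
  rw [R.ρ_ρ a ha] at this
  exact this.symm

include h in
lemma RD.sub_pos {r v s : ℕ} (hr' : r < D.nroots) (hA : AddP D r s v) (hs' : s < D.nroots) (hlt : f r < f v) : D.IsPosRoot s := by
  have h1 := R.lev.add _ _ _ hr' hs' hA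
  rcases isPos_or_isNeg h hs' with h3 | h3
  · exact h3
  · exfalso
    have h4 := R.lev.pos _ ((isPosRoot_neg h hs').mpr h3)
    rw [R.f_neg s hs'] at h4
    omega

end arith

lemma AddP.uniq_right (h : Tab D) {r s s' k : ℕ} (hA : AddP D r s k) (hA' : AddP D r s' k) (hr : r < D.nroots)
    (hs : s < D.nroots) (hs' : s' < D.nroots) : s = s' := by
  apply eq_of_coef_eq h hs hs'
  intro i hi
  have h1 := hA.coef_add h hr hs i hi
  have h3 := hA'.coef_add h hr hs' i hi
  omega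

lemma AddP.uniq_left (h : Tab D) {r r' s k : ℕ} (hA : AddP D r s k) (hA' : AddP D r' s k) (hr : r < D.nroots)
    (hr' : r' < D.nroots) (hs : s < D.nroots) : r = r' := by
  apply eq_of_coef_eq h hr hr'
  intro i hi
  have h1 := hA.coef_add h hr hs i hi
  have h3 := hA'.coef_add h hr' hs i hi
  omega

lemma AddP.uniq_sum {r s k k' : ℕ} (hA : AddP D r s k) (hA' : AddP D r s k') : k = k' := by
  obtain ⟨c, hc, -⟩ := hA
  obtain ⟨c', hc', -⟩ := hA'
  rw [hc] at hc'
  simp only [List.cons.injEq, Prod.mk.injEq, and_true] at hc'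
  exact hc'.1

/-! ### The orbit elements -/

section orbit

variable [CharP K 2] (ax : Ax D K)

/-- The element of an orbit. -/
noncomputable def Eo (ρ : ℕ → ℕ) (φ : K ≃+* K) (r : ℕ) (t : K) : GL D.Idx K :=
  xG ax r t * (if ρ r = r then 1 else xG ax (ρ r) (φ t))

variable {ρ : ℕ → ℕ} {φ : K ≃+* K}

lemma Eo_fix {r : ℕ} (hr : ρ r = r) (t : K) : Eo ax ρ φ r t = xG ax r t := by
  simp [Eo, hr]

lemma Eo_nf {r : ℕ} (hr : ρ r ≠ r) (t : K) : Eo ax ρ φ r t = xG ax r t * xG ax (ρ r) (φ t) := by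
  simp [Eo, hr]

lemma Eo_zero (r : ℕ) : Eo ax ρ φ r 0 = 1 := by
  by_cases hr : ρ r = r
  · rw [Eo_fix ax hr, xG_zero]
  · rw [Eo_nf ax hr, map_zero, xG_zero, xG_zero, one_mul]

lemma xG_sq (r : ℕ) (t : K) : xG ax r t * xG ax r t = 1 := by
  rw [xG_add, CharTwo.add_self_eq_zero, xG_zero]

variable {f : ℕ → ℤ} (R : RD D ρ f) (h : Tab D) (h2 : Tab2 D) (hs : SL D)

include R h hs

lemma Eo_comm {r : ℕ} (hr : D.IsPosRoot r) (hn : ρ r ≠ r) (a b : K) :
    xG ax (ρ r) b * xG ax r a = xG ax r a * xG ax (ρ r) b :=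
  comm_orth ax h hs hr.1 (R.ρ_lt r hr.1) (R.orth r hr hn) a b

lemma Eo_sq {r : ℕ} (hr : D.IsPosRoot r) (t : K) : Eo ax ρ φ r t * Eo ax ρ φ r t = 1 := by
  by_cases hn : ρ r = r
  · rw [Eo_fix ax hn, xG_sq]
  · rw [Eo_nf ax hn]
    have := Eo_comm ax R h hs hr hn t (φ t)
    calc xG ax r t * xG ax (ρ r) (φ t) * (xG ax r t * xG ax (ρ r) (φ t))
        = xG ax r t * (xG ax (ρ r) (φ t) * xG ax r t) * xG ax (ρ r) (φ t) := by group
      _ = xG ax r t * (xG ax r t * xG ax (ρ r) (φ t)) * xG ax (ρ r) (φ t) := by rw [this]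
      _ = (xG ax r t * xG ax r t) * (xG ax (ρ r) (φ t) * xG ax (ρ r) (φ t)) := by group
      _ = 1 := by rw [xG_sq, xG_sq, one_mul]

lemma Eo_inv {r : ℕ} (hr : D.IsPosRoot r) (t : K) : (Eo ax ρ φ r t)⁻¹ = Eo ax ρ φ r t :=
  inv_eq_of_mul_eq_one_left (Eo_sq ax R h hs hr t)

omit hs in
lemma Eo_GE {r : ℕ} (hr : D.IsPosRoot r) (t : K) : Eo ax ρ φ r t ∈ GE ax f (f r) := by
  refine Subgroup.mul_mem _ (xG_mem_rootClosure ax ⟨hr, le_refl _⟩ t) ?_
  split_ifs with hn
  · exact Subgroup.one_mem _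
  · exact xG_mem_rootClosure ax ⟨R.ρ_pos r hr, by rw [R.ρ_lev r hr.1]⟩ _

omit R h hs in
lemma Eo_mem {P : ℕ → Prop} {r : ℕ} (h1 : P r) (h3 : P (ρ r)) (t : K) : Eo ax ρ φ r t ∈ rootClosure ax P := by
  refine Subgroup.mul_mem _ (xG_mem_rootClosure ax h1 t) ?_
  split_ifs with hn
  · exact Subgroup.one_mem _
  · exact xG_mem_rootClosure ax h3 _

/-- Replacing the root of an orbit by its image. -/
lemma Eo_swap (hφ : ∀ t, φ (φ t) = t) {r : ℕ} (hr : D.IsPosRoot r) (hn : ρ r ≠ r) (t : K) :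
    Eo ax ρ φ (ρ r) (φ t) = Eo ax ρ φ r t := by
  have h1 : ρ (ρ r) = r := R.ρ_ρ r hr.1
  have h3 : ρ (ρ r) ≠ ρ r := by
    rw [h1]
    exact Ne.symm hn
  rw [Eo_nf ax h3, Eo_nf ax hn, h1, hφ]
  exact Eo_comm ax R h hs hr hn t (φ t)

omit R h hs in
/-- Two root elements for different positive roots are independent. -/
lemma two_indep (h : Tab D) (h2 : Tab2 D) {u v : ℕ} (hu : D.IsPosRoot u) (hv : D.IsPosRoot v) (huv : u ≠ v) {a b : K}
    (e : xG ax u a * xG ax v b = 1) : a = 0 ∧ b = 0 := by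
  have hP : ∀ w : ℕ, D.IsPosRoot w → ClosedP D (fun s => s = w) := by
    intro w hw
    constructor
    · intro s hs'
      rw [hs']
      exact hw
    · intro s s' hs' hu' hlt
      rw [hs', hu'] at hlt
      exact absurd hlt (lt_irrefl _)
  have e1 : xG ax u a = (xG ax v b)⁻¹ := eq_inv_of_mul_eq_one_left e
  have hx : xG ax u a ∈ rootClosure ax (fun s => s = u) := xG_mem_rootClosure ax (P := fun s => s = u) (Eq.refl u) a
  have hy : xG ax u a ∈ rootClosure ax (fun s => s = v) := by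
    rw [e1]
    exact Subgroup.inv_mem _ (xG_mem_rootClosure ax (P := fun s => s = v) (Eq.refl v) b)
  have e3 := inter_eq_one ax h h2 (hP u hu) (hP v hv) (fun s hs' hs3 => huv (hs'.symm.trans hs3)) hx hy
  have e4 : xG ax v b = 1 := by
    rw [e3, one_mul] at e
    exact e
  constructor
  · by_contra ha
    have : xG ax u a = xG ax u 0 := by rw [e3, xG_zero]
    exact ha (xG_eq_iff ax h h2 hu.1 hu.1 ha this).2
  · by_contra hb
    have : xG ax v b = xG ax v 0 := by rw [e4, xG_zero]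
    exact hb (xG_eq_iff ax h h2 hv.1 hv.1 hb this).2

include h2 in
omit hs in
/-- The orbit element determines the parameter. -/
lemma Eo_eq_one {r : ℕ} (hr : D.IsPosRoot r) {t : K} (e : Eo ax ρ φ r t = 1) : t = 0 := by
  by_cases hn : ρ r = r
  · rw [Eo_fix ax hn] at e
    by_contra ht
    have : xG ax r t = xG ax r 0 := by rw [e, xG_zero]
    exact ht (xG_eq_iff ax h h2 hr.1 hr.1 ht this).2
  · rw [Eo_nf ax hn] at e
    exact (two_indep ax h h2 hr (R.ρ_pos r hr) (Ne.symm hn) e).1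

/-! ### Commutators of root elements -/

omit R in
/-- The commutator of two root elements with a sum. -/
lemma cm_add {r s k : ℕ} (hA : AddP D r s k) (hr : D.IsPosRoot r) (hs' : D.IsPosRoot s) (h1 : s ≠ r) (d e : K) :
    xG ax s d * xG ax r e * (xG ax s d)⁻¹ * (xG ax r e)⁻¹ = xG ax k (e * d) := by
  rw [comm_sum ax hA hr.1 hs'.1 h1 (pos_ne_neg h hr hs') e d]
  have e5 := comm_right ax h hs hA hr hs' h1 d (e * d)
  have e6 := comm_left ax h hs hA hr hs' h1 e (e * d)
  calc xG ax r e * xG ax s d * xG ax k (e * d) * (xG ax s d)⁻¹ * (xG ax r e)⁻¹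
      = xG ax r e * (xG ax s d * xG ax k (e * d)) * (xG ax s d)⁻¹ * (xG ax r e)⁻¹ := by group
    _ = xG ax r e * (xG ax k (e * d) * xG ax s d) * (xG ax s d)⁻¹ * (xG ax r e)⁻¹ := by rw [e5]
    _ = (xG ax r e * xG ax k (e * d)) * (xG ax r e)⁻¹ := by group
    _ = (xG ax k (e * d) * xG ax r e) * (xG ax r e)⁻¹ := by rw [e6]
    _ = _ := by group

omit R in
/-- The commutator of two root elements with a sum, in the other order. -/
lemma cm_add' {r s k : ℕ} (hA : AddP D r s k) (hr : D.IsPosRoot r) (hs' : D.IsPosRoot s) (h1 : s ≠ r) (d e : K) :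
    xG ax r e * xG ax s d * (xG ax r e)⁻¹ * (xG ax s d)⁻¹ = xG ax k (e * d) := by
  have h3 := cm_add ax h hs hA hr hs' h1 d e
  have h4 : xG ax r e * xG ax s d * (xG ax r e)⁻¹ * (xG ax s d)⁻¹ =
      (xG ax s d * xG ax r e * (xG ax s d)⁻¹ * (xG ax r e)⁻¹)⁻¹ := by group
  rw [h4, h3, xG_self_inv]

omit R in
/-- The commutator of two root elements when the pairing is not `-1`. -/
lemma cm_one {u v : ℕ} (hu : D.IsPosRoot u) (hv : D.IsPosRoot v) (hp : pair D u v ≠ -1) (a b : K) :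
    xG ax u a * xG ax v b * (xG ax u a)⁻¹ * (xG ax v b)⁻¹ = 1 := by
  by_cases huv : u = v
  · subst huv
    exact comm_self_g ax u a b
  · have e : xG ax v b * xG ax u a = xG ax u a * xG ax v b :=
      comm_of_pair ax hs hu.1 hv.1 (Ne.symm huv) (pos_ne_neg h hu hv) hp a b
    rw [← e]
    group

end orbit

/-! ### Elements commuting with orthogonal roots -/

section commuting

variable [CharP K 2] (ax : Ax D K) (h : Tab D) (hs : SL D)

include h hs

lemma comm_closure {P : ℕ → Prop} {u : ℕ} (hu : u < D.nroots) (hP : ∀ v, P v → v < D.nroots ∧ pair D u v = 0) {z : GL D.Idx K}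
    (hz : z ∈ rootClosure ax P) (a : K) : z * xG ax u a = xG ax u a * z := by
  refine rootClosure_induction ax (Q := fun z => z * xG ax u a = xG ax u a * z) (by simp) ?_ ?_ hz
  · intro v b hv
    obtain ⟨h1, h3⟩ := hP v hv
    exact comm_orth ax h hs hu h1 h3 a b
  · intro x y hx hy
    calc x * y * xG ax u a = x * (y * xG ax u a) := by group
      _ = x * (xG ax u a * y) := by rw [hy]
      _ = (x * xG ax u a) * y := by group
      _ = (xG ax u a * x) * y := by rw [hx]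
      _ = _ := by group

end commuting

end Cfsg.Agent.Lib.InvT
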