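import Cfsg.Agent.Lib.InvT.Fus
import Cfsg.Agent.Lib.Twisted.Ortho

/-!
The relation between a nonfixed orbit and two orthogonal fixed roots: a computation in type `²A₃`.
-/

set_option autoImplicit false
set_option linter.unusedSectionVars false
set_option linter.unusedVariables false
set_option linter.ambiguousOpen false
set_option linter.unusedSimpArgs false

namespace Cfsg.Agent.Lib.InvT

open scoped MatrixGroups Matrix
open Cfsg Lie ChevalleyDatum
open Cfsg.Agent.Lib.Chev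
open Tables Tables2 Tables3 Raise Basic AxBasic Torus Products Products2 Mono1 Mono2 Mono3
open Cfsg.Agent.Lib.Twisted.Fact Cfsg.Agent.Lib.InvE.Red Cfsg.Agent.Lib.InvE.Fusion Cfsg.Agent.Lib.Twisted.Tw
open Cfsg.Agent.Lib.InvE.Bits Cfsg.Agent.Lib.InvE.Tree Cfsg.Agent.Lib.Twisted.Ortho

variable {D : ChevalleyDatum} {K : Type*} [Field K] [CharP K 2]

/-- A sum with all side conditions. -/
def AP (D : ChevalleyDatum) (r s k : ℕ) : Prop :=
  r < D.nroots ∧ s < D.nroots ∧ s ≠ r ∧ s ≠ D.neg r ∧ AddP D r s k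

/-- The boolean form of the sum. -/
def addB (D : ChevalleyDatum) (r s k : ℕ) : Bool :=
  decide (r < D.nroots) && decide (s < D.nroots) && decide (s ≠ r) && decide (s ≠ D.neg r) &&
    match D.commTerms r s with
    | [(k', c, 1, 1)] => decide (k' = k) && decide (c % 2 = 1)
    | _ => false

lemma AP_of_addB {r s k : ℕ} (hc : addB D r s k = true) : AP D r s k := by
  simp only [addB, Bool.and_eq_true, decide_eq_true_eq] at hc
  obtain ⟨⟨⟨⟨h1, h3⟩, h4⟩, h5⟩, h6⟩ := hc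
  refine ⟨h1, h3, h4, h5, ?_⟩
  split at h6
  · rename_i k' c e
    simp only [Bool.and_eq_true, decide_eq_true_eq] at h6
    exact ⟨c, by rw [e, h6.1], h6.2⟩
  · simp at h6

section

variable (ax : Ax D K) (h : Tab D) (hs : SL D)

include h hs

lemma AP.conj {r s k : ℕ} (H : AP D r s k) (e d : K) :
    xG ax r e * xG ax s d * (xG ax r e)⁻¹ = xG ax k (e * d) * xG ax s d := by
  obtain ⟨hr, hs', h1, h3, hA⟩ := H
  have hk := hA.lt h hr hs'
  have e1 := comm_sum ax hA hr hs' h1 h3 e d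
  have hp := hA.pair_left h hs hr hs' h1 h3
  have hp2 := hA.pair_right h hs hr hs' h1 h3
  have hkr : k ≠ r := by
    rintro rfl
    rw [hs.pair_self k hk] at hp
    omega
  have hkn : k ≠ D.neg r := by
    rintro rfl
    rw [pair_neg h r hr, hs.pair_self r hr] at hp
    omega
  have hks : k ≠ s := by
    rintro rfl
    rw [hs.pair_self k hk] at hp2
    omega
  have hkn2 : k ≠ D.neg s := by
    rintro rfl
    rw [pair_neg h s hs', hs.pair_self s hs'] at hp2
    omega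
  have c1 : xG ax k (e * d) * xG ax r e = xG ax r e * xG ax k (e * d) :=
    comm_of_pair ax hs hr hk hkr hkn (by rw [hp]; norm_num) e (e * d)
  have c2 : xG ax k (e * d) * xG ax s d = xG ax s d * xG ax k (e * d) :=
    comm_of_pair ax hs hs' hk hks hkn2 (by rw [hp2]; norm_num) d (e * d)
  have e2 : xG ax r e * xG ax s d = xG ax s d * xG ax r e * xG ax k (e * d) := by
    rw [e1, mul_assoc (xG ax r e * xG ax s d), xG_sq, mul_one]
  rw [e2, mul_assoc (xG ax s d), c1.symm, ← mul_assoc, ← c2]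
  group

end

/-- The roots of a configuration of type `²A₃`, with names `a, c` for the ends, `b` for the middle root. -/
structure R2D (D : ChevalleyDatum) (a c b v w k : ℕ) : Prop where
  a1 : AP D (D.neg a) v b
  a2 : AP D (D.neg c) w b
  a3 : AP D c b w
  a4 : AP D c v k
  a5 : AP D a w k
  a6 : AP D a b v
  c1 : CommPair D (D.neg c) v
  c2 : CommPair D (D.neg a) w
  c3 : CommPair D (D.neg a) b
  c4 : CommPair D c w
  c5 : CommPair D a k
  c6 : CommPair D a v
  c7 : CommPair D b v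
  c8 : CommPair D b w
  c9 : CommPair D b k
  c10 : CommPair D v w
  c11 : CommPair D v k
  c12 : CommPair D w k

/-- The boolean form. -/
def r2B (D : ChevalleyDatum) (a c b v w k : ℕ) : Bool :=
  addB D (D.neg a) v b && addB D (D.neg c) w b && addB D c b w && addB D c v k && addB D a w k && addB D a b v &&
    decide (CommPair D (D.neg c) v) && decide (CommPair D (D.neg a) w) && decide (CommPair D (D.neg a) b) &&
    decide (CommPair D c w) && decide (CommPair D a k) && decide (CommPair D a v) &&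
    decide (CommPair D b v) && decide (CommPair D b w) && decide (CommPair D b k) &&
    decide (CommPair D v w) && decide (CommPair D v k) && decide (CommPair D w k)

lemma R2D_of_chk {a c b v w k : ℕ} (hc : r2B D a c b v w k = true) : R2D D a c b v w k := by
  simp only [r2B, Bool.and_eq_true, decide_eq_true_eq] at hc
  obtain ⟨⟨⟨⟨⟨⟨⟨⟨⟨⟨⟨⟨⟨⟨⟨⟨⟨h1, h2⟩, h3⟩, h4⟩, h5⟩, h6⟩, c1⟩, c2⟩, c3⟩, c4⟩, c5⟩, c6⟩, c7⟩, c8⟩, c9⟩, c10⟩, c11⟩, c12⟩ := hc
  exact ⟨AP_of_addB h1, AP_of_addB h2, AP_of_addB h3, AP_of_addB h4, AP_of_addB h5, AP_of_addB h6, c1, c2, c3, c4, c5, c6, c7, c8, c9,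
    c10, c11, c12⟩

lemma cp_conj (ax : Ax D K) {r s : ℕ} (H : CommPair D r s) (t u : K) :
    xG ax r t * xG ax s u * (xG ax r t)⁻¹ = xG ax s u := by
  rw [← H.comm ax t u]
  group

lemma comm4 {G : Type*} [Group G] {B V W N : G} (h1 : V * B = B * V) (h2 : W * B = B * W) (h3 : N * B = B * N)
    (h4 : W * V = V * W) (h5 : N * V = V * N) (h6 : N * W = W * N) (hV : V * V = 1) (hW : W * W = 1) (hN : N * N = 1) :
    (N * W) * (V * B) * (N * V) * (N * W) = B * N := by
  calc (N * W) * (V * B) * (N * V) * (N * W) = N * W * (V * B) * N * V * N * W := by group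
    _ = N * (W * (B * V)) * N * V * N * W := by rw [h1]; group
    _ = N * (W * B) * V * N * V * N * W := by group
    _ = (N * B) * W * V * N * V * N * W := by rw [h2]; group
    _ = B * (N * W * (V * N) * V * N * W) := by rw [h3]; group
    _ = B * (N * W * (N * V) * V * N * W) := by rw [h5]
    _ = B * (N * W * N * (V * V) * N * W) := by group
    _ = B * (N * (W * N) * N * W) := by rw [hV]; group
    _ = B * (N * (N * W) * N * W) := by rw [h6]
    _ = B * ((N * N) * (W * N) * W) := by group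
    _ = B * ((W * N) * W) := by rw [hN, one_mul]
    _ = B * ((N * W) * W) := by rw [h6]
    _ = B * (N * (W * W)) := by group
    _ = B * N := by rw [hW, mul_one]

section relation

variable (ax : Ax D K) (h : Tab D) (hs : SL D) {a c b v w k : ℕ} (H : R2D D a c b v w k)

include h hs H

/-- The first conjugation. -/
lemma r2_first {d d' : K} (hd : d + d' = 1) :
    (xG ax (D.neg a) d * xG ax (D.neg c) d') * (xG ax v 1 * xG ax w 1) * (xG ax (D.neg a) d * xG ax (D.neg c) d')⁻¹ =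
      xG ax b 1 * xG ax v 1 * xG ax w 1 := by
  have e1 := cp_conj ax H.c1 d' (1 : K)
  have e2 := H.a2.conj ax h hs d' (1 : K)
  have e3 := H.a1.conj ax h hs d (1 : K)
  have e4 := cp_conj ax H.c2 d (1 : K)
  have e5 := cp_conj ax H.c3 d (d' * 1)
  rw [mul_one] at e2 e3 e5
  have c7 := H.c7.comm ax (1 : K) (1 : K)
  have c7' := H.c7.comm ax d' (1 : K)
  calc (xG ax (D.neg a) d * xG ax (D.neg c) d') * (xG ax v 1 * xG ax w 1) * (xG ax (D.neg a) d * xG ax (D.neg c) d')⁻¹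
      = xG ax (D.neg a) d * ((xG ax (D.neg c) d' * xG ax v 1 * (xG ax (D.neg c) d')⁻¹) * (xG ax (D.neg c) d' * xG ax w 1 * (xG ax (D.neg c) d')⁻¹)) * (xG ax (D.neg a) d)⁻¹ := by group
    _ = xG ax (D.neg a) d * (xG ax v 1 * (xG ax b d' * xG ax w 1)) * (xG ax (D.neg a) d)⁻¹ := by rw [e1, e2]
    _ = (xG ax (D.neg a) d * xG ax v 1 * (xG ax (D.neg a) d)⁻¹) * (xG ax (D.neg a) d * xG ax b d' * (xG ax (D.neg a) d)⁻¹) * (xG ax (D.neg a) d * xG ax w 1 * (xG ax (D.neg a) d)⁻¹) := by group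
    _ = (xG ax b d * xG ax v 1) * xG ax b d' * xG ax w 1 := by rw [e3, e5, e4]
    _ = xG ax b d * (xG ax v 1 * xG ax b d') * xG ax w 1 := by group
    _ = xG ax b d * (xG ax b d' * xG ax v 1) * xG ax w 1 := by rw [c7']
    _ = (xG ax b d * xG ax b d') * xG ax v 1 * xG ax w 1 := by group
    _ = _ := by rw [xG_add, hd]

/-- The second conjugation. -/
lemma r2_second :
    (xG ax a 1 * xG ax c 1) * (xG ax b 1 * xG ax v 1 * xG ax w 1) * (xG ax a 1 * xG ax c 1)⁻¹ = xG ax b 1 * xG ax k 1 := by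
  have e1 := H.a3.conj ax h hs (1 : K) (1 : K)
  have e2 := H.a4.conj ax h hs (1 : K) (1 : K)
  have e3 := cp_conj ax H.c4 (1 : K) (1 : K)
  have e4 := H.a5.conj ax h hs (1 : K) (1 : K)
  have e5 := H.a6.conj ax h hs (1 : K) (1 : K)
  have e6 := cp_conj ax H.c5 (1 : K) (1 : K)
  have e7 := cp_conj ax H.c6 (1 : K) (1 : K)
  rw [mul_one] at e1 e2 e4 e5
  calc (xG ax a 1 * xG ax c 1) * (xG ax b 1 * xG ax v 1 * xG ax w 1) * (xG ax a 1 * xG ax c 1)⁻¹
      = xG ax a 1 * ((xG ax c 1 * xG ax b 1 * (xG ax c 1)⁻¹) * (xG ax c 1 * xG ax v 1 * (xG ax c 1)⁻¹) * (xG ax c 1 * xG ax w 1 * (xG ax c 1)⁻¹)) * (xG ax a 1)⁻¹ := by group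
    _ = xG ax a 1 * ((xG ax w 1 * xG ax b 1) * (xG ax k 1 * xG ax v 1) * xG ax w 1) * (xG ax a 1)⁻¹ := by rw [e1, e2, e3]
    _ = (xG ax a 1 * xG ax w 1 * (xG ax a 1)⁻¹) * (xG ax a 1 * xG ax b 1 * (xG ax a 1)⁻¹) * ((xG ax a 1 * xG ax k 1 * (xG ax a 1)⁻¹) * (xG ax a 1 * xG ax v 1 * (xG ax a 1)⁻¹)) * (xG ax a 1 * xG ax w 1 * (xG ax a 1)⁻¹) := by group
    _ = (xG ax k 1 * xG ax w 1) * (xG ax v 1 * xG ax b 1) * (xG ax k 1 * xG ax v 1) * (xG ax k 1 * xG ax w 1) := by rw [e4, e5, e6, e7]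
    _ = _ := comm4 (H.c7.comm ax _ _) (H.c8.comm ax _ _) (H.c9.comm ax _ _) (H.c10.comm ax _ _) (H.c11.comm ax _ _)
        (H.c12.comm ax _ _) (xG_sq ax _ _) (xG_sq ax _ _) (xG_sq ax _ _)

/-- The relation. -/
theorem r2_rel {d d' : K} (hd : d + d' = 1) (Z : List ℕ) (hZ : ∀ z ∈ Z, z < D.nroots ∧ pair D a z = 0 ∧ pair D c z = 0) :
    ((xG ax a 1 * xG ax c 1) * (xG ax (D.neg a) d * xG ax (D.neg c) d')) * PP ax ([v, w] ++ Z) *
      ((xG ax a 1 * xG ax c 1) * (xG ax (D.neg a) d * xG ax (D.neg c) d'))⁻¹ = PP ax ([b, k] ++ Z) := by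
  set g := (xG ax a 1 * xG ax c 1) * (xG ax (D.neg a) d * xG ax (D.neg c) d') with hg
  have hav := H.a6.1
  have hcv := H.a4.1
  have hna := h.neg_lt a hav
  have hnc := h.neg_lt c hcv
  have hcomm : ∀ z ∈ Z, g * xG ax z 1 = xG ax z 1 * g := by
    intro z hz
    obtain ⟨h1, h3, h4⟩ := hZ z hz
    have p1 : pair D (D.neg a) z = 0 := by
      rw [hs.pair_sym _ z hna h1, pair_neg h z hav, hs.pair_sym z a h1 hav, h3]
      rfl
    have p2 : pair D (D.neg c) z = 0 := by
      rw [hs.pair_sym _ z hnc h1, pair_neg h z hcv, hs.pair_sym z c h1 hcv, h4]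
      rfl
    have c1 := comm_orth ax h hs hav h1 h3 (1 : K) (1 : K)
    have c2 := comm_orth ax h hs hcv h1 h4 (1 : K) (1 : K)
    have c3 := comm_orth ax h hs hna h1 p1 d (1 : K)
    have c4 := comm_orth ax h hs hnc h1 p2 d' (1 : K)
    rw [hg]
    calc xG ax a 1 * xG ax c 1 * (xG ax (D.neg a) d * xG ax (D.neg c) d') * xG ax z 1
        = xG ax a 1 * xG ax c 1 * xG ax (D.neg a) d * (xG ax (D.neg c) d' * xG ax z 1) := by group
      _ = xG ax a 1 * xG ax c 1 * (xG ax (D.neg a) d * xG ax z 1) * xG ax (D.neg c) d' := by rw [← c4]; group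
      _ = xG ax a 1 * (xG ax c 1 * xG ax z 1) * xG ax (D.neg a) d * xG ax (D.neg c) d' := by rw [← c3]; group
      _ = (xG ax a 1 * xG ax z 1) * xG ax c 1 * xG ax (D.neg a) d * xG ax (D.neg c) d' := by rw [← c2]; group
      _ = _ := by rw [← c1]; group
  have hZc : g * PP ax Z * g⁻¹ = PP ax Z := by
    rw [comm_PP ax hcomm]
    group
  have e1 := r2_first ax h hs H hd
  have e2 := r2_second ax h hs H
  have e3 : g * (xG ax v 1 * xG ax w 1) * g⁻¹ = xG ax b 1 * xG ax k 1 := by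
    rw [hg, ← e2, ← e1]
    group
  have e4 : PP ax ([v, w] ++ Z) = (xG ax v 1 * xG ax w 1) * PP ax Z := by
    rw [PP_append, PP_cons, PP_cons, PP_nil, mul_one]
  have e5 : PP ax ([b, k] ++ Z) = (xG ax b 1 * xG ax k 1) * PP ax Z := by
    rw [PP_append, PP_cons, PP_cons, PP_nil, mul_one]
  rw [e4, e5, ← e3]
  calc g * ((xG ax v 1 * xG ax w 1) * PP ax Z) * g⁻¹ = (g * (xG ax v 1 * xG ax w 1) * g⁻¹) * (g * PP ax Z * g⁻¹) := by group
    _ = _ := by rw [hZc]

end relation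

end Cfsg.Agent.Lib.InvT
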