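import Cfsg.Agent.Lib.InvT.Orb

/-!
The commutators of orbit elements, and the templates of the reduction.
-/

set_option autoImplicit false
set_option linter.unusedSectionVars false
set_option linter.unusedVariables false
set_option linter.ambiguousOpen false
set_option linter.unusedSimpArgs false

namespace Cfsg.Agent.Lib.InvT

open scoped MatrixGroups Matrix
open Cfsg Lie ChevalleyDatum
open Cfsg.Agent.Lib.Chev
open Tables Tables2 Tables3 Raise Basic AxBasic Torus Products Products2 Mono1 Mono2 Mono3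
open Cfsg.Agent.Lib.Twisted.Fact Cfsg.Agent.Lib.InvE.Red Cfsg.Agent.Lib.InvE.Fusion Cfsg.Agent.Lib.Twisted.Tw

variable {D : ChevalleyDatum} {K : Type*} [Field K] [CharP K 2]

/-- A twist given by a symmetry of the roots and a field automorphism of order two. -/
structure TwD {h : Tab D} {ax : Ax D K} (tw : Tw h ax) (φ : K ≃+* K) (ρ : ℕ → ℕ) (f : ℕ → ℤ) : Prop where
  rd : RD D ρ f
  ρ_eq : ∀ r : Fin D.nroots, ((tw.ρ r : Fin D.nroots) : ℕ) = ρ r
  s_x : ∀ r, r < D.nroots → ∀ t, tw.s (xG ax r t) = xG ax (ρ r) (φ t)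
  φφ : ∀ t, φ (φ t) = t

local notation "⟦" a ", " b "⟧" => a * b * a⁻¹ * b⁻¹

section comms

variable (ax : Ax D K) {ρ : ℕ → ℕ} {φ : K ≃+* K} {f : ℕ → ℤ} (R : RD D ρ f) (h : Tab D) (hs : SL D)

/-- The second factor of an orbit element. -/
noncomputable def E2 (ax : Ax D K) (ρ : ℕ → ℕ) (φ : K ≃+* K) (r : ℕ) (t : K) : GL D.Idx K :=
  if ρ r = r then 1 else xG ax (ρ r) (φ t)

lemma Eo_eq (r : ℕ) (t : K) : Eo ax ρ φ r t = xG ax r t * E2 ax ρ φ r t := rfl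

lemma E2_fix {r : ℕ} (hr : ρ r = r) (t : K) : E2 ax ρ φ r t = 1 := by simp [E2, hr]

lemma E2_nf {r : ℕ} (hr : ρ r ≠ r) (t : K) : E2 ax ρ φ r t = xG ax (ρ r) (φ t) := by simp [E2, hr]

include R h hs

omit hs in
lemma E2_GE {r : ℕ} (hr : D.IsPosRoot r) (t : K) : E2 ax ρ φ r t ∈ GE ax f (f r) := by
  unfold E2
  split_ifs with hn
  · exact Subgroup.one_mem _
  · exact xG_mem_rootClosure ax ⟨R.ρ_pos r hr, by rw [R.ρ_lev r hr.1]⟩ _

/-- The commutator of two orbit elements. -/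
lemma Eo_comm_prod {r v : ℕ} (hr : D.IsPosRoot r) (hv : D.IsPosRoot v) (t c : K) :
    ∃ n ∈ GE ax f (f r + f v + 1), ⟦Eo ax ρ φ r t, Eo ax ρ φ v c⟧ =
      ⟦xG ax r t, xG ax v c⟧ * ⟦xG ax r t, E2 ax ρ φ v c⟧ * ⟦E2 ax ρ φ r t, xG ax v c⟧ * ⟦E2 ax ρ φ r t, E2 ax ρ φ v c⟧ * n :=
  comm_prod ax h hs R.lev (by have := R.lev.pos r hr; omega) (by have := R.lev.pos v hv; omega)
    (xG_mem_rootClosure ax ⟨hr, le_refl _⟩ t) (E2_GE ax R h hr t) (xG_mem_rootClosure ax ⟨hv, le_refl _⟩ c) (E2_GE ax R h hv c)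

/-! ### Vanishing -/

/-- The commutator in the vanishing cases. -/
theorem vanish_comm {r v k : ℕ} (hr : D.IsPosRoot r) (hv : D.IsPosRoot v) (hvr : v ≠ r) (hA : AddP D r v k)
    (hp : pair D (ρ r) v ≠ 1) {t c : K} (htf : ρ r = r → φ t = t) (hcf : ρ v = v → φ c = c) :
    ∃ n ∈ GE ax f (f r + f v + 1), ⟦Eo ax ρ φ r t, Eo ax ρ φ v c⟧ = Eo ax ρ φ k (t * c) * n := by
  obtain ⟨n, hn, e⟩ := Eo_comm_prod ax R h hs (φ := φ) hr hv t c
  refine ⟨n, hn, ?_⟩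
  rw [e]
  congr 1
  have hk : D.IsPosRoot k := hA.isPos h hr hv
  have hρr := R.ρ_pos r hr
  have hρv := R.ρ_pos v hv
  have hm1 : pair D r v = -1 := hA.pair_eq_neg_one hs hr.1 hv.1 hvr (pos_ne_neg h hr hv)
  have hAρ := R.ρ_add r v k hr.1 hv.1 hA
  have c11 : ⟦xG ax r t, xG ax v c⟧ = xG ax k (t * c) := cm_add' ax h hs hA hr hv hvr c t
  rw [c11]
  by_cases hrf : ρ r = r
  · rw [E2_fix ax hrf, comm_one_left, comm_one_left, mul_one, mul_one]
    by_cases hvf : ρ v = v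
    · rw [E2_fix ax hvf, comm_one_right, mul_one]
      have hkf : ρ k = k := by
        rw [hrf, hvf] at hAρ
        exact AddP.uniq_sum hAρ hA
      rw [Eo_fix ax hkf]
    · rw [E2_nf ax hvf]
      rw [hrf] at hAρ
      have hkf : ρ k ≠ k := by
        intro e0
        rw [e0] at hAρ
        exact hvf (AddP.uniq_right h hAρ hA hr.1 hρv.1 hv.1)
      have hvr' : ρ v ≠ r := by
        intro e0
        have := R.ρ_ρ v hv.1
        rw [e0, hrf] at this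
        exact hvr this.symm
      rw [cm_add' ax h hs hAρ hr hρv hvr' (φ c) t, Eo_nf ax hkf, map_mul, htf hrf]
  · rw [E2_nf ax hrf]
    have hrv' : v ≠ ρ r := by
      rintro rfl
      rw [hs.pair_sym r (ρ r) hr.1 hρr.1] at hm1
      have := R.orth r hr hrf
      rw [hs.pair_sym r (ρ r) hr.1 hρr.1] at this
      omega
    by_cases hvf : ρ v = v
    · rw [E2_fix ax hvf, comm_one_right, comm_one_right, mul_one, mul_one]
      rw [hvf] at hAρ
      have hkf : ρ k ≠ k := by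
        intro e0
        rw [e0] at hAρ
        exact hrf (AddP.uniq_left h hAρ hA hρr.1 hr.1 hv.1)
      rw [cm_add' ax h hs hAρ hρr hv hrv' c (φ t), Eo_nf ax hkf, map_mul, hcf hvf]
    · rw [E2_nf ax hvf]
      have hp0 : pair D (ρ r) v = 0 := by
        rcases hs.range (ρ r) v hρr.1 hv.1 hrv' (pos_ne_neg h hρr hv) with h1 | h1 | h1
        · exfalso
          apply hvf
          have e1 := R.pmm (ρ r) v hρr hv (by rw [R.ρ_ρ r hr.1]; exact Ne.symm hrf) h1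
          rw [R.ρ_ρ r hr.1] at e1
          exact e1 hm1
        · exact h1
        · exact absurd h1 hp
      have hvr' : ρ v ≠ ρ r := by
        intro e0
        have e1 := congrArg ρ e0
        rw [R.ρ_ρ v hv.1, R.ρ_ρ r hr.1] at e1
        exact hvr e1
      have hkf : ρ k ≠ k := by
        intro e0
        have e1 := hA.pair_add h hr.1 hv.1 (ρ r)
        have e2 : pair D (ρ r) k = pair D r k := by
          rw [R.swap hr.1 (hk.1), e0]
        have e3 := hA.pair_left h hs hr.1 hv.1 hvr (pos_ne_neg h hr hv)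
        have e4 := R.orth r hr hrf
        rw [hs.pair_sym r (ρ r) hr.1 hρr.1] at e4
        omega
      rw [cm_one ax h hs hr hρv (by rw [← R.swap hr.1 hv.1, hp0]; norm_num),
        cm_one ax h hs hρr hv (by rw [hp0]; norm_num),
        cm_add' ax h hs hAρ hρr hρv hvr' (φ c) (φ t), Eo_nf ax hkf, map_mul]
      simp

/-! ### Clearing -/

/-- The commutator in the clearing case with both orbits fixed. -/
theorem clear_ff {r s v : ℕ} (hr : D.IsPosRoot r) (hs' : D.IsPosRoot s) (hsr : s ≠ r) (hA : AddP D r s v)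
    (hrf : ρ r = r) (hsf : ρ s = s) (hvf : ρ v = v) {t d : K} :
    ∃ n ∈ GE ax f (f s + f r + 1), ⟦Eo ax ρ φ s d, Eo ax ρ φ r t⟧ = Eo ax ρ φ v (t * d) * n := by
  obtain ⟨n, hn, e⟩ := Eo_comm_prod ax R h hs (φ := φ) hs' hr d t
  refine ⟨n, hn, ?_⟩
  rw [e, E2_fix ax hrf, E2_fix ax hsf, comm_one_right, comm_one_left, comm_one_left, mul_one, mul_one, mul_one,
    cm_add ax h hs hA hr hs' hsr d t, Eo_fix ax hvf]

/-- The commutator in the clearing case with a fixed root and a nonfixed orbit. -/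
theorem clear_fn {r s v : ℕ} (hr : D.IsPosRoot r) (hs' : D.IsPosRoot s) (hsr : s ≠ r) (hA : AddP D r s v)
    (hrf : ρ r = r) (hsf : ρ s ≠ s) (hvf : ρ v ≠ v) {t d : K} (ht : φ t = t) :
    ∃ n ∈ GE ax f (f s + f r + 1), ⟦Eo ax ρ φ s d, Eo ax ρ φ r t⟧ = Eo ax ρ φ v (t * d) * n := by
  obtain ⟨n, hn, e⟩ := Eo_comm_prod ax R h hs (φ := φ) hs' hr d t
  refine ⟨n, hn, ?_⟩
  have hAρ := R.ρ_add r s v hr.1 hs'.1 hA
  rw [hrf] at hAρ
  have hρs := R.ρ_pos s hs'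
  have hsr' : ρ s ≠ r := by
    intro e0
    have := R.ρ_ρ s hs'.1
    rw [e0, hrf] at this
    exact hsr this.symm
  rw [e, E2_fix ax hrf, E2_nf ax hsf, comm_one_right, comm_one_right, mul_one, mul_one,
    cm_add ax h hs hA hr hs' hsr d t, cm_add ax h hs hAρ hr hρs hsr' (φ d) t, Eo_nf ax hvf, map_mul, ht]

/-- The commutator in the clearing case with a nonfixed root and pairings `1, 0`. -/
theorem clear_n0 {r s v : ℕ} (hr : D.IsPosRoot r) (hs' : D.IsPosRoot s) (hsr : s ≠ r) (hA : AddP D r s v)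
    (hrf : ρ r ≠ r) (hsf : ρ s ≠ s) (hvf : ρ v ≠ v) (hp : pair D (ρ r) v = 0) {t d : K} :
    ∃ n ∈ GE ax f (f s + f r + 1), ⟦Eo ax ρ φ s d, Eo ax ρ φ r t⟧ = Eo ax ρ φ v (t * d) * n := by
  obtain ⟨n, hn, e⟩ := Eo_comm_prod ax R h hs (φ := φ) hs' hr d t
  refine ⟨n, hn, ?_⟩
  have hAρ := R.ρ_add r s v hr.1 hs'.1 hA
  have hρs := R.ρ_pos s hs'
  have hρr := R.ρ_pos r hr
  have hsr' : ρ s ≠ ρ r := by
    intro e0
    have e1 := congrArg ρ e0
    rw [R.ρ_ρ s hs'.1, R.ρ_ρ r hr.1] at e1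
    exact hsr e1
  have e1 := hA.pair_add h hr.1 hs'.1 (ρ r)
  have e4 := R.orth r hr hrf
  rw [hs.pair_sym r (ρ r) hr.1 hρr.1] at e4
  have e5 : pair D (ρ r) s = 0 := by omega
  have e6 : pair D s (ρ r) = 0 := by rw [hs.pair_sym s (ρ r) hs'.1 hρr.1]; exact e5
  have e7 : pair D (ρ s) r = 0 := by
    rw [R.swap hs'.1 hr.1]
    exact e6
  rw [e, E2_nf ax hrf, E2_nf ax hsf, cm_add ax h hs hA hr hs' hsr d t, cm_one ax h hs hs' hρr (by rw [e6]; norm_num),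
    cm_one ax h hs hρs hr (by rw [e7]; norm_num), cm_add ax h hs hAρ hρr hρs hsr' (φ d) (φ t), Eo_nf ax hvf, map_mul]
  simp

/-- The commutator in the clearing case with a nonfixed root and a fixed root with pairings `1, 1`. -/
theorem clear_tr {r s v : ℕ} (hr : D.IsPosRoot r) (hs' : D.IsPosRoot s) (hsr : s ≠ r) (hA : AddP D r s v)
    (hrf : ρ r ≠ r) (hsf : ρ s ≠ s) (hvf : ρ v = v) (hp : pair D (ρ r) v = 1) {t d : K} :
    ∃ n ∈ GE ax f (f s + f r + 1), ⟦Eo ax ρ φ s d, Eo ax ρ φ r t⟧ = Eo ax ρ φ v (t * d + φ (t * d)) * n := by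
  obtain ⟨n, hn, e⟩ := Eo_comm_prod ax R h hs (φ := φ) hs' hr d t
  refine ⟨n, hn, ?_⟩
  have hAρ := R.ρ_add r s v hr.1 hs'.1 hA
  rw [hvf] at hAρ
  have hρs := R.ρ_pos s hs'
  have hρr := R.ρ_pos r hr
  have hsr' : ρ s ≠ ρ r := by
    intro e0
    have e1 := congrArg ρ e0
    rw [R.ρ_ρ s hs'.1, R.ρ_ρ r hr.1] at e1
    exact hsr e1
  have e1 := hA.pair_add h hr.1 hs'.1 (ρ r)
  have e4 := R.orth r hr hrf
  rw [hs.pair_sym r (ρ r) hr.1 hρr.1] at e4
  have e5 : pair D (ρ r) s = 1 := by omega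
  have e6 : pair D s (ρ r) = 1 := by rw [hs.pair_sym s (ρ r) hs'.1 hρr.1]; exact e5
  have e7 : pair D (ρ s) r = 1 := by
    rw [R.swap hs'.1 hr.1]
    exact e6
  rw [e, E2_nf ax hrf, E2_nf ax hsf, cm_add ax h hs hA hr hs' hsr d t, cm_one ax h hs hs' hρr (by rw [e6]; norm_num),
    cm_one ax h hs hρs hr (by rw [e7]; norm_num), cm_add ax h hs hAρ hρr hρs hsr' (φ d) (φ t), Eo_fix ax hvf, map_mul]
  simp [xG_add]

/-- The commutator in the clearing case with a nonfixed root, pairings `1, -1`. -/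
theorem clear_m {r s v : ℕ} (hr : D.IsPosRoot r) (hs' : D.IsPosRoot s) (hsr : s ≠ r) (hA : AddP D r s v)
    (hrf : ρ r ≠ r) (hsf : ρ s = s) (hvf : ρ v ≠ v) {t d : K} (hd : φ d = d) :
    ∃ n ∈ GE ax f (f s + f r + 1), ⟦Eo ax ρ φ s d, Eo ax ρ φ r t⟧ = Eo ax ρ φ v (t * d) * n := by
  obtain ⟨n, hn, e⟩ := Eo_comm_prod ax R h hs (φ := φ) hs' hr d t
  refine ⟨n, hn, ?_⟩
  have hAρ := R.ρ_add r s v hr.1 hs'.1 hA
  rw [hsf] at hAρ
  have hρr := R.ρ_pos r hr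
  have hsr' : s ≠ ρ r := by
    intro e0
    have := R.ρ_ρ r hr.1
    rw [← e0, hsf, e0] at this
    exact hrf this
  rw [e, E2_nf ax hrf, E2_fix ax hsf, comm_one_left, comm_one_left, mul_one, mul_one, cm_add ax h hs hA hr hs' hsr d t,
    cm_add ax h hs hAρ hρr hs' hsr' d (φ t), Eo_nf ax hvf, map_mul, hd]

/-- The commutator in the first equation for pairings `1, -1`. -/
theorem eq_m {r v k : ℕ} (hr : D.IsPosRoot r) (hv : D.IsPosRoot v) (hrf : ρ r ≠ r) (hvf : ρ v ≠ v) (hp : pair D r v = 1)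
    (hA : AddP D (ρ r) v k) (hkf : ρ k = k) (hrv : v ≠ ρ r) (t c : K) :
    ∃ n ∈ GE ax f (f r + f v + 1), ⟦Eo ax ρ φ r t, Eo ax ρ φ v c⟧ = Eo ax ρ φ k (t * φ c + φ t * c) * n := by
  obtain ⟨n, hn, e⟩ := Eo_comm_prod ax R h hs (φ := φ) hr hv t c
  refine ⟨n, hn, ?_⟩
  have hρr := R.ρ_pos r hr
  have hρv := R.ρ_pos v hv
  have hAρ := R.ρ_add (ρ r) v k hρr.1 hv.1 hA
  rw [R.ρ_ρ r hr.1, hkf] at hAρ
  have hvr' : ρ v ≠ r := by
    intro e0
    apply hrv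
    have := R.ρ_ρ v hv.1
    rw [e0] at this
    exact this.symm
  rw [e, E2_nf ax hrf, E2_nf ax hvf, cm_one ax h hs hr hv (by rw [hp]; norm_num),
    cm_add' ax h hs hAρ hr hρv hvr' (φ c) t, cm_add' ax h hs hA hρr hv hrv c (φ t),
    cm_one ax h hs hρr hρv (by rw [R.ρ_pair r v hr.1 hv.1, hp]; norm_num), Eo_fix ax hkf]
  simp [xG_add]

end comms

end Cfsg.Agent.Lib.InvT
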